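import Cfsg.Agent.S4538
import Cfsg.Agent.H7.Count
import Cfsg.Agent.H24.SL2Norm

/-! The number of blocks of `SL_n(q)` in the defining characteristic. -/

set_option autoImplicit false

namespace H24
open Cfsg H5 H7 H8 H12 Cfsg.Lie

theorem card_full {G : Type*} [Group G] [Finite G] {p : ℕ} [hp : Fact p.Prime] {M : Ideal AlgInt} [PM p M] {U : Subgroup G}
    (hU : IsPGroup p U) (h : ∀ c, (∀ u ∈ U, c * u * c⁻¹ = u) → ∃ u ∈ U, u⁻¹ * c ∈ Subgroup.center G)
    (hZ : ¬ p ∣ Nat.card (Subgroup.center G)) : Nat.card {B : Set (IrrCharacter G) // IsPBlock M B ∧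
      (Nat.card G).factorization p ≤ blockDefect p B} = Nat.card (Subgroup.center G) := by
  rw [le_antisymm (card_blocks_le _) card_classes_le]
  have hz : ∀ z ∈ Subgroup.center G, ¬ p ∣ orderOf z := fun z hz e => hZ (e.trans (Subgroup.orderOf_dvd_natCard _ hz))
  refine (Nat.card_eq_of_bijective (fun z : Subgroup.center G => ⟨ConjClasses.mk z.1, z, rfl, hz _ z.2, by
    rw [Subgroup.centralizer_eq_top_iff_subset.2 (by simp), Subgroup.card_top]⟩) ⟨fun a b e => ?_, ?_⟩).symm
  · obtain ⟨x, hx⟩ := isConj_iff.1 (ConjClasses.mk_eq_mk_iff_isConj.1 (congrArg Subtype.val e))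
    exact Subtype.ext (by rw [← hx, Subgroup.mem_center_iff.1 a.2, mul_inv_cancel_right])
  · rintro ⟨_, g, rfl, h1, h2⟩
    obtain ⟨x, hx⟩ := exists_conj_mem_of_not_dvd_index hU (H := Subgroup.centralizer {g}) fun e => by
      have := factorization_index_add (p := p) (Subgroup.centralizer {g})
      have := hp.out.factorization_pos_of_dvd Subgroup.index_ne_zero_of_finite e
      omega
    obtain ⟨u, hu, e⟩ := h (x * g * x⁻¹) fun u hu => by
      have := Subgroup.mem_centralizer_singleton_iff.1 (hx u hu)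
      calc _ = x * (g * (x⁻¹ * u * x)) * g⁻¹ * x⁻¹ := by group
        _ = u := by rw [← this]; group
    refine ⟨⟨_, e⟩, Subtype.ext (ConjClasses.mk_eq_mk_iff_isConj.2 (isConj_iff.2 ⟨x, ?_⟩).symm)⟩
    generalize hc : x * g * x⁻¹ = c at *
    have e1 : ¬ p ∣ orderOf c := by rw [← hc, orderOf_conj']; exact h1
    have e2 : u = c * (u⁻¹ * c)⁻¹ := by group
    obtain rfl : u = 1 := eq_one_of_pow_coprime hU hu (n := orderOf c * orderOf (u⁻¹ * c))
      (fun a => (hp.out.dvd_mul.1 a).elim e1 (hz _ e)) (by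
        refine (congrArg (· ^ (orderOf c * orderOf (u⁻¹ * c))) e2).trans ?_
        rw [Commute.mul_pow (Subgroup.mem_center_iff.1 (inv_mem e) c), pow_mul, pow_orderOf_eq_one, one_pow, one_mul,
          mul_comm, pow_mul, inv_pow, pow_orderOf_eq_one]; simp)
    simp

open Matrix in
theorem card_full_SL (F : Type*) [Field F] [Fintype F] {n : ℕ} (hn : 2 ≤ n) (p : ℕ) [hp : Fact p.Prime] [CharP F p] (M : Ideal AlgInt)
    [PM p M] : Nat.card {B : Set (IrrCharacter (SpecialLinearGroup (Fin n) F)) // IsPBlock M B ∧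
      (Nat.card (SpecialLinearGroup (Fin n) F)).factorization p ≤ blockDefect p B} = Nat.gcd n (Fintype.card F - 1) := by
  have : Nonempty (Fin n) := ⟨⟨0, by omega⟩⟩
  have h0 := H10.card_center_SL (ι := Fin n) (F := F)
  rw [Fintype.card_fin, Nat.card_eq_fintype_card (α := F)] at h0
  have h1 : ¬ p ∣ Nat.card (Subgroup.center (SpecialLinearGroup (Fin n) F)) := fun e => not_dvd_card_units (p := p) F (by
    rw [Nat.card_units, Nat.card_eq_fintype_card]; exact (h0 ▸ e).trans (Nat.gcd_dvd_right _ _))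
  rw [← h0]
  rcases hn.eq_or_lt with rfl | hn
  · refine card_full (rkSL (p := p) F).pU (fun c hc => ?_) h1
    obtain ⟨z, a, -, b⟩ := (rkSL (p := p) F).cent c ((rkSL (p := p) F).normalizer_U.le (Subgroup.centralizer_le_normalizer _
      fun u hu => (mul_inv_eq_iff_eq_mul.1 (hc u hu)).symm)) hc
    exact ⟨_, b, by simpa using Subgroup.mem_center_iff.2 a⟩
  · obtain ⟨l, rfl⟩ : ∃ l, n = l + 1 := ⟨n - 1, by omega⟩
    have h : 2 ≤ l := by omega
    refine card_full ((cov_A h F).isPGroup_U p) (fun c hc => ?_) h1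
    obtain ⟨u, hu, e⟩ := (cov_A h F).cent_UJ (J := ∅) ⟨⟨0, by change 0 < l; omega⟩, id⟩ (g := c) (by simp [sysA_T])
      fun r a _ => hc _ ((sysA h F).x_mem_U a 1)
    exact ⟨u, hu, (cov_A h F).ker_eq_center (sysA_T h F) ▸ by simp [e]⟩

open Matrix in
theorem card_blocks_SL (F : Type*) [Field F] [Fintype F] {n : ℕ} (hn : 2 ≤ n) (p : ℕ) [hp : Fact p.Prime] [CharP F p] {M : Ideal AlgInt}
    (hM : IsPModular p M) : Nat.card {B : Set (IrrCharacter (SpecialLinearGroup (Fin n) F)) // IsPBlock M B} =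
      Nat.gcd n (Fintype.card F - 1) + 1 := by
  classical
  have : PM p M := ⟨hM⟩
  obtain ⟨h1, h2⟩ := Cfsg.Agent.S4538.result (F := F) n hn p M hM
  have h3 : (Nat.card (SpecialLinearGroup (Fin n) F)).factorization p ≠ 0 := by
    refine (hp.out.factorization_pos_of_dvd Nat.card_pos.ne' ?_).ne'
    have e : (⟨0, by omega⟩ : Fin n) ≠ ⟨1, by omega⟩ := by simp
    have h4 : ∀ k : ℕ, SpecialLinearGroup.transvection e (1 : F) ^ k = SpecialLinearGroup.transvection e (k : F) := fun k => by
      induction k <;> simp [*, pow_succ, SpecialLinearGroup.transvection_add]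
    rw [← orderOf_eq_prime (x := SpecialLinearGroup.transvection e (1 : F)) (p := p) (by simp [h4]) fun a => by
      simpa using (SpecialLinearGroup.transvection_mem_center_iff e (1 : F)).1 (a ▸ one_mem _)]
    exact orderOf_dvd_natCard _
  rw [← card_full_SL F hn p M, ← h1, ← Nat.card_sum]
  refine Nat.card_congr ((Equiv.sumCompl fun B : {B // IsPBlock M B} => blockDefect p B.1 ≠ 0).symm.trans (Equiv.sumCongr
    ((Equiv.subtypeSubtypeEquivSubtypeInter _ fun B => blockDefect p B ≠ 0).trans (Equiv.subtypeEquivRight fun B => and_congr_right fun hB => ?_))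
    ((Equiv.subtypeSubtypeEquivSubtypeInter _ fun B => ¬ blockDefect p B ≠ 0).trans (Equiv.subtypeEquivRight fun B => by simp))))
  have := h2 B hB; omega

end H24
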