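import Cfsg.Agent.H24.OP1

/-! Small representations of orthogonal groups, continued: totally singular pairs `TSP`, non-triviality of the Levi
module (`orep_ne_one`), non-cuspidality (`nc`), divisibility of the degree (`tsp_dvd`). -/

set_option autoImplicit false
set_option linter.unusedSectionVars false

namespace H24
open Module H11 H11.PForm Finset H5 Cfsg
open scoped Classical

theorem isIntegral_sum_family' {G I : Type*} [Group G] [Finite G] [Fintype I] {χ : G → ℂ} (h : IsIrrCharacter G χ)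
    (x : I → G) (hx : ∀ g, ∃ e : I ≃ I, ∀ i, x (e i) = g * x i * g⁻¹) {r : ℕ} (h0 : r ≠ 0) (hr : ∀ g, r ∣ #{i | x i = g}) :
    IsIntegral ℤ ((∑ i, χ (x i)) / (r * χ 1)) := by
  have := Fintype.ofFinite G
  have h1 := h.isIntegral_sum_div (φ := fun g => ((#{i | x i = g} / r : ℕ) : ℂ)) (fun g k => by
    obtain ⟨e, he⟩ := hx k
    exact congrArg (fun n : ℕ => ((n / r : ℕ) : ℂ)) (card_equiv e fun i => by simp [he]).symm) fun g => isIntegral_natCast _
  rw [← sum_fiberwise univ x, ← div_div, sum_div]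
  convert h1 using 3 with g
  rw [sum_congr rfl fun i hi => congrArg χ (mem_filter.1 hi).2, Nat.cast_div (hr g) (Nat.cast_ne_zero.2 h0)]
  simp only [sum_const, nsmul_eq_mul]
  ring

variable {F : Type*} [Field F] [Fintype F] {V : Type*} [AddCommGroup V] [Module F V] [FiniteDimensional F V]
  {S : PForm (orthP F) V} {M : Type*} [AddCommGroup M] [Module ℂ M]

variable (S) in
/-- totally singular independent pairs -/
def TSP (u v : V) : Prop := S.q u = 0 ∧ S.q v = 0 ∧ S.h u v = 0 ∧ LinearIndependent F ![u, v]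

theorem TSP.ne {u v : V} (h : TSP S u v) : u ≠ 0 := h.2.2.2.ne_zero 0
theorem TSP.notMem {u v : V} (h : TSP S u v) : v ∉ F ∙ u := fun h' => by
  obtain ⟨c, hc⟩ := Submodule.mem_span_singleton.1 h'
  exact (LinearIndependent.pair_iff' h.ne).1 h.2.2.2 c hc
theorem TSP.of {u v : V} (hu : S.q u = 0) (hv : S.q v = 0) (h : S.h u v = 0) (h0 : u ≠ 0) (h1 : v ∉ F ∙ u) : TSP S u v :=
  ⟨hu, hv, h, (LinearIndependent.pair_iff' h0).2 fun c hc => h1 (Submodule.mem_span_singleton.2 ⟨c, hc⟩)⟩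
theorem TSP.symm {u v : V} (h : TSP S u v) : TSP S v u :=
  ⟨h.2.1, h.1, S.h_swap_zero h.2.2.1, LinearIndependent.pair_symm_iff.1 h.2.2.2⟩
theorem TSP.map {u v : V} (h : TSP S u v) (g : S.Isom) : TSP S (g.1 u) (g.1 v) :=
  ⟨by rw [orth_isom_q, h.1], by rw [orth_isom_q, h.2.1], by rw [isom_h, h.2.2.1], LinearIndependent.pair_iff.2 fun s t e => by
    rw [← map_smul, ← map_smul, ← map_add, LinearEquiv.map_eq_zero_iff] at e
    exact LinearIndependent.pair_iff.1 h.2.2.2 s t e⟩
theorem TSP.ts {u v : V} (h : TSP S u v) : S.TS (Submodule.span F {u, v}) :=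
  orth_ts_iff.2 fun x hx => by
    obtain ⟨s, t, rfl⟩ := Submodule.mem_span_pair.1 hx
    simp [orth_q_add, orth_q_smul, h.1, h.2.1, h.2.2.1]
theorem TSP.finrank {u v : V} (h : TSP S u v) : finrank F (Submodule.span F {u, v}) = 2 := by
  rw [Submodule.span_insert, sup_comm, Submodule.finrank_sup_span_singleton h.symm.notMem, finrank_span_singleton h.symm.ne]

theorem finrank_sup_le' (A : Submodule F V) (u : V) : finrank F ↥(A ⊔ F ∙ u) ≤ finrank F A + 1 :=
  (Submodule.finrank_add_le_finrank_add_finrank _ _).trans (Nat.add_le_add_left (by simpa using finrank_span_le_card {u}) _)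

theorem card_tsp (hS : S.Nondeg) : (Nat.card {p : V × V // TSP S p.1 p.2} : ℤ) = (S.cnt 0 - 1) *
    (S.cnt 0 - (Fintype.card F - 1) * Fintype.card F ^ (finrank F V - 2) - Fintype.card F) := by
  have : Finite V := Module.finite_of_finite F
  have : Fintype V := Fintype.ofFinite V
  have h3 : ∀ u, (Nat.card {v // TSP S u v} : ℤ) = if u ≠ 0 ∧ S.Sing u then
        (S.cnt 0 - (Fintype.card F - 1) * Fintype.card F ^ (finrank F V - 2) - Fintype.card F : ℤ) else 0 := fun u => by
    split_ifs with hu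
    · obtain ⟨f, H⟩ := hS.exists_isHyp hu.2 hu.1
      have h4 := H.finrank_perp
      have h5 := TS.card_perp_norm hS (W := F ∙ u) (ts_span (by simpa using hu.2) (by simpa using hu.2.h_self))
        (hS.restrict_perp H.nondeg) (fun x hx => S.mem_perp_singleton.2 (S.mem_perp_pair.1 hx).1)
        (by rw [finrank_span_singleton hu.1, h4]) 0
      have h6 := H.cnt_eq 0
      have h7 := card_filter_add_card_filter_not (s := univ.filter fun y => y ∈ S.perp (F ∙ u) ∧ 0 - S.q y ∈ (orthP F).Λ)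
        fun y => y ∈ F ∙ u
      have h8 : Nat.card (F ∙ u) = Fintype.card F := by
        rw [card_submodule, finrank_span_singleton hu.1, pow_one, Nat.card_eq_fintype_card]
      rw [h8, Nat.card_eq_fintype_card, Fintype.card_subtype] at h5
      rw [card_submodule, show finrank F (S.perp (Submodule.span F {u, f})) = finrank F V - 2 by omega,
        Nat.card_eq_fintype_card, ← h5, ← h7] at h6
      have hu2 := (orth_sing S u).1 hu.2
      rw [filter_filter, filter_filter, filter_congr (q := fun y => y ∈ F ∙ u) fun y _ => ⟨And.right, fun h => by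
        obtain ⟨c, rfl⟩ := Submodule.mem_span_singleton.1 h
        simp [mem_perp_singleton, hu.2.h_self, (orth_sing S _).1 (hu.2.smul c), h]⟩, ← Fintype.card_subtype,
        ← Nat.card_eq_fintype_card, h8] at h6
      rw [Nat.card_eq_fintype_card, Fintype.card_subtype, filter_congr (q := fun y => (y ∈ S.perp (F ∙ u) ∧
        0 - S.q y ∈ (orthP F).Λ) ∧ y ∉ F ∙ u) fun y _ => by
          simp [TSP, hu2, mem_perp_singleton, LinearIndependent.pair_iff' hu.1, Submodule.mem_span_singleton]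
          tauto]
      zify [Fintype.card_pos (α := F)] at h6
      simp only [orthP_Λ, AddSubgroup.card_bot] at h6 ⊢
      linear_combination -h6
    · rw [Nat.cast_eq_zero, Nat.card_eq_zero]
      exact Or.inl ⟨fun v => hu ⟨v.2.ne, (orth_sing S u).2 v.2.1⟩⟩
  have h4 := S.card_sing_ne_zero
  rw [Nat.card_eq_fintype_card, Fintype.card_subtype] at h4
  have h5 : 1 ≤ S.cnt 0 := by
    rw [cnt_zero]
    exact Nat.card_pos_iff.2 ⟨⟨⟨0, S.sing_zero⟩⟩, inferInstance⟩
  rw [card_subtype_prod (TSP S), Nat.cast_sum, sum_congr rfl fun u _ => h3 u, ← sum_filter, sum_const, h4, nsmul_eq_mul,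
    Nat.cast_sub h5]
  rfl

theorem xe_rot {u v : V} (h : TSP S u v) : xe S v (-u - v) = xe S u v := by
  rw [sub_eq_add_neg, ← neg_one_smul F v, xe_add_e h.2.1 (by simp [h.symm.2.2.1]), ← xe_swap h.2.1 h.1 h.symm.2.2.1]

variable [FiniteDimensional ℂ M]

theorem tsp_dvd (ρ : Representation ℂ S.E M) [ρ.IsIrreducible] {Q : ℤ}
    (ht : ∀ u v, TSP S u v → LinearMap.trace ℂ M (ρ (xe S u v)) = finrank ℂ M - Q) :
    (3 * finrank ℂ M : ℤ) ∣ Nat.card {p : V × V // TSP S p.1 p.2} * (finrank ℂ M - Q) := by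
  have : Finite V := Module.finite_of_finite F
  let I := {p : V × V // TSP S p.1 p.2}
  have : Fintype I := Fintype.ofFinite _
  have : Finite S.Isom := Finite.of_injective (fun g (x : V) => g.1 x) fun _ _ h => isom_ext (congrFun h)
  have h6 := isIntegral_sum_family' (I := I) (isIrrCharacter_character ρ) (fun p => xe S p.1.1 p.1.2) (fun g => by
    let t : S.Isom → I → I := fun g p => ⟨(g.1 p.1.1, g.1 p.1.2), p.2.map g⟩
    exact ⟨⟨t g.1, t g.1⁻¹, fun p => Subtype.ext (Prod.ext (isom_inv_apply_self _ _) (isom_inv_apply_self _ _)),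
      fun p => Subtype.ext (Prod.ext (isom_apply_inv_self _ _) (isom_apply_inv_self _ _))⟩,
      fun p => eq_mul_inv_of_mul_eq (xe_conj g _ _)⟩) three_ne_zero fun g => by
    let σ : Function.End {p : I // xe S p.1.1 p.1.2 = g} := fun p => ⟨⟨(p.1.1.2, -p.1.1.1 - p.1.1.2), .of p.1.2.2.1
      (by simp [orth_q_sub, orth_q_neg, p.1.2.1, p.1.2.2.1, p.1.2.2.2.1])
      (by simp [orth_h_self, p.1.2.2.1, p.1.2.symm.2.2.1]) p.1.2.symm.ne fun h => p.1.2.symm.notMem (by
        simpa using Submodule.neg_mem _ (Submodule.add_mem _ h (Submodule.mem_span_singleton_self _)))⟩,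
      (xe_rot p.1.2).trans p.2⟩
    have := Fact.mk Nat.prime_three
    have h := Equiv.Perm.card_fixedPoints_modEq (f := σ) (p := 3) (n := 1) (funext fun p => Subtype.ext (Subtype.ext
      (Prod.ext (show - p.1.1.2 - (-p.1.1.1 - p.1.1.2) = p.1.1.1 by abel)
        (show -(-p.1.1.1 - p.1.1.2) - (- p.1.1.2 - (-p.1.1.1 - p.1.1.2)) = p.1.1.2 by abel))))
    rw [Fintype.card_eq_zero_iff.2 ⟨fun p : σ.fixedPoints => p.1.1.2.notMem (by
      rw [show p.1.1.1.2 = p.1.1.1.1 from congrArg (fun x => x.1.1.1) p.2]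
      exact Submodule.mem_span_singleton_self _)⟩, Fintype.card_subtype] at h
    convert Nat.modEq_zero_iff_dvd.1 h
  rw [Representation.char_one, sum_congr rfl (f := fun p : I => ρ.character (xe S p.1.1 p.1.2))
    (g := fun _ => (finrank ℂ M - Q : ℂ)) fun p _ => ht _ _ p.2] at h6
  have := finrank_pos_of_isIrreducible ρ
  refine int_dvd_of_isIntegral_div (by omega) ?_
  simpa [I, mul_sub] using h6

variable (ρ : S.E →* End ℂ M) {ψ : AddChar F ℂ} (hψ : ψ ≠ 1) (hS : S.Nondeg)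
include hS

theorem card_q_ne [Fintype V] {u v : V} (hu : S.h u v = 0) (hv : S.q v = 0) (hi : v ∉ F ∙ u) (c : F) :
    Fintype.card F * #{w | S.h u w = 0 ∧ S.q w = c ∧ S.h v w ≠ 0} =
      (Fintype.card F - 1) * Fintype.card F ^ (finrank F V - finrank F ↥(F ∙ u ⊔ F ∙ v)) := by
  rw [card_eq_sum_card_fiberwise (f := fun w => S.h v w) (t := univ.erase 0) fun w hw => by simp at hw ⊢; exact hw.2.2,
    mul_sum, sum_congr rfl fun t ht => ?_, sum_const, card_erase_of_mem (mem_univ _), card_univ, smul_eq_mul]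
  rw [← card_q_h hS hu hv hi c (ne_of_mem_erase ht), filter_filter]
  congr 2
  ext w
  have := ne_of_mem_erase ht
  by_cases h : S.h v w = t <;> simp [h, this]

theorem exists_sing_perp {l : Submodule F V} (hl : S.TS l) (h : 2 * finrank F l + 3 ≤ finrank F V) :
    ∃ u ∈ S.perp l, S.Sing u ∧ u ∉ l := by
  by_contra hc
  push Not at hc
  obtain ⟨X, hX, h3⟩ := hS.orth_hasTS (k := finrank F l + 1) h
  have := TS.finrank_le_of_maximal hS hl hc hX
  omega

theorem exists_tsp (h : 5 ≤ finrank F V) : ∃ u v, TSP S u v := by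
  obtain ⟨u, h0, hu⟩ := orth_exists_sing S (by omega)
  obtain ⟨v, h1, h2, h3⟩ := exists_sing_perp hS (l := F ∙ u) (ts_span (by simpa using (orth_sing S u).2 hu) (by simp [orth_h_self, hu]))
    (by rw [finrank_span_singleton h0]; omega)
  exact ⟨u, v, .of hu ((orth_sing _ _).1 h2) (S.mem_perp_singleton.1 h1) h0 h3⟩

theorem q_triv (h7 : 7 ≤ finrank F V) {e w : V} (h : TSP S e w) (h1 : finrank ℂ (OJ ρ ψ e w) = 1) {a x : V}
    (ha : a ∈ Submodule.span F {e, w}) (hx : x ∈ S.perp (Submodule.span F {e, w})) {m : M} (hm : m ∈ OJ ρ ψ e w) :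
    ρ (xe S a x) m = m := by
  set l := Submodule.span F {e, w}
  have he : e ∈ l := Submodule.subset_span (by simp)
  have hw : w ∈ l := Submodule.subset_span (by simp)
  have qa := orth_ts_iff.1 h.ts a ha
  obtain ⟨u, hu, qu, hu'⟩ := exists_sing_perp hS h.ts (by rw [h.finrank]; omega)
  obtain ⟨u', hu1, qu', hu2⟩ := hS.exists_partner l qu hu' hu
  have k1 : ∀ y ∈ S.perp l, S.Sing y → ∀ s : F, ρ (xe S a (s • y)) m = m := fun y hy qy s =>
    OJ_triv' hS h1 qa ((orth_sing _ _).1 (qy.smul s)) (by simp [hy a ha]) (h.ts.h_eq ha he) (h.ts.h_eq ha hw)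
      (by simp [S.h_swap_zero (hy e he)]) (by simp [S.h_swap_zero (hy w hw)]) (Y := l ⊔ F ∙ y)
      (by have := finrank_sup_le' l y; rw [h.finrank] at this; omega) (Submodule.mem_sup_left he)
      (Submodule.mem_sup_left hw) (Submodule.mem_sup_left ha)
      (Submodule.mem_sup_right (Submodule.smul_mem _ _ (Submodule.mem_span_singleton_self y))) hm
  have hb : x - S.h u x • u' ∈ S.perp l := Submodule.sub_mem _ hx (Submodule.smul_mem _ _ hu1)
  have hb' : S.h u (x - S.h u x • u') = 0 := by simp [hu2]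
  rw [← sub_add_cancel x (S.h u x • u'), xe_add qa (hb a ha) (by simp [hu1 a ha]), map_mul, End.mul_apply, k1 _ hu1 qu']
  generalize x - S.h u x • u' = b at hb hb'
  have k2 := OJ_triv h1 qa (hu1 a ha) (h.ts.h_eq ha he) (h.ts.h_eq ha hw) (S.h_swap_zero (hu1 e he))
    (S.h_swap_zero (hu1 w hw)) (g := xe S u b) (xe_perp (S.h_swap_zero (hu e he)) (S.h_swap_zero (hb e he)))
    (xe_perp (S.h_swap_zero (hu w hw)) (S.h_swap_zero (hb w hw))) (c := 1)
    (by rw [one_smul, xe_perp (S.h_swap_zero (hu a ha)) (S.h_swap_zero (hb a ha))]) hm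
  rw [xe_apply ((orth_sing _ _).1 qu) hb', hu2, show ∀ s : F, (1 : F) • (u' + (1 : F) • b - s • u) - u' = b + (-s) • u from
    fun s => by module, xe_add qa (hb a ha) (by simp [hu a ha]), map_mul, End.mul_apply, k1 _ hu qu] at k2
  exact k2

include hψ

theorem trace_tsp (hs : ∀ e, S.q e = 0 → e ≠ 0 → ∃ c, Sph e ρ ψ c) {u v : V} (h : TSP S u v) :
    LinearMap.trace ℂ M (ρ (xe S u v)) = finrank ℂ M - Fintype.card F ^ (finrank F V - 3) := by
  obtain ⟨f, H⟩ := hS.exists_isHyp ((orth_sing _ _).2 h.1) h.ne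
  obtain ⟨c, hc⟩ := hs u h.1 h.ne
  exact trace_long H ρ hψ hS hc h.2.2.1 h.2.1 h.notMem

theorem orep_ne_one {e f : V} (H : S.IsHyp e f) {c : F} (hc : Sph e ρ ψ c) {u v : OW S e f}
    (h : TSP (S.restrict (OW S e f)) u v)
    (ht : LinearMap.trace ℂ M (ρ (xe S u v)) = finrank ℂ M - Fintype.card F ^ (finrank F V - 3))
    (hY : ∀ w : OW S e f, S.q w = c → S.h u w = 0 → S.h v w = 0 →
      ∃ Y : Submodule F V, 2 * finrank F Y < finrank F V ∧ e ∈ Y ∧ w.1 ∈ Y ∧ u.1 ∈ Y ∧ v.1 ∈ Y) :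
    ∃ g, orep H ρ ψ g ≠ 1 := by
  by_contra hn
  push Not at hn
  have : Finite V := Module.finite_of_finite F
  have : Fintype (OW S e f) := Fintype.ofFinite _
  have hW : (S.restrict (OW S e f)).Nondeg := hS.restrict_perp H.nondeg
  have hA := card_OW_ne H hψ hS
  let z := xe (S.restrict (OW S e f)) u v
  have h1 := (oact H ρ).trace_eq_sum_fixed (opair hψ hW) hA (g := ρ (oemb H z)) (fun w => z.1.1 w) fun w m hm => by
    rw [oact_W H ρ hψ hS] at hm ⊢
    simpa only [oemb_e, oemb_W] using OJ_map (oemb H z) hm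
  have h2 : ∀ w, z.1.1 w = w ↔ S.h u w = 0 ∧ S.h v w = 0 := fun w => ⟨fun h2 => by
    rw [xe_apply h.1 h.2.2.1, h.2.1, add_sub_assoc, add_eq_left, sub_eq_add_neg, ← neg_smul] at h2
    simpa using LinearIndependent.pair_iff.1 h.symm.2.2.2 _ _ h2, fun h2 => xe_perp h2.1 h2.2⟩
  replace h1 := h1.trans (sum_congr rfl (g := fun w : OW S e f => (finrank ℂ (OJ ρ ψ e w) : ℂ)) fun w hw => by
    rw [(oact H ρ).trace_mul_P_of_smul _ hA (s := 1), one_mul, oact_W H ρ hψ hS]
    intro m hm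
    rw [oact_W H ρ hψ hS] at hm
    by_cases h0 : w = 0
    · subst h0
      exact (congrArg Subtype.val (LinearMap.congr_fun (hn z) ⟨m, hm⟩)).trans (one_smul _ _).symm
    have h3 := hc w (OW_e w) (OW_notMem H h0)
    have h4 := (h2 w).1 (mem_filter.1 hw).2
    split_ifs at h3 with h5
    · obtain ⟨Y, y0, y1, y2, y3, y4⟩ := hY w h5 h4.1 h4.2
      rw [oemb_xe, one_smul]
      exact OJ_triv' hS h3 h.1 h.2.1 h.2.2.1 (S.h_swap_zero (OW_e u)) h4.1 (S.h_swap_zero (OW_e v)) h4.2
        y0 y1 y2 y3 y4 hm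
    · rw [Submodule.finrank_eq_zero.1 h3, Submodule.mem_bot] at hm
      simp [hm])
  rw [oemb_xe, ht, ← sum_OJ H ρ hψ hS, Nat.cast_sum, sub_eq_iff_eq_add, ← sum_filter_add_sum_filter_not univ
      fun w => z.1.1 w = w, add_right_inj, sum_filter] at h1
  have h3 := hc.sum H ρ hψ hS fun w => if ¬ z.1.1 w = w then 1 else 0
  simp only [ite_mul, one_mul, zero_mul] at h3
  rw [h1, if_neg (by simp), zero_add, sum_boole, filter_filter] at h3
  have h4 := card_q_ne hW (u := 0) (by simp) h.1 (by simpa using h.ne) c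
  have h5 := card_q_ne hW h.2.2.1 h.2.1 h.notMem c
  have h6 := card_filter_add_card_filter_not (s := univ.filter fun w : OW S e f => (w ≠ 0 ∧ S.q w = c) ∧ ¬ z.1.1 w = w)
    fun w => S.h u w = 0
  have h7 := OW_finrank H
  have h8 := h.ts.two_mul_finrank_le hW
  rw [Submodule.span_zero_singleton, bot_sup_eq, finrank_span_singleton h.ne] at h4
  rw [← Submodule.span_insert, h.finrank] at h5
  rw [h.finrank] at h8
  rw [filter_filter, filter_filter, filter_congr (q := fun w : OW S e f => S.h u w = 0 ∧ S.q w = c ∧ S.h v w ≠ 0) fun w _ => by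
      by_cases h : w = 0 <;> simp [h, h2]; tauto,
    filter_congr (p := fun w => _ ∧ ¬ _) (q := fun w : OW S e f => S.h 0 w = 0 ∧ S.q w = c ∧ S.h u w ≠ 0) fun w _ => by
      by_cases h : w = 0 <;> simp [h, h2]; tauto] at h6
  replace h3 := Nat.cast_injective (R := ℂ) ((Nat.cast_pow _ _).trans h3)
  obtain ⟨k, hk⟩ : ∃ k, finrank F (OW S e f) = k + 2 := ⟨_, (Nat.sub_add_cancel (by omega)).symm⟩
  rw [← h6, show finrank F V - 3 = k + 1 by omega] at h3
  replace h3 := congrArg (Fintype.card F * ·) h3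
  simp only [mul_add] at h3
  erw [h4, h5] at h3
  rw [hk] at h3
  have := pow_pos (Fintype.card_pos (α := F)) k
  zify [Fintype.card_pos (α := F)] at h3 this
  simp only [Nat.add_sub_cancel, show k + 2 - 1 = k + 1 from rfl] at h3
  exact this.ne' (by linear_combination h3)

theorem P_comm {e f : V} (H : S.IsHyp e f) [Fintype (OW S e f)] {T : End ℂ M}
    (hT : ∀ x, S.h e x = 0 → ∀ m, T (ρ (xe S e x) m) = ρ (xe S e x) (T m)) (w : OW S e f) (m : M) :
    (oact H ρ).P (opair hψ (hS.restrict_perp H.nondeg)) w (T m) =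
      T ((oact H ρ).P (opair hψ (hS.restrict_perp H.nondeg)) w m) := by
  simp only [Act.P, LinearMap.smul_apply, LinearMap.sum_apply, map_smul, map_sum]
  exact congrArg _ (sum_congr rfl fun x _ => congrArg _ (hT x (OW_e x) m).symm)

theorem nc (N : Submodule F V → Submodule ℂ M) (N1 : ∀ l (g : S.E), g.1 ∈ S.stab l → ∀ m ∈ N l, ρ g m ∈ N l)
    (N2 : ∀ a b, TSP S a b → OJ ρ ψ a b ≤ N (Submodule.span F {a, b}))
    (N3 : ∀ a b, TSP S a b → ∀ m ∈ N (Submodule.span F {a, b}), ∀ y ∈ Submodule.span F {a, b},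
      ∀ x ∈ S.perp (Submodule.span F {a, b}), ρ (xe S y x) m = m)
    (hs : ∀ e, S.q e = 0 → e ≠ 0 → Sph e ρ ψ 0) {a b e₁ : V} (hab : TSP S a b) (q1 : S.q e₁ = 0)
    (p1 : e₁ ∈ S.perp (Submodule.span F {a, b})) (n1 : e₁ ∉ Submodule.span F {a, b})
    (N4 : ∀ m ∈ N (Submodule.span F {a, b}), ∀ e ∈ S.perp (Submodule.span F {a, b}), ∀ w ∈ S.perp (Submodule.span F {a, b}),
      S.q e = 0 → S.q w = 0 → S.h e w = 0 → e ∉ Submodule.span F {a, b} → w ∉ Submodule.span F {a, b} ⊔ F ∙ e →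
      ∃ x, S.h e x = 0 ∧ ρ (xe S e x) m = m ∧ ψ (S.h x w) ≠ 1) :
    ∃ a b, TSP S a b ∧ N (Submodule.span F {a, b}) ⊓ OJ ρ ψ a 0 ≠ ⊥ := by
  by_contra hn
  push Not at hn
  have : Finite V := Module.finite_of_finite F
  have : Finite S.Isom := Finite.of_injective (fun g (x : V) => g.1 x) fun _ _ h => isom_ext (congrFun h)
  obtain ⟨v, hv, h0⟩ := Submodule.exists_mem_ne_zero_of_ne_bot (p := OJ ρ ψ a b) fun h => by
    have := hs a hab.1 hab.ne b hab.2.2.1 hab.notMem
    rw [h, if_pos hab.2.1, finrank_bot] at this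
    exact zero_ne_one this
  have hN := N2 a b hab hv
  set l := Submodule.span F {a, b}
  have ha : a ∈ l := Submodule.subset_span (by simp)
  have hb : b ∈ l := Submodule.subset_span (by simp)
  have key : ∀ e ∈ S.perp l, S.q e = 0 → e ∉ l → v ∈ OJ ρ ψ e 0 := fun e he qe ne => by
    have e0 : e ≠ 0 := fun h => ne (h ▸ l.zero_mem)
    obtain ⟨f, H⟩ := hS.exists_isHyp ((orth_sing _ _).2 qe) e0
    have : Fintype (OW S e f) := Fintype.ofFinite _
    have hA := card_OW_ne H hψ hS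
    have hP : ∀ (w : OW S e f) m, (oact H ρ).P (opair hψ (hS.restrict_perp H.nondeg)) w m ∈ OJ ρ ψ e w := fun w m =>
      oact_W H ρ hψ hS w ▸ (oact H ρ).P_mem _ w m
    rw [← (oact H ρ).sum_P_apply (opair hψ (hS.restrict_perp H.nondeg)) hA v, sum_eq_single 0 (fun w _ hw => ?_) (by simp)]
    · exact hP 0 v
    by_cases qw : S.q w = 0
    swap
    · have := hs e qe e0 w (OW_e w) (OW_notMem H hw)
      rw [if_neg qw, Submodule.finrank_eq_zero] at this
      simpa [this] using hP w v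
    by_cases h1 : ∃ x, S.h e x = 0 ∧ ρ (xe S e x) v = v ∧ ψ (S.h x w) ≠ 1
    · obtain ⟨x, h1, h2, h3⟩ := h1
      have := P_comm ρ hψ hS H (T := ρ (xe S e x)) (fun y hy m => by
        rw [← End.mul_apply, ← map_mul, ← xe_add qe h1 hy, add_comm, xe_add qe hy h1, map_mul, End.mul_apply]) w v
      rw [h2, mem_OJ.1 (hP w v) x h1, eq_comm, ← sub_eq_zero, ← one_smul ℂ (Act.P _ _ w v), smul_smul, ← sub_smul] at this
      simpa [sub_eq_zero, h3] using this
    have h2 : w.1 ∈ S.perp l := fun y hy => eq_zero_of_forall_addChar_mul hψ fun t => by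
      by_contra h
      have h3 := l.smul_mem t hy
      have h4 := orth_ts_iff.1 hab.ts _ h3
      refine h1 ⟨t • y, S.h_swap_zero (he _ h3), ?_, by simpa using h⟩
      rw [xe_swap h4 qe (he _ h3)]
      exact N3 a b hab v hN _ h3 _ (Submodule.neg_mem _ he)
    obtain ⟨y, hy, _, h3, h4⟩ := Submodule.mem_sup.1 (not_not.1 fun h => h1 (N4 v hN e he w h2 qe qw (OW_e w) ne h))
    obtain ⟨c, rfl⟩ := Submodule.mem_span_singleton.1 h3
    have y0 : y ≠ 0 := fun h => OW_notMem H hw (by rwa [← h4, h, zero_add])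
    have t1 : TSP S y e := .of (orth_ts_iff.1 hab.ts _ hy) qe (he _ hy) y0 fun h => ne (Submodule.span_le.2 (by simpa) h)
    obtain ⟨z, hz, hz'⟩ := hS.exists_perp_of_notMem' ne 1
    obtain ⟨π, π1, π2, π3⟩ := exists_eqv_proj ρ ((S.stab (Submodule.span F {y, e})).comap S.E.subtype) _ (N1 _)
    have st : ∀ {y e x : V}, TSP S y e → S.h y x = 0 → (xe S y x).1 ∈ S.stab (Submodule.span F {y, e}) :=
      fun {y e x} t hx => mem_stab_of_le fun p hp => by
        obtain ⟨s, r, rfl⟩ := Submodule.mem_span_pair.1 hp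
        rw [map_add, map_smul, map_smul, xe_self, xe_apply t.1 hx, t.2.2.1]
        exact Submodule.mem_span_pair.2 ⟨s - r * S.h x e, r, by module⟩
    have h5 : π v = 0 := (Submodule.eq_bot_iff _).1 (hn y e t1) _ ⟨π1 v, mem_OJ_zero.2 fun x hx => by
      have h6 : S.h y (S.h e x • z) = 0 := by simp [hz y hy]
      rw [← sub_add_cancel x (S.h e x • z), xe_add t1.1 (by rw [map_sub, hx, h6, sub_zero]) h6, map_mul, End.mul_apply,
        ← π3 _ (st t1 h6), N3 a b hab v hN y hy _ (Submodule.smul_mem _ _ hz)]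
      exact N3 y e t1 _ (π1 v) y (Submodule.subset_span (by simp)) _ (S.mem_perp_pair.2
        ⟨by rw [map_sub, hx, h6, sub_zero], by simp [hz']⟩)⟩
    have h6 := hP w v
    rw [← h4, OJ_add_e] at h6
    have h7 := N2 e y t1.symm h6
    rw [Set.pair_comm] at h7
    rw [← π2 _ h7, ← P_comm ρ hψ hS H (T := π)
      (fun x hx m => π3 _ (Set.pair_comm e y ▸ st t1.symm hx) m), h5, map_zero]
  have n2 : b ∉ Submodule.span F {a, e₁} := fun h => by
    obtain ⟨s, t, h⟩ := Submodule.mem_span_pair.1 h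
    by_cases ht : t = 0
    · exact hab.notMem (Submodule.mem_span_singleton.2 ⟨s, by simpa [ht] using h⟩)
    · exact n1 (Submodule.mem_span_pair.2 ⟨-s / t, t⁻¹, by rw [← h]; match_scalars <;> field_simp <;> ring⟩)
  obtain ⟨z, hz, qz, hz'⟩ := hS.exists_partner _ ((orth_sing _ _).2 hab.2.1) n2
    (S.mem_perp_pair.2 ⟨hab.2.2.1, S.h_swap_zero (p1 b hb)⟩)
  rw [S.mem_perp_pair] at hz
  refine hψ (AddChar.ext _ _ fun t => smul_left_injective ℂ h0 ?_)
  have qt := (orth_sing _ _).1 (qz.smul t)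
  have q2 : S.q (e₁ + a) = 0 := by simp [orth_q_add, q1, hab.1, S.h_swap_zero (p1 a ha)]
  have k1 := mem_OJ_zero.1 (key e₁ p1 q1 n1) (t • z) (by simp [hz.2])
  have k2 := mem_OJ_zero.1 (key _ (Submodule.add_mem _ p1 (hab.ts.le_perp ha)) q2 fun h =>
    n1 (by simpa using l.sub_mem h ha)) (t • z) (by simp [hz.1, hz.2])
  have k3 := mem_OJ.1 hv (t • z) (by simp [hz.1])
  have z1 := S.h_swap_zero hz.1
  have z2 := S.h_swap_zero hz.2
  rw [xe_swap qt q2 (by simp [z1, z2]), neg_add_rev, xe_add qt (by simp [z1]) (by simp [z2]),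
    ← xe_swap qt q1 (by simp [z2]), ← xe_swap qt hab.1 (by simp [z1]), map_mul, End.mul_apply, k1, k3] at k2
  rw [S.orth_symm] at hz'
  simpa [hz'] using k2

end H24
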