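import Cfsg.Agent.H24.OP2

/-! Small representations of odd-dimensional orthogonal groups: weight projections `OP`, frames `Fr`, the action of the
stabiliser of a weight (`fix_triv`, `kappa`). -/

set_option autoImplicit false
set_option linter.unusedSectionVars false

namespace H24
open Module H11 H11.PForm Finset
open scoped Classical

variable {F : Type*} [Field F] [Fintype F] {V : Type*} [AddCommGroup V] [Module F V] [FiniteDimensional F V]
  {S : PForm (orthP F) V} {M : Type*} [AddCommGroup M] [Module ℂ M]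

section
variable [Fintype V] (ρ : S.E →* End ℂ M) (ψ : AddChar F ℂ)

/-- projection to a weight space, up to a scalar -/
noncomputable def OP (e w : V) : End ℂ M := ∑ x ∈ univ.filter fun x => S.h e x = 0, ψ (-S.h x w) • ρ (xe S e x)

theorem OP_apply (e w : V) (m : M) :
    OP ρ ψ e w m = ∑ x ∈ univ.filter fun x => S.h e x = 0, ψ (-S.h x w) • ρ (xe S e x) m := by
  simp [OP, LinearMap.sum_apply]

variable {ρ ψ}

theorem OP_map (g : S.E) (e w : V) (m : M) : ρ g (OP ρ ψ e w m) = OP ρ ψ (g.1.1 e) (g.1.1 w) (ρ g m) := by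
  rw [OP_apply, OP_apply, map_sum]
  refine sum_equiv g.1.1.toEquiv (by simp) fun x _ => ?_
  rw [map_smul, ← End.mul_apply, ← map_mul, ← xe_conj, map_mul]
  simp

theorem OP_smul {e : V} (he : S.q e = 0) (w : V) {c : F} (hc : c ≠ 0) (m : M) :
    OP ρ ψ (c • e) (c • w) m = OP ρ ψ e w m := by
  rw [OP_apply, OP_apply]
  refine sum_equiv (LinearEquiv.smulOfNeZero F V c hc).toEquiv (by simp [hc]) fun x hx => ?_
  rw [xe_smul he (by simpa [hc] using hx)]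
  simp

theorem OP_add_e (e w : V) (c : F) (m : M) : OP ρ ψ e (w + c • e) m = OP ρ ψ e w m := by
  rw [OP_apply, OP_apply]
  exact sum_congr rfl fun x hx => by simp [S.h_swap_zero (mem_filter.1 hx).2]

theorem OP_xe' {e y : V} (he : S.q e = 0) (hy : S.h e y = 0) (w : V) (m : M) :
    ∑ x ∈ univ.filter fun x => S.h e x = 0, ψ (-S.h x w) • ρ (xe S e (x + y)) m = ψ (S.h y w) • OP ρ ψ e w m := by
  rw [OP_apply, smul_sum]
  refine sum_equiv (Equiv.addRight y) (by simp [hy]) fun x _ => ?_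
  simp [smul_smul, ← AddChar.map_add_eq_mul]

theorem OP_xe {e y : V} (he : S.q e = 0) (hy : S.h e y = 0) (w : V) (m : M) :
    OP ρ ψ e w (ρ (xe S e y) m) = ψ (S.h y w) • OP ρ ψ e w m := by
  rw [← OP_xe' he hy, OP_apply]
  exact sum_congr rfl fun x hx => by rw [xe_add he (mem_filter.1 hx).2 hy, map_mul, End.mul_apply]

theorem OP_mem {e : V} (he : S.q e = 0) (w : V) (m : M) : OP ρ ψ e w m ∈ OJ ρ ψ e w := mem_OJ.2 fun y hy => by
  rw [← OP_xe' he hy, OP_apply, map_sum]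
  exact sum_congr rfl fun x hx => by
    rw [add_comm, xe_add he hy (mem_filter.1 hx).2, map_mul, End.mul_apply, map_smul]

theorem OP_eig {e y w : V} (he : S.q e = 0) (hy : S.h e y = 0) {m : M} {c : ℂ} (h : ρ (xe S e y) m = c • m)
    (h0 : OP ρ ψ e w m ≠ 0) : ψ (S.h y w) = c := by
  have := OP_xe (ρ := ρ) (ψ := ψ) he hy w m
  rw [h, map_smul] at this
  exact (smul_left_injective ℂ h0 this).symm

theorem OP_ne {e w : V} {m : M} (hm : m ∈ OJ ρ ψ e w) (h0 : m ≠ 0) : OP ρ ψ e w m ≠ 0 := by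
  rw [OP_apply, sum_congr rfl (g := fun _ => m) fun x hx => by
    simp [mem_OJ.1 hm x (mem_filter.1 hx).2, smul_smul, ← AddChar.map_add_eq_mul], sum_const, ← Nat.cast_smul_eq_nsmul ℂ]
  exact smul_ne_zero (Nat.cast_ne_zero.2 (card_ne_zero.2 ⟨0, by simp⟩)) h0

theorem OP_ind (hψ : ψ ≠ 1) (hS : S.Nondeg) (e : V) {p : Submodule ℂ M} {m : M} (h : ∀ w, OP ρ ψ e w m ∈ p) : m ∈ p := by
  have h1 : ∑ w, OP ρ ψ e w m = (Fintype.card V : ℂ) • m := by
    simp only [OP_apply]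
    rw [sum_comm, sum_eq_single 0 (fun x _ hx => ?_) (by simp)]
    · simp [xe_zero, Nat.cast_smul_eq_nsmul]
    have := (opair hψ hS).sum_right (-x)
    rw [if_neg (neg_ne_zero.2 hx)] at this
    rw [← sum_smul]
    convert zero_smul ℂ _
    simpa [opair, Pairing.ofBilin] using this
  rw [← p.smul_mem_iff (Nat.cast_ne_zero.2 Fintype.card_ne_zero : (Fintype.card V : ℂ) ≠ 0), ← h1]
  exact sum_mem fun w _ => h w

theorem OP_cases (hψ : ψ ≠ 1) {e w : V} (he : S.q e = 0) (h0 : e ≠ 0) (hs : Sph e ρ ψ 0) [FiniteDimensional ℂ M] {m : M}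
    (h : OP ρ ψ e w m ≠ 0) : S.h e w = 0 ∧ S.q w = 0 := by
  have h1 : S.h e w = 0 := eq_zero_of_forall_addChar_mul hψ fun t => by
    have h2 : S.h e (t • e) = 0 := by simp [orth_h_self, he]
    have h3 := xe_add_e (x := 0) he (by simp) t
    rw [zero_add, xe_zero] at h3
    simpa using OP_eig he h2 (c := 1) (by simp [h3]) h
  refine ⟨h1, ?_⟩
  by_cases h2 : w ∈ F ∙ e
  · obtain ⟨c, rfl⟩ := Submodule.mem_span_singleton.1 h2
    simp [orth_q_smul, he]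
  by_contra h3
  have := hs w h1 h2
  rw [if_neg h3, Submodule.finrank_eq_zero] at this
  exact h (by simpa [this] using OP_mem (ρ := ρ) (ψ := ψ) he w m)
end

variable {ρ : S.E →* End ℂ M} {ψ : AddChar F ℂ}

theorem sub_one_smul'' (c : F) (x : V) : (c - 1) • x = c • x - x := by rw [sub_smul, one_smul]

theorem E_mul_apply (g k : S.E) (x : V) : (g * k).1.1 x = g.1.1 (k.1.1 x) := rfl

variable (ρ) in
theorem E_inv_cancel (g : S.E) (m : M) : ρ g⁻¹ (ρ g m) = m := by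
  rw [← End.mul_apply, ← map_mul, inv_mul_cancel, map_one, End.one_apply]

theorem E_ind {p : S.E → Prop} (h1 : ∀ g k, p g → p k → p (g * k)) (h2 : ∀ u v, S.q u = 0 → S.h u v = 0 → p (xe S u v))
    (g : S.E) : p g := by
  have h0 : p 1 := by simpa [xe_zero] using h2 0 0 S.orth_q_zero (by simp)
  obtain ⟨g, hg⟩ := g
  induction hg using Subgroup.closure_induction'' with
  | one => exact h0
  | mem g hg =>
    obtain ⟨u, v, a, rfl⟩ := hg
    by_cases h : S.ECond u v a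
    · obtain rfl := h.orth_eq
      exact h2 u v ((orth_sing _ _).1 h.sing) h.perp
    · simp only [eich_junk h]
      exact h0
  | inv_mem g hg =>
    obtain ⟨u, v, a, rfl⟩ := hg
    by_cases h : S.ECond u v a
    · obtain rfl := h.orth_eq
      have hu := (orth_sing _ _).1 h.sing
      convert h2 u (-v) hu (by simp [h.perp]) using 1
      exact Subtype.ext (orth_eich_neg hu h.perp).symm
    · simp only [eich_junk h, inv_one]
      exact h0
  | mul g k _ _ a b => exact h1 ⟨g, _⟩ ⟨k, _⟩ a b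

theorem fix_of_OJ (hS : S.Nondeg) (h3 : 3 ≤ finrank F V) {e f : V} (H : S.IsHyp e f) {m : M} (h1 : m ∈ OJ ρ ψ e 0)
    (h2 : m ∈ OJ ρ ψ f 0) (g : S.E) : ρ g m = m := by
  have mv : ∀ {z x y}, S.Sing z → S.Sing x → S.Sing y → S.h z x ≠ 0 → S.h z y ≠ 0 → m ∈ OJ ρ ψ z 0 → m ∈ OJ ρ ψ x 0 →
      m ∈ OJ ρ ψ y 0 := fun {z x y} a1 a2 a3 a4 a5 a6 a7 => by
    obtain ⟨_, ⟨v, a, rfl⟩, c, b2, b3⟩ := exists_X_move a1 a2 a3 a4 a5
    have h : S.ECond z v a ∨ S.eich z v a = 1 := (em _).imp_right eich_junk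
    have b4 := OJ_map ⟨_, S.eich_mem_E z v a⟩ a7
    have b5 : ρ ⟨_, S.eich_mem_E z v a⟩ m = m := by
      obtain h | h := h
      · obtain rfl := h.orth_eq
        exact mem_OJ_zero.1 a6 v h.perp
      · simp only [h]
        exact congrArg (· m) (map_one ρ)
    rw [b5, b3, map_zero, ← smul_zero c, OJ_smul ((orth_sing _ _).1 a3) _ b2] at b4
    exact b4
  refine E_ind (p := fun g => ρ g m = m) (fun g k a b => by rw [map_mul, End.mul_apply, b, a]) (fun u v hu huv => ?_) g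
  by_cases u0 : u = 0
  · have : xe S u v = 1 := Subtype.ext (by rw [u0, xe, ee_coe, eich_zero_left]; rfl)
    simp [this]
  obtain ⟨z, hz, a1, a2⟩ := hS.exists_common (Or.inr h3) H.sing_e H.e_ne ((orth_sing _ _).2 hu) u0
  exact mem_OJ_zero.1 (mv hz H.sing_e ((orth_sing _ _).2 hu) a1 a2
    (mv H.sing_e H.sing_f hz (by simp [H.h_ef]) (mt S.h_swap_zero a1) h1 h2) h1) v huv

theorem exists_xe_oemb (hS : S.Nondeg) (h5 : 5 ≤ finrank F V) {e f : V} (H : S.IsHyp e f) {g : S.E} (hg : g.1.1 e = e) :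
    ∃ (x : OW S e f) (k : (S.restrict (OW S e f)).E), g = xe S e x * oemb H k := by
  have H' : S.IsHyp e (g.1.1 f) := ⟨H.sing_e, (isom_sing _ _).2 H.sing_f, by rw [← H.h_ef, ← isom_h g.1 e f, hg]⟩
  obtain ⟨v, a, h1, h2⟩ := H.exists_eich_eq H'
  obtain rfl := h1.orth_eq
  have h3 : ((xe S e v)⁻¹ * g).1 ∈ (ext2 H.nondeg).range := by
    rw [ext2_range, mem_fix_span]
    rintro _ (rfl | rfl)
    · exact (congrArg _ hg).trans (E_inv_apply (xe_self _ _))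
    · exact E_inv_apply (g := xe S e v) h2
  obtain ⟨k, hk⟩ := h3
  have hW := hS.restrict_perp H.nondeg
  have h4 : 3 ≤ finrank F (OW S e f) := by have := OW_finrank H; omega
  obtain ⟨e', f', H2⟩ := hW.orth_exists_hyp h4
  have h6 := (hS.mem_E_iff (by omega) H _).1 ((xe S e v)⁻¹ * g).2
  rw [← hk, hS.dick_ext2, hS.spin_ext2] at h6
  refine ⟨⟨_, sub_mem_OW H h1.perp⟩, ⟨k, (hW.mem_E_iff h4 H2 _).2 h6⟩, ?_⟩
  rw [xe_add_e H.orth_q_e h1.perp, ← inv_mul_eq_iff_eq_mul]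
  exact Subtype.ext hk.symm

variable (S) in
/-- two orthogonal hyperbolic pairs -/
structure Fr (e f w z : V) : Prop where
  H : S.IsHyp e f
  K : S.IsHyp w z
  ew : S.h e w = 0
  ez : S.h e z = 0
  fw : S.h f w = 0
  fz : S.h f z = 0

theorem TSP.exists_fr (hS : S.Nondeg) {e w : V} (h : TSP S e w) : ∃ f z, Fr S e f w z := by
  obtain ⟨y, h1, h2⟩ := hS.exists_perp_of_notMem' h.symm.notMem 1
  rw [mem_perp_singleton] at h1
  have H : S.IsHyp e (y - S.q y • e) := ⟨(orth_sing _ _).2 h.1, (orth_sing _ _).2 (by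
    simp [orth_q_sub, orth_q_smul, h.1, S.orth_symm e y, h2]), by simp [h2, orth_h_self, h.1]⟩
  have h3 : S.h (y - S.q y • e) w = 0 := by simp [h.2.2.1, S.orth_symm w y, h1]
  obtain ⟨z, K⟩ := (hS.restrict_perp H.nondeg).exists_isHyp (e := ⟨w, S.mem_perp_pair.2 ⟨h.2.2.1, h3⟩⟩)
    ((orth_sing _ _).2 h.2.1) fun h' => h.symm.ne (congrArg Subtype.val h')
  exact ⟨_, z, H, ⟨K.sing_e, K.sing_f, K.h_ef⟩, h.2.2.1, OW_e z, h3, OW_f z⟩

namespace Fr
variable {e f w z : V} (h : Fr S e f w z)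
include h

theorem gram : (S.q e = 0 ∧ S.q f = 0 ∧ S.q w = 0 ∧ S.q z = 0) ∧ (S.h e e = 0 ∧ S.h e f = 1 ∧ S.h e w = 0 ∧ S.h e z = 0) ∧
    (S.h f e = 1 ∧ S.h f f = 0 ∧ S.h f w = 0 ∧ S.h f z = 0) ∧ (S.h w e = 0 ∧ S.h w f = 0 ∧ S.h w w = 0 ∧ S.h w z = 1) ∧
    S.h z e = 0 ∧ S.h z f = 0 ∧ S.h z w = 1 ∧ S.h z z = 0 := by
  simp [orth_h_self, h.H.orth_q_e, h.H.orth_q_f, h.K.orth_q_e, h.K.orth_q_f, h.H.h_ef, h.K.h_ef, h.H.orth_h_fe,
    h.K.orth_h_fe, h.ew, h.ez, h.fw, h.fz, S.h_swap_zero h.ew, S.h_swap_zero h.ez, S.h_swap_zero h.fw, S.h_swap_zero h.fz]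

theorem swap : Fr S e f z w := ⟨h.H, ⟨h.K.sing_f, h.K.sing_e, h.K.orth_h_fe⟩, h.ez, h.ew, h.fz, h.fw⟩
theorem symm : Fr S w z e f :=
  ⟨h.K, h.H, S.h_swap_zero h.ew, S.h_swap_zero h.fw, S.h_swap_zero h.ez, S.h_swap_zero h.fz⟩

theorem tsp : TSP S e w := .of h.H.orth_q_e h.K.orth_q_e h.ew h.H.e_ne fun h' => by
  obtain ⟨c, hc⟩ := Submodule.mem_span_singleton.1 h'
  simpa [h.gram] using congrArg (S.h z) hc

/-- `w` in the complement of the first pair -/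
abbrev w' : OW S e f := ⟨w, S.mem_perp_pair.2 ⟨h.ew, h.fw⟩⟩
/-- `z` in the complement of the first pair -/
abbrev z' : OW S e f := ⟨z, S.mem_perp_pair.2 ⟨h.ez, h.fz⟩⟩
theorem K' : (S.restrict (OW S e f)).IsHyp h.w' h.z' := ⟨h.K.sing_e, h.K.sing_f, h.K.h_ef⟩
/-- the complement of the frame -/
abbrev W : Submodule F (OW S e f) := OW (S.restrict (OW S e f)) h.w' h.z'
/-- the form on the complement -/
abbrev T : PForm (orthP F) h.W := (S.restrict (OW S e f)).restrict h.W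

theorem nondeg (hS : S.Nondeg) : h.T.Nondeg := (hS.restrict_perp h.H.nondeg).restrict_perp h.K'.nondeg
theorem finrank : finrank F h.W + 4 = finrank F V := by
  have h1 := OW_finrank h.H
  have h2 : Module.finrank F h.W + 2 = Module.finrank F (OW S e f) := OW_finrank h.K'
  omega

theorem perp (y : h.W) : (S.h e y.1 = 0 ∧ S.h f y.1 = 0 ∧ S.h w y.1 = 0 ∧ S.h z y.1 = 0) ∧
    S.h y.1 e = 0 ∧ S.h y.1 f = 0 ∧ S.h y.1 w = 0 ∧ S.h y.1 z = 0 :=
  ⟨⟨OW_e y.1, OW_f y.1, OW_e y, OW_f y⟩, S.h_swap_zero (OW_e y.1), S.h_swap_zero (OW_f y.1), S.h_swap_zero (OW_e y),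
    S.h_swap_zero (OW_f y)⟩

theorem dec (x : V) : ∃ y : h.W, x = y.1.1 + S.h f x • e + S.h e x • f + S.h z x • w + S.h w x • z :=
  ⟨⟨⟨x - (S.h f x • e + S.h e x • f + S.h z x • w + S.h w x • z), S.mem_perp_pair.2 (by simp [h.gram])⟩,
    (S.restrict _).mem_perp_pair.2 (by simp [h.gram])⟩, by simp only; abel⟩

theorem exists_q (hS : S.Nondeg) (h6 : 6 ≤ Module.finrank F V) (c : F) : ∃ y : h.W, S.q y.1.1 = c :=
  (h.nondeg hS).orth_exists_q_eq (by have := h.finrank; omega) c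

theorem exists_diag (hS : S.Nondeg) (h6 : 6 ≤ Module.finrank F V) {a b : F} (ha : a ≠ 0) (hb : b ≠ 0) :
    ∃ k : S.E, k.1.1 e = a • e ∧ k.1.1 w = b • w := by
  obtain ⟨k, hk⟩ := exists_E_adjust hS (by omega) (h.H.tor (Units.mk0 a ha) * h.K.tor (Units.mk0 b hb))
    (X := {a • e, b • w}) fun c => by
      obtain ⟨y, hy⟩ := h.exists_q hS h6 c
      exact ⟨y.1.1, by simp [h.perp y], hy⟩
  have h1 : (h.H.tor (Units.mk0 a ha) * h.K.tor (Units.mk0 b hb)).1 e = a • e := by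
    rw [isom_mul_apply, h.K.tor_perp _ h.symm.w'.2, IsHyp.tor_e, Units.val_mk0]
  have h2 : (h.H.tor (Units.mk0 a ha) * h.K.tor (Units.mk0 b hb)).1 w = b • w := by
    rw [isom_mul_apply, IsHyp.tor_e, map_smul, h.H.tor_perp _ h.w'.2, Units.val_mk0]
  exact ⟨k, h1 ▸ hk e (by rw [h1]; simp), h2 ▸ hk w (by rw [h2]; simp)⟩

theorem exists_tt (hS : S.Nondeg) (h3 : 3 ≤ Module.finrank F V) {c : F} (hc : c ≠ 0) :
    ∃ k : S.E, k.1.1 e = c • e ∧ k.1.1 f = c⁻¹ • f ∧ k.1.1 w = c • w ∧ k.1.1 z = c⁻¹ • z ∧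
      ∀ x, S.h e x = 0 → S.h f x = 0 → S.h w x = 0 → S.h z x = 0 → k.1.1 x = x := by
  refine ⟨⟨h.H.tor (Units.mk0 c hc) * h.K.tor (Units.mk0 c hc), (hS.mem_E_iff h3 h.H _).2 ?_⟩, ?_, ?_, ?_, ?_,
    fun x a b c d => ?_⟩
  · simp [hS.dick_tor, hS.spin_tor]
  · rw [isom_mul_apply, h.K.tor_perp _ h.symm.w'.2, IsHyp.tor_e, Units.val_mk0]
  · rw [isom_mul_apply, h.K.tor_perp _ h.symm.z'.2, IsHyp.tor_f]
    rfl
  · rw [isom_mul_apply, IsHyp.tor_e, map_smul, h.H.tor_perp _ h.w'.2, Units.val_mk0]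
  · rw [isom_mul_apply, IsHyp.tor_f, map_smul, h.H.tor_perp _ h.z'.2]
    rfl
  · rw [isom_mul_apply, h.K.tor_perp _ (S.mem_perp_pair.2 ⟨c, d⟩), h.H.tor_perp _ (S.mem_perp_pair.2 ⟨a, b⟩)]

/-- Weyl element of `SL ⟨e, z⟩` -/
theorem nn (s : F) (hs : s ≠ 0) {n : S.E} (hn : n = xe S e (-s⁻¹ • w) * xe S z (s • f) * xe S e (-s⁻¹ • w)) :
    n.1.1 e = -s • z ∧ n.1.1 z = s⁻¹ • e ∧ n.1.1 w = s • f ∧ n.1.1 f = -s⁻¹ • w ∧ ∀ y : h.W, n.1.1 y.1.1 = y.1.1 := by
  have a1 := xe_apply (x := -s⁻¹ • w) h.H.orth_q_e (by simp [h.gram])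
  have a2 := xe_apply (x := s • f) h.K.orth_q_f (by simp [h.gram])
  subst hn
  refine ⟨?_, ?_, ?_, ?_, fun y => ?_⟩ <;>
    simp only [E_mul_apply, a1, a2, map_add, map_sub, map_smul] <;>
    simp [h.gram, h.perp, orth_q_smul, orth_q_neg, smul_smul, hs]
end Fr

/-- the quadratic character -/
noncomputable def sgn (t : F) : ℂ := ((sqSign t : ℤˣ) : ℤ)

theorem sgn_mul {a b : F} (ha : a ≠ 0) (hb : b ≠ 0) : sgn (a * b) = sgn a * sgn b := by simp [sgn, sqSign_mul ha hb]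
theorem sgn_one : sgn (1 : F) = 1 := by simp [sgn, sqSign_one]
theorem sgn_sq (a : F) : sgn a * sgn a = 1 := by simp [sgn, ← Int.cast_mul, ← Units.val_mul]
theorem sgn_inv (a : F) : sgn a⁻¹ = sgn a := by by_cases h : IsSquare a <;> simp [sgn, sqSign, h]
theorem sgn_of {a : F} (h : ¬ IsSquare a) : sgn a = -1 := by simp [sgn, sqSign_eq_neg_one_iff.2 h]

variable (hS : S.Nondeg)
include hS

theorem gauss_sgn [Fintype V] (hψ : ψ ≠ 1) {m : ℕ} (hV : finrank F V = 2 * m + 1) {s : F} (hs : s ≠ 0) :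
    ∑ y, ψ (s * S.q y) = sgn s * ∑ y, ψ (S.q y) := by
  obtain ⟨Q, K, h1⟩ : ∃ Q K : ℂ, ∀ a, (#{y | S.q y = a} : ℂ) = Q + (if a = 0 then 0 else sgn a) * K :=
    ⟨Nat.card F ^ (2 * m), ((sqSign (-1 : F) ^ m * hS.disc : ℤˣ) : ℤ) * Nat.card F ^ m, fun a => by
      have := congrArg (Int.cast : ℤ → ℂ) (orth_cnt_odd a m hS hV)
      rw [orth_cnt_def, Nat.card_eq_fintype_card, Fintype.card_subtype] at this
      push_cast at this ⊢
      rw [this]
      split_ifs <;> simp [sgn, mul_assoc]⟩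
  have h2 : ∀ s : F, s ≠ 0 → ∑ y, ψ (s * S.q y) = sgn s * ∑ b : F, (if b = 0 then 0 else sgn b) * K * ψ b := fun s hs => by
    have h0 : ∑ b : F, Q * ψ b = 0 := by rw [← mul_sum, AddChar.sum_eq_zero_of_ne_one hψ, mul_zero]
    rw [← sum_fiberwise univ S.q, mul_sum]
    refine Eq.trans ?_ ((congrArg (_ + ·) h0).trans (add_zero _))
    rw [← sum_add_distrib]
    refine sum_equiv (Equiv.mulLeft₀ s hs) (by simp) fun a _ => ?_
    rw [sum_congr rfl (g := fun _ => ψ (s * a)) fun y hy => by rw [(mem_filter.1 hy).2], sum_const, nsmul_eq_mul, h1]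
    by_cases ha : a = 0
    · simp [ha]
    · simp only [Equiv.mulLeft₀_apply, if_neg ha, if_neg (mul_ne_zero hs ha), sgn_mul hs ha]
      linear_combination (-sgn a * K * ψ (s * a)) * sgn_sq s
  simpa [h2 s hs, sgn_one] using congrArg (sgn s * ·) (h2 1 one_ne_zero).symm

variable [FiniteDimensional ℂ M]

theorem fix_triv (h7 : 7 ≤ finrank F V) (hq : 3 < Fintype.card F) {e w : V} (h : TSP S e w)
    (h1 : finrank ℂ (OJ ρ ψ e w) = 1) {g : S.E} (g1 : g.1.1 e = e) (g2 : g.1.1 w = w) {m : M} (hm : m ∈ OJ ρ ψ e w) :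
    ρ g m = m := by
  obtain ⟨f, z, fr⟩ := h.exists_fr hS
  obtain ⟨x, k, rfl⟩ := exists_xe_oemb hS (by omega) fr.H g1
  have a1 : (oemb fr.H k).1.1 w = k.1.1 fr.w' := oemb_W fr.H k fr.w'
  rw [Subgroup.coe_mul, isom_mul_apply, a1, xe_apply fr.H.orth_q_e (OW_e x), OW_e] at g2
  have a2 : S.h x (k.1.1 fr.w') = 0 := by simpa [OW_f, fr.gram] using congrArg (S.h f) g2
  have a3 : k.1.1 fr.w' = fr.w' := Subtype.ext (by simpa [a2] using g2)
  obtain ⟨y, k, rfl⟩ := exists_xe_oemb (hS.restrict_perp fr.H.nondeg)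
    (by have := fr.H.finrank_perp; omega) fr.K' a3
  have a4 : ρ (oemb fr.H (oemb fr.K' k)) m = m := by
    refine E_ind (p := fun k => ρ (oemb fr.H (oemb fr.K' k)) m = m)
      (fun g k a b => by rw [map_mul, map_mul, map_mul, End.mul_apply, b, a]) (fun u v hu huv => ?_) k
    simp only [oemb_xe]
    by_cases u0 : u = 0
    · have : xe S u.1.1 v.1.1 = 1 := Subtype.ext (by rw [u0, xe, ee_coe]; exact eich_zero_left _ _)
      simp [this]
    obtain ⟨u', K⟩ := (fr.nondeg hS).exists_isHyp ((orth_sing _ _).2 hu) u0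
    have K' : S.IsHyp u.1.1 u'.1.1 := ⟨K.sing_e, K.sing_f, K.h_ef⟩
    obtain ⟨s, s0, s1⟩ := exists_sq_ne_one (F := F) (by rw [Nat.card_eq_fintype_card]; omega)
    have b0 : S.q u.1.1 = 0 := hu
    have b1 : S.h u.1.1 v.1.1 = 0 := huv
    have b2 := fr.perp u
    have b3 := fr.perp u'
    have b4 := fr.perp v
    let t : S.E := ⟨_, K'.orth_tor_sq_mem_E (v := e + f) (S.mem_perp_pair.2 (by simp [b2, b3]))
      (by simp [orth_q_add, fr.gram]) (Units.mk0 s s0)⟩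
    have b5 : ∀ x, S.h u.1.1 x = 0 → S.h u'.1.1 x = 0 → t.1.1 x = x := fun x a b => K'.tor_perp _ (S.mem_perp_pair.2 ⟨a, b⟩)
    have b6 := OJ_triv (x := (s ^ 2 - 1)⁻¹ • (v.1.1 + (-S.h u'.1.1 v.1.1) • u.1.1)) h1 b0 (by simp [b1, orth_h_self, b0])
      b2.2.1 b2.2.2.2.1 (by simp [b2, b4]) (by simp [b2, b4]) (g := t) (b5 _ b2.2.1 b3.2.1) (b5 _ b2.2.2.2.1 b3.2.2.2.1)
      (c := s ^ 2) (K'.tor_e _) hm
    rwa [b5 _ (by simp [b1, orth_h_self, b0]) (by simp [K'.orth_h_fe]), ← sub_one_smul'', smul_smul,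
      mul_inv_cancel₀ (sub_ne_zero.2 s1), one_smul, xe_add_e b0 b1] at b6
  rw [map_mul, map_mul, map_mul, End.mul_apply, End.mul_apply, a4, oemb_xe, q_triv ρ hS h7 h h1
    (Submodule.subset_span (by simp)) (S.mem_perp_pair.2 ⟨OW_e y.1, OW_e y⟩) hm, mem_OJ.1 hm _ (OW_e x)]
  rw [a3] at a2
  simp [show S.h x w = 0 from a2]

theorem kappa (hψ : ψ ≠ 1) {n : ℕ} (hV : finrank F V = 2 * n + 7) (hq : 3 < Fintype.card F)
    (hs : ∀ e, S.q e = 0 → e ≠ 0 → Sph e ρ ψ 0) {e w : V} (h : TSP S e w) {g : S.E} {t : F} (g1 : g.1.1 e = t • e)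
    (g2 : g.1.1 w = t • w) {m : M} (hm : m ∈ OJ ρ ψ e w) : ρ g m = sgn t • m := by
  have one : ∀ {e w}, TSP S e w → finrank ℂ (OJ ρ ψ e w) = 1 := fun {e w} h => by
    simpa [h.2.1] using hs e h.1 h.ne w h.2.2.1 h.notMem
  have mul : ∀ {a b : M}, a ∈ OJ ρ ψ e w → a ≠ 0 → b ∈ OJ ρ ψ e w → ∃ c : ℂ, c • a = b := fun {a b} ha a0 hb => by
    obtain ⟨c, hc⟩ := (finrank_eq_one_iff_of_nonzero' (⟨a, ha⟩ : OJ ρ ψ e w) (by simpa using a0)).1 (one h) ⟨b, hb⟩
    exact ⟨c, congrArg Subtype.val hc⟩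
  by_cases m0 : m = 0
  · simp [m0]
  have t0 : t ≠ 0 := fun h' => h.ne (by simpa [h'] using g1)
  obtain ⟨f, z, fr⟩ := h.exists_fr hS
  have : Finite V := Module.finite_of_finite F
  have := Fintype.ofFinite V
  have := Fintype.ofFinite fr.W
  obtain ⟨N, hN⟩ : ∃ N, N = xe S e (-(1 : F)⁻¹ • w) * xe S z ((1 : F) • f) * xe S e (-(1 : F)⁻¹ • w) := ⟨_, rfl⟩
  obtain ⟨n1, n2, n3, n4, n5⟩ := fr.nn 1 one_ne_zero hN
  simp only [inv_one, neg_smul, one_smul] at n1 n2 n3 n4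
  have x1 : ∀ y : fr.W, (xe S z y.1.1).1.1 w = w + y.1.1 - S.q y.1.1 • z := fun y => by
    simp [xe_apply fr.K.orth_q_f (fr.perp y).1.2.2.2, fr.gram, fr.perp]
  have b1 : ∀ y : fr.W, ρ (xe S z y.1.1) m ∈ OJ ρ ψ e (w + y.1.1 - S.q y.1.1 • z) := fun y => by
    simpa [x1, xe_perp (S.h_swap_zero fr.ez) (fr.perp y).2.1] using OJ_map (xe S z y.1.1) hm
  obtain ⟨v, hv⟩ : ∃ v, v = ∑ y : fr.W, ρ (xe S z y.1.1) m := ⟨_, rfl⟩
  have v0 : v ≠ 0 := fun h0 => OP_ne hm m0 (by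
    have : OP ρ ψ e w v = OP ρ ψ e w m := by
      rw [hv, map_sum, sum_eq_single 0 (fun y _ hy => ?_) (by simp)]
      · simp [xe_zero]
      by_contra h1
      refine hy (fr.nondeg hS y fun x => eq_zero_of_forall_addChar_mul hψ fun c => ?_)
      have h2 : S.h e (c • x.1.1) = 0 := by simp [fr.perp]
      simpa [fr.perp, S.orth_symm y.1.1] using (OP_eig h.1 h2 (mem_OJ.1 (b1 y) _ h2) h1).symm
    rw [← this, h0, map_zero])
  have v1 : v ∈ OJ ρ ψ z (-f) := OP_ind hψ hS z fun u => by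
    by_cases h0 : OP ρ ψ z u v = 0
    · exact h0 ▸ zero_mem _
    obtain ⟨c1, c2⟩ := OP_cases hψ fr.K.orth_q_f fr.K.f_ne (hs _ fr.K.orth_q_f fr.K.f_ne) h0
    obtain ⟨y, hy⟩ := fr.dec u
    have c3 : y = 0 := fr.nondeg hS y fun x => eq_zero_of_forall_addChar_mul hψ fun c => by
      have := OP_eig (y := (c • x).1.1) (c := 1) fr.K.orth_q_f (fr.perp _).1.2.2.2 (by
        rw [hv, map_sum, one_smul]
        refine sum_equiv (Equiv.addLeft (c • x)) (by simp) fun y _ => ?_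
        rw [← End.mul_apply, ← map_mul, ← xe_add fr.K.orth_q_f (fr.perp _).1.2.2.2 (fr.perp _).1.2.2.2]
        rfl) h0
      rw [hy] at this
      simpa [fr.perp, S.orth_symm y.1.1] using this
    have c4 : S.h e u + 1 = 0 := eq_zero_of_forall_addChar_mul hψ fun c => by
      have h2 : S.h e (-c • z) = 0 := by simp [fr.gram]
      have := OP_eig (y := c • e) (c := ψ (-c)) fr.K.orth_q_f (by simp [fr.gram]) (by
        rw [← xe_smul fr.K.orth_q_f (by simp [fr.gram]), xe_swap h.1 (by simp [fr.gram, orth_q_smul]) (by simp [fr.gram]),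
          ← neg_smul, hv, map_sum, smul_sum]
        exact sum_congr rfl fun y _ => by rw [mem_OJ.1 (b1 y) _ h2]; simp [fr.gram, fr.perp]) h0
      simp only [map_smul, LinearMap.smul_apply, smul_eq_mul, LinearMap.map_smulₛₗ₂, RingHom.id_apply] at this
      rw [mul_add, AddChar.map_add_eq_mul, this, mul_one, ← AddChar.map_add_eq_mul, neg_add_cancel, AddChar.map_zero_eq_one]
    rw [c1, c3, eq_neg_of_add_eq_zero_left c4] at hy
    have c5 : S.h f u = 0 := by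
      rw [hy] at c2
      simpa [orth_q_add, orth_q_smul, orth_q_neg, fr.gram] using c2
    have := OP_mem (ρ := ρ) (ψ := ψ) fr.K.orth_q_f u v
    rw [c5] at hy
    rwa [show OJ ρ ψ z u = _ by rw [hy, OJ_add_e], show (0 : fr.W).1.1 + (0 : F) • e + (-1 : F) • f + (0 : F) • w = -f by simp]
      at this
  obtain ⟨μ, hμ⟩ := mul hm m0 (by simpa [n2, n4] using OJ_map N v1)
  have μ0 : μ ≠ 0 := fun h' => v0 (by
    rw [← E_inv_cancel ρ N v, ← hμ, h', zero_smul, map_zero])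
  have k1 : ∀ s : F, μ • OP ρ ψ e w (ρ (xe S z (s • f)) m) = (∑ y : fr.W, ψ (s * S.q y.1.1)) • OP ρ ψ e w (ρ N m) := fun s => by
    have h2 : S.h e (-s • w) = 0 := by simp [fr.gram]
    have h3 := xe_conj N e (-s • w)
    rw [n1, map_smul, n3, ← neg_one_smul F z, xe_smul fr.K.orth_q_f (by simp [fr.gram]), smul_smul, neg_one_mul, neg_neg] at h3
    rw [← map_smul, ← map_smul, hμ, ← End.mul_apply (ρ _), ← map_mul, h3, map_mul, End.mul_apply, hv, map_sum, map_sum,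
      map_sum, sum_smul]
    refine sum_congr rfl fun y _ => ?_
    rw [mem_OJ.1 (b1 y) _ h2, map_smul, map_smul, ← End.mul_apply (ρ N), ← map_mul, ← xe_conj, n2, n5, map_mul, End.mul_apply,
      OP_xe h.1 (fr.perp y).1.1]
    simp [fr.gram, fr.perp]
  have k2 : OP ρ ψ e w (ρ N m) ≠ 0 := fun h' => smul_ne_zero μ0 (OP_ne hm m0) (by simpa [h', xe_zero] using k1 0)
  have k3 : ∀ s : F, s ≠ 0 → ∃ k : S.E, k.1.1 e = s⁻¹ • e ∧ k.1.1 w = s⁻¹ • w ∧
      OP ρ ψ e w (ρ (xe S z (s • f)) m) = ρ k (OP ρ ψ e w (ρ N m)) := fun s s0 => by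
    obtain ⟨-, a2, -, a4, -⟩ := fr.nn s s0 rfl
    have h2 : S.h e (-s⁻¹ • w) = 0 := by simp [fr.gram]
    have a5 : (_ * N⁻¹).1.1 e = _ := (E_mul_apply _ _ _).trans ((congrArg _ (E_inv_apply n2)).trans a2)
    have a6 : (xe S e (-s⁻¹ • w) * xe S z (s • f) * xe S e (-s⁻¹ • w) * N⁻¹).1.1 w = s⁻¹ • w := by
      rw [E_mul_apply, E_inv_apply (x := -f) (by simp [n4]), map_neg, a4, neg_smul, neg_neg]
    refine ⟨_, a5, a6, ?_⟩
    rw [OP_map, a5, a6, OP_smul h.1 _ (inv_ne_zero s0), ← End.mul_apply (ρ _) (ρ N), ← map_mul, inv_mul_cancel_right,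
      map_mul, map_mul, End.mul_apply, End.mul_apply, OP_xe h.1 h2, mem_OJ.1 hm _ h2]
    simp [fr.gram]
  have u1 := OP_mem (ρ := ρ) (ψ := ψ) h.1 w (ρ N m)
  obtain ⟨k, a1, a2, a3⟩ := k3 1 one_ne_zero
  have k4 := k1 1
  rw [a3, fix_triv hS (by omega) hq h (one h) (by simpa using a1) (by simpa using a2) u1] at k4
  obtain ⟨k, a1, a2, a3⟩ := k3 t t0
  have k5 := k1 t
  have k6 := gauss_sgn (fr.nondeg hS) hψ (m := n + 1) (by have := fr.finrank; omega) t0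
  simp only [one_mul] at k4
  erw [a3, k6, ← smul_left_injective ℂ k2 k4, mul_comm, mul_smul] at k5
  obtain ⟨c, hc⟩ := mul u1 k2 hm
  have k7 := fix_triv hS (by omega) hq h (one h) (g := g * k) (by simp [E_mul_apply, a1, g1, smul_smul, t0])
    (by simp [E_mul_apply, a2, g2, smul_smul, t0]) u1
  rw [map_mul, End.mul_apply, show ρ k _ = _ from smul_right_injective M μ0 k5, map_smul] at k7
  rw [← hc, map_smul, smul_comm]
  conv_rhs => rw [← k7, smul_smul (sgn t), sgn_sq, one_smul]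

end H24
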