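import Cfsg.Agent.H24.OP3

/-! Small representations of odd-dimensional orthogonal groups: the vectors `NL` on which a stabiliser acts by the quadratic
character, their existence (`exists_Y`) and the resulting lower bounds for the Levi module. -/

set_option autoImplicit false
set_option linter.unusedSectionVars false

namespace H24
open Module H11 H11.PForm Finset
open scoped Classical

variable {F : Type*} [Field F] [Fintype F] {V : Type*} [AddCommGroup V] [Module F V] [FiniteDimensional F V]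
  {S : PForm (orthP F) V} {M : Type*} [AddCommGroup M] [Module ℂ M] {ρ : S.E →* End ℂ M} {ψ : AddChar F ℂ}

variable (ρ) in
/-- vectors on which elements scalar on `l` act by the sign of the scalar -/
noncomputable def NL (l : Submodule F V) : Submodule ℂ M :=
  jes (fun p : {p : S.E × F // ∀ x ∈ l, p.1.1.1 x = p.2 • x} => ρ p.1.1) fun p => sgn p.1.2

theorem mem_NL {l : Submodule F V} {m : M} :
    m ∈ NL ρ l ↔ ∀ (g : S.E) (t : F), (∀ x ∈ l, g.1.1 x = t • x) → ρ g m = sgn t • m :=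
  ⟨fun h g t ht => h ⟨(g, t), ht⟩, fun h p => h _ _ p.2⟩

theorem NL_app {s : Set V} {m : M} (hm : m ∈ NL ρ (Submodule.span F s)) {g : S.E} {t : F} (h : ∀ x ∈ s, g.1.1 x = t • x) :
    ρ g m = sgn t • m := mem_NL.1 hm g t fun x hx => by
  induction hx using Submodule.span_induction with
  | mem x hx => exact h x hx
  | zero => simp
  | add x y _ _ a b => rw [map_add, a, b, smul_add]
  | smul c x _ a => rw [map_smul, a, smul_comm]

theorem NL_map (g : S.E) {l l' : Submodule F V} (h : ∀ x ∈ l, g.1.1 x ∈ l') {m : M} (hm : m ∈ NL ρ l) :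
    ρ g m ∈ NL ρ l' := mem_NL.2 fun k t hk => by
  rw [← map_smul, ← mem_NL.1 hm (g⁻¹ * k * g) t fun x hx => by
    rw [E_mul_apply, E_mul_apply, hk _ (h x hx), map_smul, E_inv_apply rfl], ← End.mul_apply, ← End.mul_apply, ← map_mul,
    ← map_mul, mul_assoc, mul_inv_cancel_left]

theorem NL_congr {s : Set V} {m : M} (hm : m ∈ NL ρ (Submodule.span F s)) {g k : S.E} (h : ∀ x ∈ s, g.1.1 x = k.1.1 x) :
    ρ g m = ρ k m := by
  have := NL_app hm (g := k⁻¹ * g) (t := 1) fun x hx => by rw [E_mul_apply, h x hx, E_inv_apply rfl, one_smul]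
  rw [sgn_one, one_smul] at this
  conv_rhs => rw [← this, ← End.mul_apply, ← map_mul, mul_inv_cancel_left]

theorem NL_fix {s : Set V} {m : M} (hm : m ∈ NL ρ (Submodule.span F s)) {g : S.E} (h : ∀ x ∈ s, g.1.1 x = x) : ρ g m = m := by
  simpa using NL_congr hm (k := 1) h

theorem pair_map {e w : V} {g : S.E} {a b c d : F} (h1 : g.1.1 e = a • e + b • w) (h2 : g.1.1 w = c • e + d • w) :
    ∀ x ∈ Submodule.span F {e, w}, g.1.1 x ∈ Submodule.span F {e, w} := fun x hx => by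
  obtain ⟨s, t, rfl⟩ := Submodule.mem_span_pair.1 hx
  exact Submodule.mem_span_pair.2 ⟨s * a + t * c, s * b + t * d, by rw [map_add, map_smul, map_smul, h1, h2]; module⟩

namespace Fr
variable {e f w z : V} (h : Fr S e f w z)
include h

theorem X_w (r : F) : (xe S e (r • z)).1.1 w = w - r • e := by
  simp [xe_apply (x := r • z) h.H.orth_q_e (by simp [h.gram]), h.gram]

theorem A_comm {m : M} (hm : m ∈ NL ρ (Submodule.span F {e, w})) {k : S.E} {a b c : F} (ha : a ≠ 0) (hb : b ≠ 0)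
    (k1 : k.1.1 e = a • e) (k2 : k.1.1 w = b • w + c • e) :
    ρ k (∑ r : F, ρ (xe S e (r • z)) m) = ∑ r : F, ρ (xe S e (r • z)) (ρ k m) := by
  rw [map_sum]
  refine sum_equiv (Equiv.mulRight₀ (a / b) (div_ne_zero ha hb)) (by simp) fun r _ => ?_
  rw [← End.mul_apply, ← End.mul_apply, ← map_mul, ← map_mul]
  refine NL_congr hm ?_
  rintro _ (rfl | rfl)
  · simp [E_mul_apply, xe_self, k1]
  · simp only [E_mul_apply, h.X_w, map_sub, map_add, map_smul, xe_self, k1, k2, Equiv.mulRight₀_apply]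
    match_scalars <;> field_simp
    ring

theorem A_mem {m : M} (hm : m ∈ NL ρ (Submodule.span F {e, w})) :
    ∑ r : F, ρ (xe S e (r • z)) m ∈ NL ρ (Submodule.span F {e, w}) ⊓ OJ ρ ψ e 0 := by
  have h1 : ∑ r : F, ρ (xe S e (r • z)) m ∈ NL ρ (Submodule.span F {e, w}) := sum_mem fun r _ =>
    NL_map _ (pair_map (a := 1) (b := 0) (c := -r) (d := 1) (by simp [xe_self]) (by rw [h.X_w]; module)) hm
  refine ⟨h1, mem_OJ_zero.2 fun x hx => ?_⟩
  rw [NL_congr h1 (k := xe S e (S.h x w • z)), map_sum]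
  · refine sum_equiv (Equiv.addLeft (S.h x w)) (by simp) fun r _ => ?_
    rw [← End.mul_apply, ← map_mul, ← xe_add h.H.orth_q_e (by simp [h.gram]) (by simp [h.gram]), ← add_smul]
    rfl
  · rintro _ (rfl | rfl)
    · simp [xe_self]
    · simp [h.X_w, xe_apply h.H.orth_q_e hx, h.gram]

theorem swap_ne {u : M} (h1 : u ∈ NL ρ (Submodule.span F {e, w})) (h2 : u ∈ OJ ρ ψ e 0) (h0 : u ≠ 0) {N : S.E}
    (n1 : N.1.1 e = -w) (n2 : N.1.1 w = e) : ∑ r : F, ρ (xe S e (r • z)) (ρ N u) ≠ 0 := fun h3 => by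
  have hN := NL_map N (pair_map (a := 0) (b := -1) (c := 1) (d := 0) (by simp [n1]) (by simp [n2])) h1
  have x0 : ∀ r : F, ρ (xe S e (r • z)) u = u := fun r => mem_OJ_zero.1 h2 _ (by simp [h.gram])
  have h4 : ∀ t : F, t ≠ 0 → ∑ r : F, ρ (xe S e (r • z)) (ρ N⁻¹ (ρ (xe S e (t • z)) (ρ N u))) = 0 := fun t ht => by
    have i1 : (N⁻¹).1.1 w = -e := E_inv_apply (by simp [n1])
    have i2 : (N⁻¹).1.1 e = w := E_inv_apply n2
    have h5 := h.A_comm hN (k := N⁻¹ * xe S e (t • z) * N * xe S e (t⁻¹ • z) * N⁻¹) (a := -t⁻¹) (b := -t) (c := -1)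
      (by simpa using ht) (by simpa using ht) (by
        simp only [E_mul_apply, i1, i2, n1, n2, h.X_w, map_sub, map_smul, map_neg, xe_self]
        match_scalars <;> field_simp <;> ring) (by
        simp only [E_mul_apply, i1, i2, n1, n2, h.X_w, map_sub, map_smul, map_neg, xe_self]
        module)
    rw [h3, map_zero] at h5
    simpa only [map_mul, End.mul_apply, E_inv_cancel, x0] using h5.symm
  have h5 := congrArg (fun m => ∑ r : F, ρ (xe S e (r • z)) (ρ N⁻¹ m)) h3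
  simp only [map_sum, map_zero, sum_const_zero] at h5
  rw [sum_comm, sum_eq_single 0 (fun t _ => h4 t) (by simp)] at h5
  simp only [zero_smul, xe_zero, map_one, End.one_apply, E_inv_cancel, x0, sum_const, card_univ] at h5
  rw [← Nat.cast_smul_eq_nsmul ℂ] at h5
  exact smul_ne_zero (Nat.cast_ne_zero.2 Fintype.card_ne_zero) h0 h5
end Fr

variable [FiniteDimensional ℂ M] (hS : S.Nondeg) (hψ : ψ ≠ 1) {n : ℕ} (hV : finrank F V = 2 * n + 7) (hq : 3 < Fintype.card F)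
  (hs : ∀ e, S.q e = 0 → e ≠ 0 → Sph e ρ ψ 0)
include hS hψ hV hq hs

theorem Y_of {e f w z : V} (fr : Fr S e f w z) {u : M} (h1 : u ∈ NL ρ (Submodule.span F {e, w})) (h2 : u ∈ OJ ρ ψ e 0)
    {D : S.E} {γ : F} (hγ : ¬ IsSquare γ) (d1 : D.1.1 e = e) (d2 : D.1.1 w = γ • w) : ρ D u + u ∈ NL ρ (F ∙ e) := by
  have : Finite V := Module.finite_of_finite F
  have := Fintype.ofFinite V
  have γ0 : γ ≠ 0 := fun h => hγ (h ▸ IsSquare.zero)
  obtain ⟨v, hv⟩ : ∃ v, v = ρ D u + u := ⟨_, rfl⟩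
  have v1 : v ∈ NL ρ (Submodule.span F {e, w}) :=
    hv ▸ add_mem (NL_map D (pair_map (a := 1) (b := 0) (c := 0) (d := γ) (by simp [d1]) (by simp [d2])) h1) h1
  have v2 : v ∈ OJ ρ ψ e 0 := hv ▸ add_mem (OJ_fix d1 (map_zero _) h2) h2
  have v3 : ∀ k, ρ (oemb fr.H k) v = v := fun k => congrArg Subtype.val (fix_of_OJ (ρ := orep fr.H ρ ψ) (ψ := ψ)
    (hS.restrict_perp fr.H.nondeg) (by have := OW_finrank fr.H; omega) fr.K' (m := ⟨v, v2⟩)
    (mem_OJ_zero.2 fun x hx => Subtype.ext (by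
      rw [orep_apply, oemb_xe]
      refine NL_fix v1 ?_
      rintro _ (rfl | rfl)
      exacts [xe_perp (S.h_swap_zero fr.ew) (S.h_swap_zero (OW_e x)), xe_self _ _]))
    (mem_OJ_zero.2 fun x hx => Subtype.ext (by
      rw [orep_apply, oemb_xe]
      replace hx : S.h z x = 0 := hx
      refine OP_ind (ρ := ρ) (m := v) hψ hS z (p := LinearMap.eqLocus (ρ (xe S z x)) LinearMap.id) fun y => ?_
      by_cases h0 : OP ρ ψ z y v = 0
      · exact h0 ▸ zero_mem _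
      obtain ⟨c1, c2⟩ := OP_cases hψ fr.K.orth_q_f fr.K.f_ne (hs _ fr.K.orth_q_f fr.K.f_ne) h0
      have c3 : S.h e y = 0 := eq_zero_of_forall_addChar_mul hψ fun c => by
        simpa using OP_eig (y := c • e) (c := 1) fr.K.orth_q_f (by simp [fr.gram]) (by
          rw [← xe_smul fr.K.orth_q_f (by simp [fr.gram]), xe_swap fr.H.orth_q_e (by simp [fr.gram, orth_q_smul])
            (by simp [fr.gram]), mem_OJ_zero.1 v2 _ (by simp [fr.gram]), one_smul]) h0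
      obtain ⟨a, ha⟩ := fr.dec y
      rw [c1, c3, zero_smul, zero_smul, add_zero, add_zero] at ha
      by_cases a0 : a = 0
      · have := mem_OJ.1 (OP_mem (ρ := ρ) (ψ := ψ) fr.K.orth_q_f y v) _ hx
        rw [show S.h x y = 0 by rw [ha]; simp [a0, S.h_swap_zero hx, S.h_swap_zero (OW_e x)]] at this
        simpa using this
      have q0 : S.q a.1.1 = 0 := by
        rw [ha] at c2
        simpa [orth_q_add, orth_q_smul, fr.gram, fr.perp] using c2
      obtain ⟨b, K⟩ := (fr.nondeg hS).exists_isHyp ((orth_sing _ _).2 q0) a0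
      have f2 : Fr S w z b.1.1 a.1.1 := Fr.swap ⟨fr.K, ⟨K.sing_e, K.sing_f, K.h_ef⟩, (fr.perp a).1.2.2.1, (fr.perp b).1.2.2.1,
        (fr.perp a).1.2.2.2, (fr.perp b).1.2.2.2⟩
      obtain ⟨g, g1, g2, -, g4, g5⟩ := f2.exists_tt hS (by omega) γ0
      have g6 := g5 e (S.h_swap_zero fr.ew) (S.h_swap_zero fr.ez) (fr.perp b).2.1 (fr.perp a).2.1
      have b1 : S.h e (S.h f y • b.1.1) = 0 := by simp [fr.perp]
      have b2 := OP_map (ρ := ρ) (ψ := ψ) (xe S e (S.h f y • b.1.1)) z (a.1.1 + S.h f y • e) v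
      have b3 := OP_map (ρ := ρ) (ψ := ψ) g z a.1.1 u
      rw [g2, g4, OP_smul fr.K.orth_q_f _ (inv_ne_zero γ0), kappa hS hψ hV hq hs
        (Fr.tsp ⟨⟨fr.K.sing_f, fr.K.sing_e, fr.K.orth_h_fe⟩, f2.swap.K, f2.fz, f2.fw, f2.ez, f2.ew⟩) g2 g4
        (OP_mem fr.K.orth_q_f _ _), sgn_inv, sgn_of hγ,
        NL_congr h1 (k := D) (by rintro _ (rfl | rfl) <;> simp only [g1, g6, d1, d2])] at b3
      rw [mem_OJ_zero.1 v2 _ b1, xe_perp fr.ez (by simp [fr.perp]), show (xe S e (S.h f y • b.1.1)).1.1 _ = a.1.1 by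
        simp [xe_apply fr.H.orth_q_e b1, fr.perp, fr.gram, f2.gram], ← OP_add_e z _ (S.h w y), ← ha] at b2
      conv_rhs at b2 => rw [hv, map_add, ← b3, neg_one_smul, neg_add_cancel]
      exact absurd (rep_inj' ρ _ (b2.trans (map_zero _).symm)) h0)) k)
  rw [← hv]
  refine mem_NL.2 fun g t hg => ?_
  have g1 := hg e (Submodule.mem_span_singleton_self e)
  have t0 : t ≠ 0 := fun h' => fr.H.e_ne (by simpa [h'] using g1)
  obtain ⟨k, k1, k2⟩ := fr.exists_diag hS (by omega) t0 t0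
  obtain ⟨x, k', h⟩ := exists_xe_oemb hS (by omega) fr.H (g := k⁻¹ * g) (by rw [E_mul_apply, g1, E_inv_apply k1])
  rw [inv_mul_eq_iff_eq_mul.1 h, map_mul, map_mul, End.mul_apply, End.mul_apply, v3, mem_OJ_zero.1 v2 _ (OW_e x)]
  exact NL_app v1 (by rintro _ (rfl | rfl) <;> assumption)

theorem exists_Y : ∃ e, S.q e = 0 ∧ e ≠ 0 ∧ ∃ u ∈ NL ρ (F ∙ e), u ≠ 0 := by
  obtain ⟨a, b, hab⟩ := exists_tsp hS (by omega)
  obtain ⟨e₁, p1, q1, n1⟩ := exists_sing_perp hS hab.ts (by rw [hab.finrank]; omega)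
  obtain ⟨e, w, h, h1⟩ := nc ρ hψ hS (NL ρ) (fun l g hg m => NL_map g fun x => (hg x).1)
    (fun a b h m hm => mem_NL.2 fun g t hg => kappa hS hψ hV hq hs h (hg _ (Submodule.subset_span (by simp)))
      (hg _ (Submodule.subset_span (by simp))) hm)
    (fun a b h m hm y hy x hx => NL_fix hm fun v hv => xe_perp (h.ts.h_eq hy (Submodule.subset_span hv))
      (S.h_swap_zero (hx _ (Submodule.subset_span hv)))) hs hab ((orth_sing _ _).1 q1) p1 n1
    fun m hm e he w _ _ _ _ _ h3 => by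
      obtain ⟨t, ht⟩ := DFunLike.ne_iff.1 hψ
      obtain ⟨x, x1, x2⟩ := hS.exists_perp_of_notMem h3 t
      exact ⟨x, x1 _ (Submodule.mem_sup_right (Submodule.mem_span_singleton_self e)), NL_fix hm fun v hv => xe_perp
        (S.h_swap_zero (he _ (Submodule.subset_span hv)))
        (S.h_swap_zero (x1 _ (Submodule.mem_sup_left (Submodule.subset_span hv)))), x2 ▸ ht⟩
  obtain ⟨u, ⟨u1, u2⟩, u0⟩ := Submodule.exists_mem_ne_zero_of_ne_bot h1
  obtain ⟨f, z, fr⟩ := h.exists_fr hS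
  obtain ⟨γ, γ0, hγ⟩ := exists_not_isSquare (hS.two_ne_zero_of_odd (by rw [hV]; exact ⟨n + 3, by ring⟩))
  obtain ⟨D, d1, d2⟩ := fr.exists_diag hS (by omega) one_ne_zero γ0
  rw [one_smul] at d1
  refine ⟨e, h.1, h.ne, ?_⟩
  by_cases h2 : ρ D u + u = 0
  swap
  · exact ⟨_, Y_of hS hψ hV hq hs fr u1 u2 hγ d1 d2, h2⟩
  obtain ⟨N, hN⟩ : ∃ N, N = xe S e (-(1 : F)⁻¹ • z) * xe S w ((1 : F) • f) * xe S e (-(1 : F)⁻¹ • z) := ⟨_, rfl⟩
  obtain ⟨n1, n2, -⟩ := fr.swap.nn 1 one_ne_zero hN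
  simp only [inv_one, neg_smul, one_smul] at n1 n2
  have hN := NL_map N (pair_map (a := 0) (b := -1) (c := 1) (d := 0) (by simp [n1]) (by simp [n2])) u1
  have h3 := fr.A_mem (ψ := ψ) hN
  refine ⟨_, Y_of hS hψ hV hq hs fr h3.1 h3.2 hγ d1 d2, ?_⟩
  have h4 := NL_app u1 (g := N⁻¹ * D * N * D) (t := γ) (by
    have i1 : (N⁻¹).1.1 w = -e := E_inv_apply (by simp [n1])
    rintro _ (rfl | rfl) <;>
      simp only [E_mul_apply, d1, d2, n1, n2, i1, E_inv_apply n2, map_neg, map_smul, smul_neg, neg_neg])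
  rw [map_mul, End.mul_apply, eq_neg_of_add_eq_zero_left h2, sgn_of hγ, neg_one_smul, map_neg, neg_inj] at h4
  have h5 : ρ D (ρ N u) = ρ N u := by
    conv_rhs => rw [← h4, ← End.mul_apply, ← map_mul, mul_assoc, mul_inv_cancel_left, map_mul, End.mul_apply]
  rw [fr.A_comm hN (a := 1) (c := 0) one_ne_zero γ0 (by simp [d1]) (by simp [d2]), h5, ← two_smul ℂ]
  exact smul_ne_zero two_ne_zero (fr.swap_ne u1 u2 u0 n1 n2)

theorem exists_U : ∃ U : V → M, (∀ p, S.q p = 0 → p ≠ 0 → U p ≠ 0 ∧ U p ∈ NL ρ (F ∙ p)) ∧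
    ∀ (g : S.E) p, ρ g (U p) = U (g.1.1 p) := by
  obtain ⟨e, e1, e0, u, u1, u0⟩ := exists_Y hS hψ hV hq hs
  let U : V → M := fun p => if h : ∃ g : S.E, g.1.1 e = p then ρ h.choose u else 0
  have key : ∀ g : S.E, U (g.1.1 e) = ρ g u := fun g => (dif_pos ⟨g, rfl⟩).trans (NL_congr u1 fun x hx => by
    rw [hx]
    exact Exists.choose_spec (⟨g, rfl⟩ : ∃ k : S.E, k.1.1 e = g.1.1 e))
  refine ⟨U, fun p p1 p0 => ?_, fun g p => ?_⟩
  · obtain ⟨g, rfl⟩ := orth_E_vec hS (Or.inl (by omega)) e0 p0 (p1.trans e1.symm)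
    refine key g ▸ ⟨fun h => u0 (rep_inj' ρ g (h.trans (map_zero _).symm)), NL_map g (fun x hx => ?_) u1⟩
    obtain ⟨c, rfl⟩ := Submodule.mem_span_singleton.1 hx
    exact Submodule.mem_span_singleton.2 ⟨c, (map_smul _ _ _).symm⟩
  · by_cases h : ∃ k : S.E, k.1.1 e = p
    · obtain ⟨k, rfl⟩ := h
      rw [← E_mul_apply, key, key, map_mul, End.mul_apply]
    · rw [show U p = 0 from dif_neg h, show U (g.1.1 p) = 0 from dif_neg fun ⟨k, hk⟩ =>
        h ⟨g⁻¹ * k, by rw [E_mul_apply, hk, E_inv_apply rfl]⟩, map_zero]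

theorem exists_pi (e : V) : ∃ π : End ℂ M, (∀ m ∈ NL ρ (F ∙ e), π m = m) ∧ ∀ p v, S.q e = 0 → e ≠ 0 → S.q p = 0 → S.h e p = 0 →
    S.h v e = 0 → S.h v p ≠ 0 → ∀ m ∈ NL ρ (F ∙ p), π m = 0 := by
  have : Finite V := Module.finite_of_finite F
  have : Finite S.Isom := Finite.of_injective (fun g (x : V) => g.1 x) fun _ _ h => isom_ext (congrFun h)
  obtain ⟨π, π1, π2, π3⟩ := exists_eqv_proj ρ ((S.stab (F ∙ e)).comap S.E.subtype) (NL ρ (F ∙ e))
    fun g hg m => NL_map g fun x => (hg x).1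
  refine ⟨π, π2, fun p v e1 e0 p1 h1 h2 h3 m hm => ?_⟩
  obtain ⟨f, z, fr⟩ := (TSP.of e1 p1 h1 e0 fun h => by
    obtain ⟨c, rfl⟩ := Submodule.mem_span_singleton.1 h
    simp [h2] at h3).exists_fr hS
  obtain ⟨γ, γ0, hγ⟩ := exists_not_isSquare (hS.two_ne_zero_of_odd (by rw [hV]; exact ⟨n + 3, by ring⟩))
  obtain ⟨k, k1, k2⟩ := fr.exists_diag hS (by omega) γ0 one_ne_zero
  have h4 := π3 k (mem_stab_of_le fun x hx => by
    obtain ⟨c, rfl⟩ := Submodule.mem_span_singleton.1 hx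
    exact Submodule.mem_span_singleton.2 ⟨c * γ, by rw [mul_smul, ← k1, map_smul]; rfl⟩) m
  rw [NL_fix hm (by simp [k2]), NL_app (π1 m) (t := γ) (by simp [k1]), sgn_of hγ, neg_one_smul, eq_neg_iff_add_eq_zero,
    ← two_smul ℂ] at h4
  simpa using h4

theorem levi_facts {e f w z : V} (fr : Fr S e f w z) : (∃ m, m ≠ 0 ∧ ∀ k, orep fr.H ρ ψ k m = m) ∧
    (∃ k, orep fr.H ρ ψ k ≠ 1) ∧ 3 ≤ finrank ℂ (OJ (orep fr.H ρ ψ) ψ fr.w' 0) := by
  obtain ⟨U, U1, U2⟩ := exists_U hS hψ hV hq hs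
  obtain ⟨y, y0, y1⟩ := orth_exists_sing fr.T (by have := fr.finrank; omega)
  obtain ⟨b, K⟩ := (fr.nondeg hS).exists_isHyp ((orth_sing _ _).2 y1) y0
  have y2 : S.q y.1.1 = 0 := y1
  have y3 : S.h b.1.1 y.1.1 = 1 := K.orth_h_fe
  have y4 : y.1.1 ≠ 0 := fun h => by simp [h] at y3
  have y5 : S.h y.1.1 y.1.1 = 0 := by simp [orth_h_self, y2]
  have g1 := fr.gram
  have g2 := fr.perp y
  have g3 := fr.perp b
  obtain ⟨A, hA⟩ : ∃ A : V → M, ∀ p, A p = ∑ c : F, U (p + c • e) := ⟨_, fun _ => rfl⟩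
  have A1 : ∀ (g : S.E) p p' (s : F), g.1.1 e = e → g.1.1 p = p' + s • e → ρ g (A p) = A p' := fun g p p' s h1 h2 => by
    rw [hA, hA, map_sum]
    exact sum_equiv (Equiv.addLeft s) (by simp) fun c _ => by simp [U2, h1, h2, add_smul, add_assoc]
  have A2 : ∀ p, S.h e p = 0 → A p ∈ OJ ρ ψ e 0 := fun p hp => mem_OJ_zero.2 fun x hx =>
    A1 _ _ _ (-S.h x p) (xe_self _ _) (by simp [xe_apply fr.H.orth_q_e hx, hp, sub_eq_add_neg])
  have A3 : ∀ (π : End ℂ M) p, (∀ c : F, π (U (p + c • e)) = 0) → π (A p) = 0 := fun π p h => by simp [hA, h]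
  obtain ⟨u0, u1⟩ := U1 e g1.1.1 fr.H.e_ne
  have u2 : U e ∈ OJ ρ ψ e 0 := mem_OJ_zero.2 fun x _ => by rw [U2, xe_self]
  have nz : ∀ {p v : V}, S.h v p ≠ 0 → p ≠ 0 := fun h h' => h (by simp [h'])
  obtain ⟨π, π1, π2⟩ := exists_pi hS hψ hV hq hs w
  replace π2 := fun p v h1 h2 h3 h4 => π2 p v g1.1.2.2.1 fr.K.e_ne h1 h2 h3 h4 _ (U1 p h1 (nz h4)).2
  obtain ⟨θ, θ1, θ2⟩ := exists_pi hS hψ hV hq hs y.1.1
  replace θ2 := fun p v h1 h2 h3 h4 => θ2 p v y2 y4 h1 h2 h3 h4 _ (U1 p h1 (nz h4)).2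
  have p1 : π (A w) ≠ 0 := by
    rw [hA, map_sum, sum_eq_single 0 (fun c _ hc => π2 _ f (by simp [orth_q_add, orth_q_smul, g1]) (by simp [g1])
      (by simp [g1]) (by simpa [g1])) (by simp), zero_smul, add_zero, π1 _ (U1 w g1.1.2.2.1 fr.K.e_ne).2]
    exact (U1 w g1.1.2.2.1 fr.K.e_ne).1
  refine ⟨⟨⟨U e, u2⟩, fun h => u0 (congrArg Subtype.val h), fun k => Subtype.ext (by rw [orep_apply, U2, oemb_e])⟩, ?_, ?_⟩
  · obtain ⟨k, hk⟩ := orth_E_vec (hS.restrict_perp fr.H.nondeg) (x := fr.w') (y := y.1)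
      (Or.inl (by have := fr.H.finrank_perp; omega)) fr.K'.e_ne (fun h => y4 (congrArg Subtype.val h))
      (y2.trans g1.1.2.2.1.symm)
    refine ⟨k, fun h => p1 ?_⟩
    have h1 : ρ (oemb fr.H k) (A w) = A w := congrArg Subtype.val (LinearMap.congr_fun h ⟨_, A2 w fr.ew⟩)
    rw [← h1, A1 _ _ y.1.1 0 (oemb_e _ _) (by rw [zero_smul, add_zero, ← hk]; exact oemb_W fr.H k fr.w')]
    exact A3 _ _ fun c => π2 _ b.1.1 (by simp [orth_q_add, orth_q_smul, g1, g2, y2]) (by simp [g1, g2]) (by simp [g3])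
      (by simp [g3, y3])
  have xw : ∀ x : OW S e f, (xe S w x).1.1 e = e := fun x => xe_perp (S.h_swap_zero fr.ew) (S.h_swap_zero (OW_e x))
  let v : Fin 3 → OJ (orep fr.H ρ ψ) ψ fr.w' 0 := ![
    ⟨⟨U e, u2⟩, mem_OJ_zero.2 fun x _ => Subtype.ext (by rw [orep_apply, U2, oemb_e])⟩,
    ⟨⟨A w, A2 w fr.ew⟩, mem_OJ_zero.2 fun x _ => Subtype.ext (by
      rw [orep_apply, oemb_xe]
      exact A1 _ _ _ 0 (xw x) (by simp [xe_self]))⟩,
    ⟨⟨∑ d : F, A (y.1.1 + d • w), sum_mem fun d _ => A2 _ (by simp [g1, g2])⟩, mem_OJ_zero.2 fun x hx => Subtype.ext (by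
      rw [orep_apply, oemb_xe, map_sum]
      refine sum_equiv (Equiv.addLeft (-S.h x y.1.1)) (by simp) fun d _ => A1 _ _ _ 0 (xw x) ?_
      replace hx : S.h w x = 0 := hx
      simp [xe_apply g1.1.2.2.1 hx, g1, g2, S.h_swap_zero hx, sub_eq_add_neg, add_smul, add_assoc, add_comm])⟩]
  refine le_of_eq_of_le (Fintype.card_fin 3).symm (LinearIndependent.fintype_card_le_finrank (b := v)
    (Fintype.linearIndependent_iff.2 fun a ha => ?_))
  have h1 : a 0 • U e + a 1 • A w + a 2 • ∑ d : F, A (y.1.1 + d • w) = 0 := by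
    simpa [Fin.sum_univ_three, v] using congrArg (fun x => x.1.1) ha
  have t1 : θ (∑ d : F, A (y.1.1 + d • w)) = U y.1.1 := by
    rw [map_sum, sum_eq_single 0 (fun d _ hd => A3 _ _ fun c => θ2 _ z (by simp [orth_q_add, orth_q_smul, g1, g2, y2])
      (by simp [g2, y5]) (by simp [g2]) (by simpa [g1, g2])) (by simp), hA, map_sum, sum_eq_single 0 (fun c _ hc => θ2 _ f
      (by simp [orth_q_add, orth_q_smul, g1, g2, y2]) (by simp [g2, y5]) (by simp [g2]) (by simpa [g1, g2])) (by simp)]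
    simpa using θ1 _ (U1 _ y2 y4).2
  have t2 := congrArg θ h1
  rw [map_add, map_add, map_smul, map_smul, map_smul, t1, θ2 e f g1.1.1 (by simp [g2]) (by simp [g2]) (by simp [g1]),
    A3 _ _ fun c => θ2 _ z (by simp [orth_q_add, orth_q_smul, g1]) (by simp [g2]) (by simp [g2]) (by simp [g1])] at t2
  have a2 : a 2 = 0 := by simpa [(U1 _ y2 y4).1] using t2
  have t3 := congrArg π h1
  rw [a2, zero_smul, add_zero, map_add, map_smul, map_smul, π2 e f g1.1.1 (by simp [g1]) (by simp [g1]) (by simp [g1])] at t3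
  have a1 : a 1 = 0 := by simpa [p1] using t3
  have a0 : a 0 = 0 := by simpa [a1, a2, u0] using h1
  intro i
  fin_cases i <;> assumption

theorem levi_le {e f w z : V} (fr : Fr S e f w z) : 3 + sph fr.T 0 ≤ finrank ℂ (OJ ρ ψ e 0) := by
  have : Finite V := Module.finite_of_finite F
  have := Fintype.ofFinite V
  have := Fintype.ofFinite fr.W
  obtain ⟨-, h1, h2⟩ := levi_facts hS hψ hV hq hs fr
  have hW := hS.restrict_perp fr.H.nondeg
  obtain ⟨a, a0, a1⟩ := exists_OJ fr.K' (orep fr.H ρ ψ) hψ hW (by have := OW_finrank fr.H; omega) h1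
  have a2 : S.q a.1.1 = 0 := by
    obtain ⟨m, m1, m0⟩ := Submodule.exists_mem_ne_zero_of_ne_bot (p := OJ (orep fr.H ρ ψ) ψ fr.w' a) fun h => by
      simp [h] at a1
    by_contra h
    refine m0 (Subtype.ext (OP_ind (ρ := ρ) hψ hS w (p := ⊥) fun y => not_not.1 fun h0 => h ?_))
    obtain ⟨c1, c2⟩ := OP_cases hψ fr.K.orth_q_e fr.K.e_ne (hs _ fr.K.orth_q_e fr.K.e_ne) h0
    have c3 : S.h e y = 0 := eq_zero_of_forall_addChar_mul hψ fun c => by
      simpa using OP_eig (y := c • e) (c := 1) fr.K.orth_q_e (by simp [fr.gram]) (by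
        rw [← xe_smul fr.K.orth_q_e (by simp [fr.gram]), xe_swap fr.H.orth_q_e (by simp [fr.gram, orth_q_smul])
          (by simp [fr.gram]), mem_OJ_zero.1 m.2 _ (by simp [fr.gram]), one_smul]) h0
    obtain ⟨b, hb⟩ := fr.dec y
    rw [c1, c3, zero_smul, zero_smul, add_zero, add_zero] at hb
    obtain rfl : b = a := sub_eq_zero.1 (fr.nondeg hS _ fun x => eq_zero_of_forall_addChar_mul hψ fun c => by
      have h3 := congrArg Subtype.val (mem_OJ.1 m1 (c • x).1 (OW_e _))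
      rw [orep_apply, oemb_xe] at h3
      have h4 := OP_eig fr.K.orth_q_e (OW_e (c • x)) h3 h0
      rw [hb] at h4
      have h5 : ψ (c * S.h b.1.1 x.1.1) = ψ (c * S.h a.1.1 x.1.1) := by
        simpa [fr.perp, S.orth_symm x.1.1] using h4
      simp [mul_sub, AddChar.map_sub_eq_div, h5, (AddChar.val_isUnit ψ _).ne_zero])
    rw [hb] at c2
    simpa [orth_q_add, orth_q_smul, fr.gram, fr.perp] using c2
  rw [← sum_OJ fr.K' (orep fr.H ρ ψ) hψ hW, sph_card, card_filter,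
    show 3 = ∑ x : fr.W, if x = 0 then 3 else 0 by simp, ← sum_add_distrib]
  refine sum_le_sum fun y _ => ?_
  by_cases y0 : y = 0
  · subst y0
    simpa using h2
  rw [if_neg y0, zero_add]
  split_ifs with hy
  swap
  · exact Nat.zero_le _
  refine a1.trans ?_
  have y1 : fr.T.q y = 0 := hy.2
  obtain ⟨g, hg, c, c0, hc⟩ := (fr.nondeg hS).exists_E_move (Or.inr (by have := fr.finrank; omega)) ((orth_sing _ _).2 a2) a0
    ((orth_sing _ _).2 y1) y0
  obtain ⟨b, K⟩ := (fr.nondeg hS).exists_isHyp ((orth_sing _ _).2 y1) y0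
  have f2 : Fr S e f y.1.1 b.1.1 := ⟨fr.H, ⟨K.sing_e, K.sing_f, K.h_ef⟩, (fr.perp y).1.1, (fr.perp b).1.1,
    (fr.perp y).1.2.1, (fr.perp b).1.2.1⟩
  obtain ⟨k, k1, k2, k3, -, k5⟩ := f2.exists_tt hS (by omega) (inv_ne_zero c0)
  obtain ⟨G, hG⟩ : ∃ G, G = k * oemb fr.H (oemb fr.K' ⟨g, hg⟩) := ⟨_, rfl⟩
  have G1 : G.1.1 e = c⁻¹ • e := by rw [hG, E_mul_apply, oemb_e, k1]
  have G2 : G.1.1 f = c⁻¹⁻¹ • f := by rw [hG, E_mul_apply, oemb_f, k2]
  have G3 : G.1.1 w = w := by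
    rw [hG, E_mul_apply, oemb_W fr.H _ fr.w', oemb_e]
    exact k5 w fr.ew fr.fw (fr.perp y).2.2.2.1 (fr.perp b).2.2.2.1
  have G4 : G.1.1 a.1.1 = y.1.1 := by
    rw [hG, E_mul_apply, oemb_W fr.H _ a.1, oemb_W fr.K' _ a]
    erw [hc]
    simp [k3, smul_smul, c0]
  have G5 : ∀ m ∈ OJ ρ ψ e 0, ρ G m ∈ OJ ρ ψ e 0 := fun m hm => by
    have := OJ_map G hm
    rwa [G1, map_zero, ← smul_zero c⁻¹, OJ_smul fr.H.orth_q_e _ (inv_ne_zero c0)] at this
  refine Act.finrank_le_of_map (g := (ρ G).restrict G5) (fun x y h => Subtype.ext (rep_inj' ρ G (congrArg Subtype.val h)))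
    fun m hm => mem_OJ.2 fun x hx => Subtype.ext ?_
  have h5 : G.1.1 ((G⁻¹).1.1 x) = x := isom_apply_inv_self G.1 _
  have h3 := congrArg Subtype.val (mem_OJ.1 hm ⟨(G⁻¹).1.1 x, S.mem_perp_pair.2
    ⟨by rw [← isom_h G.1, G1, h5]; simp [OW_e x], by rw [← isom_h G.1, G2, h5]; simp [OW_f x]⟩⟩
    (show S.h w ((G⁻¹).1.1 x) = 0 by rw [← isom_h G.1, G3, h5]; exact hx))
  rw [orep_apply, oemb_xe] at h3
  rw [orep_apply, oemb_xe, LinearMap.restrict_coe_apply, ← End.mul_apply, ← map_mul]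
  have h4 := xe_conj G w ((G⁻¹).1.1 x)
  rw [G3, h5] at h4
  rw [h4, map_mul, End.mul_apply, h3, Submodule.coe_smul, map_smul, Submodule.coe_smul, LinearMap.restrict_coe_apply]
  exact congrArg (fun t => ψ t • _) (show S.h ((G⁻¹).1.1 x) a.1.1 = S.h x y.1.1 by rw [← isom_h G.1, h5, G4])

end H24
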