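import Cfsg.Agent.H24.TwAut
import Cfsg.Agent.H24.ExA
import Cfsg.Agent.H12.InvA

/-! `p`-minimal groups with a socle of Lie type: the property `PMn` for rank one groups, amalgams and twisted groups (`pm_K`). -/

set_option autoImplicit false
set_option linter.unusedSectionVars false

namespace H24
open Cfsg Cfsg.Lie H12 H12.StSys H12.Tw H13

section
open Subgroup
variable {p : ℕ} {G G' : Type*} [Group G] [Group G'] {Q₁ Q₂ : Prop}

/-- `PMn` for one Sylow subgroup -/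
def PM1 (p : ℕ) (U : Subgroup G) (Q₁ Q₂ : Prop) : Prop := ∀ A : Subgroup (MulAut G), IsPGroup p A →
  (∀ α ∈ A, ∀ u ∈ U, α u ∈ U) → ∀ Y : Subgroup G, Y ≠ ⊤ → (∀ α ∈ A, ∀ y ∈ Y, α y ∈ Y) →
  (∀ Z : Subgroup G, Z ≠ ⊤ → U ≤ Z → (∀ α ∈ A, ∀ y ∈ Z, α y ∈ Z) → Z ≤ Y) →
  Y ≤ normalizer (U : Set G) ∧ (Q₁ ∨ p = 2 ∧ Q₂ ∧ ∃ Z : Subgroup G, U ≤ Z ∧ ∃ α ∈ A, ∃ y ∈ Z, α y ∉ Z)

theorem PM1.of_equiv {U : Subgroup G} {U' : Subgroup G'} (h : PM1 p U' Q₁ Q₂) (e : G ≃* G') (hU : ∀ x, e x ∈ U' ↔ x ∈ U) :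
    PM1 p U Q₁ Q₂ := fun A h1 h2 Y h3 h4 h5 => by
  have m : ∀ (Z : Subgroup G) x, e x ∈ Z.map (e : G →* G') ↔ x ∈ Z := fun Z x => mem_map_iff_mem e.injective
  obtain ⟨a, b⟩ := h (A.map (MulAut.congr e : MulAut G →* MulAut G')) (h1.map _) (by
      rintro _ ⟨α, hα, rfl⟩ u hu
      obtain ⟨u, rfl⟩ := e.surjective u
      simpa [hU] using h2 α hα u ((hU u).1 hu)) (Y.map (e : G →* G'))
    (fun c => h3 (eq_top_iff.2 fun x _ => (m Y x).1 (c.ge (mem_top _)))) (by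
      rintro _ ⟨α, hα, rfl⟩ _ ⟨y, hy, rfl⟩
      exact ⟨_, h4 α hα y hy, by simp⟩) fun Z c1 c2 c3 x hx => by
      obtain ⟨x, rfl⟩ := e.surjective x
      refine (m Y x).2 (h5 (Z.comap (e : G →* G')) (fun c => c1 (eq_top_iff.2 fun y _ => ?_)) (fun u hu => c2 ((hU u).2 hu))
        (fun α hα y hy => by simpa using c3 _ ⟨α, hα, rfl⟩ _ hy) hx)
      obtain ⟨y, rfl⟩ := e.surjective y
      exact c.ge (mem_top y)
  refine ⟨fun y hy => mem_normalizer_iff.2 fun x => ?_, b.imp id fun ⟨b1, b2, Z, b3, _, ⟨α, b4, rfl⟩, y, b5, b6⟩ =>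
    ⟨b1, b2, Z.comap (e : G →* G'), fun u hu => b3 ((hU u).2 hu), α, b4, e.symm y, by simpa using b5, by simpa using b6⟩⟩
  simpa [← hU] using mem_normalizer_iff.1 (a ((m Y y).2 hy)) (e x)

variable [Fact p.Prime] [Finite G]
theorem PMn.of_equiv (h : PMn p G' Q₁ Q₂) (e : G ≃* G') : PMn p G Q₁ Q₂ := fun U =>
  show PM1 p (U : Subgroup G) Q₁ Q₂ from PM1.of_equiv (U' := (sylMap e U : Subgroup G')) (h (sylMap e U)) e fun _ => mem_sylMap e U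
theorem PMn.of_one (U : Sylow p G) (h : PM1 p (U : Subgroup G) Q₁ Q₂) : PMn p G Q₁ Q₂ := fun V => by
  obtain ⟨g, rfl⟩ := MulAction.exists_smul_eq G V U
  exact PM1.of_equiv (U := V) h (MulAut.conj g) fun x => smul_mem_pointwise_smul_iff
theorem PMn.mono {Q₃ Q₄ : Prop} (h : PMn p G Q₁ Q₂) (h1 : Q₁ → Q₃) (h2 : Q₂ → Q₄) : PMn p G Q₃ Q₄ := fun U A a b Y c d e =>
  (h U A a b Y c d e).imp id (.imp h1 fun x => ⟨x.1, h2 x.2.1, x.2.2⟩)

theorem OvN.pm (h : OvN p G) (h1 : Q₁) : PMn p G Q₁ Q₂ := fun U A _ h2 Y h3 _ h5 => ⟨by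
  by_cases e : (U : Subgroup G) = ⊤
  · simp [e]
  exact (h U Y (h5 U e le_rfl h2)).2.resolve_left h3, Or.inl h1⟩

theorem RK.pm [IsSimpleGroup G] (S : RK p G) (h1 : Q₁) : PMn p G Q₁ Q₂ := PMn.of_one S.syl fun A _ h2 Y h3 _ h5 => ⟨by
  have h6 : S.U ≤ Y := h5 _ (fun e => S.hw (S.le (e.ge (mem_top _)))) le_rfl h2
  by_contra c
  refine h3 (S.ovP Y (fun d => S.syl.not_dvd_index (d.trans (index_dvd_of_le h6))) fun Q a1 a2 a3 => by_contra fun d => c fun y hy => ?_)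
  obtain ⟨⟨x, hx⟩, h⟩ := ne_bot_iff_exists_ne_one.1 d
  have a4 : Q ≤ S.U := le_sup_left.trans (S.max (a1.to_sup_of_normal_left' S.pU fun s hs => mem_normalizer_fintype (a3 s (h6 hs)))
    le_sup_right).le
  exact S.normalizer_U.ge (S.mem_B (a4 hx) (fun e => h (Subtype.ext e)) (S.le (a4 (by simpa using a3 _ (inv_mem hy) x hx)))), Or.inl h1⟩

theorem Am.pm (a : Am G) : PMn 2 G Q₁ Q₂ := PMn.of_one a.S fun A _ h2 _ h3 _ h5 => (a.no_min A h2 h3 h5).elim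
end

variable {D : ChevalleyDatum} [Good D]

theorem exists_leaf : ∃ i : I D, ∀ j k, j ≠ i → k ≠ i → wt (sim j) i ≠ 0 → wt (sim k) i ≠ 0 → j = k := by
  by_contra! h
  obtain ⟨r, -, hr⟩ := Finset.exists_max_image Finset.univ (id : Φ D → Φ D) ⟨sim ⟨0, two_pos.trans_le two_le_rank⟩, by simp⟩
  have a1 : ∀ i, 0 ≤ wt r i := fun i => by_contra fun c => by
    have := sref_lt (r := sref i r) (i := i) (by rw [wt_sref]; simp [wt_sim_self]; omega)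
    exact (hr _ (Finset.mem_univ _)).not_gt (by simpa using this)
  obtain ⟨m, -, hm⟩ := Finset.exists_min_image Finset.univ (rc r) ⟨⟨0, two_pos.trans_le two_le_rank⟩, by simp⟩
  have a2 : ∀ i, rc r i = rc r m → wt r i = 0 ∧ ∀ j, wt (sim j) i ≠ 0 → rc r j = rc r m := fun i hi => by
    have key : ∀ j k, j ≠ i → k ≠ i → wt (sim j) i ≠ 0 → wt (sim k) i ≠ 0 → j ≠ k → wt r i ≤ rc r m - rc r j := fun j k c1 c2 c3 c4 c5 => by
      have b0 : 0 ≤ rc r m := (show IsPos r by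
        simpa [IsPos] using (isPos_sim m).trans (Nat.mul_le_mul_left 2 (hr (sim m) (Finset.mem_univ _)))).rc_nonneg m
      have b1 : ∀ l, l ≠ i → wt (sim l) i ≠ 0 → rc r l * wt (sim l) i ≤ - rc r l := fun l d1 d2 => by
        have := wt_sim_nonpos d1.symm
        nlinarith [hm l (Finset.mem_univ _), lt_of_le_of_ne this d2]
      have b2 := Finset.sum_le_sum_of_subset_of_nonneg (f := fun l => -(rc r l * wt (sim l) i)) (Finset.subset_univ {i, j, k})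
        fun l _ hl => by
          simp only [Finset.mem_insert, not_or] at hl
          nlinarith [hm l (Finset.mem_univ _), wt_sim_nonpos (Ne.symm hl.1)]
      rw [Finset.sum_insert (by simp [c1.symm, c2.symm]), Finset.sum_pair c5, Finset.sum_neg_distrib, wt_sim_self,
        show ∑ l, rc r l * wt (sim l) i = wt r i by rw [wt_eq_sum r]; simp] at b2
      linarith [b1 j c1 c3, b1 k c2 c4, hm k (Finset.mem_univ _)]
    obtain ⟨j, k, c1, c2, c3, c4, c5⟩ := h i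
    refine ⟨le_antisymm (by linarith [key j k c1 c2 c3 c4 c5, hm j (Finset.mem_univ _)]) (a1 i), fun l hl => ?_⟩
    by_cases e : l = i
    · rwa [e]
    refine le_antisymm ?_ (hm l (Finset.mem_univ _))
    by_cases e' : l = j
    · linarith [key l k e c2 hl c4 (e' ▸ c5), a1 i]
    · linarith [key l j e c1 hl c3 e', a1 i]
  refine wt_ne_zero r (funext fun i => (a2 i (by_contra fun c => ?_)).1)
  obtain ⟨j, hj, k, hk, e⟩ := exists_edge (J := {i | rc r i = rc r m}) ⟨m, rfl⟩ ⟨i, c⟩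
  exact hk ((a2 j hj).2 k e)

variable {R : RSym D}

variable (R) in
/-- adjacent orbits -/
def NC (i k : I D) : Prop := w0J (R.orb i) * w0J (R.orb k) ≠ w0J (R.orb k) * w0J (R.orb i)

theorem wt_π (i j : I D) : wt (sim (R.π j)) (R.π i) = 0 ↔ wt (sim j) i = 0 := by
  have : ∀ i j : I D, wt (sim j) i = 0 ↔ sref i (sim j) = sim j := fun i j => by
    rw [← wt_injective.eq_iff, wt_sref, sub_eq_self, smul_eq_zero, or_iff_left (wt_ne_zero _)]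
  rw [this, this, ← R.sim, ← R.sref, R.ρ.injective.eq_iff]

theorem NC.ne {i k : I D} (h : NC R i k) : R.orb i ≠ R.orb k := fun e => h (by rw [e])

theorem NC.exists {i k : I D} (h : NC R i k) : ∃ b ∈ R.orb k, wt (sim b) i ≠ 0 := by
  by_contra! c
  have c1 : ∀ a ∈ R.orb i, ∀ b ∈ R.orb k, wt (sim b) a = 0 := fun a ha =>
    (show R.Inv {a | ∀ b ∈ R.orb k, wt (sim b) a = 0} from fun a => ⟨fun h b hb => (wt_π a b).1 (h _ ((RSym.inv_orb k b).2 hb)),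
      fun h b hb => by
        obtain ⟨b, rfl⟩ := R.π.surjective b
        exact (wt_π a b).2 (h b ((RSym.inv_orb k b).1 hb))⟩).orb_subset c ha
  refine h (WJ_induction (P := fun w => Commute w (w0J (R.orb k))) (Commute.one_left _) (fun a ha w _ hw => Commute.mul_left ?_ hw) (w0J_mem _))
  refine WJ_induction (P := fun w => Commute (sW a) w) (Commute.one_right _) (fun b hb w _ hw => Commute.mul_right ?_ hw) (w0J_mem _)
  have := mul_rW (sW a) (sim b)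
  rwa [sW_smul, show sref a (sim b) = sim b from wt_injective (by rw [wt_sref, c1 a ha b hb]; simp)] at this

theorem nc_of_wt {i k a b : I D} (h : R.orb i ≠ R.orb k) (ha : a ∈ R.orb i) (hb : b ∈ R.orb k) (e : wt (sim b) a ≠ 0) : NC R i k :=
  w0J_not_commute (RSym.orb_disjoint h) ha hb e

theorem exists_leaf_orb : ∃ i : I D, ∀ k l, NC R i k → NC R i l → R.orb k = R.orb l := by
  obtain ⟨i, h⟩ := exists_leaf (D := D)
  refine ⟨i, fun k l h1 h2 => ?_⟩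
  obtain ⟨b, a1, a2⟩ := h1.exists
  obtain ⟨c, b1, b2⟩ := h2.exists
  obtain rfl := h b c (by rintro rfl; exact h1.ne (RSym.orb_eq_of_mem a1)) (by rintro rfl; exact h2.ne (RSym.orb_eq_of_mem b1)) a2 b2
  rw [← RSym.orb_eq_of_mem a1, RSym.orb_eq_of_mem b1]

theorem two_orbs (h : ∀ i k l, NC R i k → NC R i l → R.orb k = R.orb l) {i j : I D} (hij : R.orb i ≠ R.orb j) (k : I D) :
    k ∈ R.orb i ∨ k ∈ R.orb j := by
  have n : ∀ {a b : I D}, a ∉ R.orb b → R.orb b ≠ R.orb a := fun c e => c (e ▸ RSym.mem_orb _)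
  obtain ⟨a, ha, b, hb, e⟩ := exists_edge (J := R.orb i) ⟨i, RSym.mem_orb i⟩ ⟨j, fun c => hij (RSym.orb_eq_of_mem c).symm⟩
  have h1 := nc_of_wt (n hb) ha (RSym.mem_orb b) e
  have h2 : ∀ k, k ∈ R.orb i ∪ R.orb b := fun k => by_contra fun c => by
    obtain ⟨x, hx, y, hy, e⟩ := exists_edge (J := R.orb i ∪ R.orb b) ⟨i, Or.inl (RSym.mem_orb i)⟩ ⟨k, c⟩
    rcases hx with hx | hx
    · exact n (fun c => hy (Or.inr c)) (h i _ _ h1 (nc_of_wt (n fun c => hy (Or.inl c)) hx (RSym.mem_orb y) e))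
    · exact n (fun c => hy (Or.inl c)) (h b _ _ (Ne.symm h1) (nc_of_wt (n fun c => hy (Or.inr c)) hx (RSym.mem_orb y) e))
  rw [RSym.orb_eq_of_mem ((h2 j).resolve_left fun c => hij (RSym.orb_eq_of_mem c).symm)]
  exact h2 k

variable {F : Type*} [Field F] {Γ : Type*} [Group Γ] {S : StSys D F Γ} {τ : Tw S R} {θ : Γ →* GL D.Idx F} {K : Subgroup Γ}
  (hK : τ.Adm K) (hθ : S.Cov θ)
include hθ

theorem mem_of_cell {J : Set (I D)} {i : I D} {g : Γ} (h1 : S.Cell (w0J (R.orb i)) g) (h2 : g ∈ S.P J) : i ∈ J := by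
  obtain ⟨w, hw, hc⟩ := mem_P.1 h2
  exact inJ_sim.1 (mem_WJ_iff.1 (hθ.cell_unique h1 hc ▸ hw) _ (mem_inv_w0J.2 ⟨isPos_sim i, inJ_sim.2 (RSym.mem_orb i)⟩))

include hK
theorem cell_of_not_mem_B {i : I D} {g : Γ} (h0 : g ∈ K) (h1 : g ∈ S.P (R.orb i)) (h2 : g ∉ S.B) : S.Cell (w0J (R.orb i)) g := by
  obtain ⟨w, hw, hc⟩ := mem_P.1 h1
  rcases RSym.eq_one_or_w0J (mem_W1 hθ (hK.le h0) hc) hw with rfl | rfl
  exacts [absurd (cell_one.1 hc) h2, hc]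

theorem le_P_of_U_le {Y : Subgroup Γ} (a1 : S.U ⊓ K ≤ Y) (a2 : Y ≤ K) : Y ≤ S.P {i | VO S R i ⊓ K ≤ Y} := fun g hg => by
  set J := {i | VO S R i ⊓ K ≤ Y}
  have a3 : R.Inv J := fun i => by simp only [J, VO, Set.mem_setOf_eq, RSym.orb_eq_of_mem ((RSym.inv_orb i i).2 (RSym.mem_orb i))]
  obtain ⟨w, hw⟩ := exists_cell (hK.le (a2 hg)).1
  obtain ⟨m, hm, v, hv, e⟩ := exists_minK J w⁻¹
  have b1 := inv_mem (mem_W1 hθ (hK.le (a2 hg)) hw)
  have b2 : ∀ v ∈ R.W1, v ∈ WJ J → ∃ n ∈ Y, S.Rep n v := fun v h1 =>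
    RSym.W1_induction (P := fun v => v ∈ WJ J → ∃ n ∈ Y, S.Rep n v)
      (fun _ => ⟨1, one_mem _, rep_of_mem_H (one_mem _)⟩) (fun w _ i hm ih h => by
        have c1 : i ∈ J := inJ_sim.1 (mem_WJ_iff.1 h _ ((hm.mem_inv_mul (w0J_mem _)).2
          (Or.inl (mem_inv_w0J.2 ⟨isPos_sim i, inJ_sim.2 (RSym.mem_orb i)⟩))))
        obtain ⟨n, c2, c3⟩ := ih (by simpa [mul_assoc] using mul_mem h (WJ_mono (a3.orb_subset c1) (w0J_mem (R.orb i))))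
        obtain ⟨v, c4, c5, c6⟩ := hK.neV i
        obtain ⟨u, hu, n', -, hn', u', hu', e⟩ := exists_unu_VO hK hθ c4 c5 c6
        exact ⟨_, mul_mem c2 (by
          simpa [e, mul_assoc] using mul_mem (mul_mem (inv_mem (a1 ⟨UO_le i hu.1, hu.2⟩)) (c1 ⟨c5, c4⟩))
            (inv_mem (a1 ⟨UO_le i hu'.1, hu'.2⟩))), c3.mul hn'⟩) h1
  have b3 := a3.mem_of_mul hm hv (e ▸ b1)
  obtain ⟨n, c1, c2⟩ := b2 v (by rw [e] at b1; simpa using mul_mem (inv_mem b3) b1) hv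
  obtain ⟨u, hu, n', -, hn', u', hu', rfl⟩ := hK.exists_unu hθ (a2 hg) hw
  have c3 : n' ∈ Y := by
    simpa [mul_assoc] using mul_mem (mul_mem (inv_mem (a1 hu)) hg) (inv_mem (a1 ⟨S.Um_le_U _ hu'.1, hu'.2⟩))
  obtain rfl : m = 1 := eq_one_of_pos fun i => by_contra fun hi => hi (hm i (VO_le_of_cell hK hθ a1 a2 (mul_mem c1 c3)
    (c2.mul hn').cell (by rwa [mul_inv_rev, e, mul_inv_cancel_right])))
  exact mem_P.2 ⟨w, inv_mem_iff.1 (by simpa [e] using hv), hw⟩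

theorem Pres.exists_P {α : K ≃* K} (h : Pres α S.U S.U) (i : I D) : ∃ j, Pres α (S.P (R.orb i)) (S.P (R.orb j)) := by
  obtain ⟨_, ⟨j, rfl⟩, h1⟩ := bn_map_parabolic (hK.bn hθ) α (h.B hK hθ) ⟨i, rfl⟩
  simp only [parabolic_eq, Subgroup.mem_subgroupOf] at h1
  exact ⟨j, h1⟩

theorem Pres.orb_eq {α : K ≃* K} {i j k : I D} (h : Pres α (S.P (R.orb i)) (S.P (R.orb j))) (h' : Pres α (S.P (R.orb i)) (S.P (R.orb k))) :
    R.orb j = R.orb k := by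
  obtain ⟨n, a1, a2⟩ := hK.exists_rep_orb hθ j
  obtain ⟨g, hg⟩ := α.surjective ⟨n, a1⟩
  have := (h' g).2 ((h g).1 (by rw [hg]; exact rep_mem_P a2 (w0J_mem _)))
  rw [hg] at this
  exact RSym.orb_eq_of_mem (mem_of_cell hθ a2.cell this)

theorem Pres.cell {α : K ≃* K} (h0 : Pres α S.U S.U) {i j : I D} (h : Pres α (S.P (R.orb i)) (S.P (R.orb j))) {g : K}
    (hg : S.Cell (w0J (R.orb i)) g) : S.Cell (w0J (R.orb j)) (α g) :=
  cell_of_not_mem_B hK hθ (α g).2 ((h g).2 (mem_P.2 ⟨_, w0J_mem _, hg⟩)) fun c =>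
    w0J_ne_one (RSym.mem_orb i) (hθ.cell_unique hg (cell_one.2 ((h0.B hK hθ g).1 c)))

theorem Pres.nc {α : K ≃* K} (h0 : Pres α S.U S.U) {i j k l : I D} (h : Pres α (S.P (R.orb i)) (S.P (R.orb j)))
    (h' : Pres α (S.P (R.orb k)) (S.P (R.orb l))) (c : NC R j l) : NC R i k := fun e => c (by
  have mk : ∀ {a b : I D}, R.orb a ≠ R.orb b → MinK (R.orb b) (w0J (R.orb a)) := fun c x hx => isPos_smul_of_not_inJ (w0J_mem _)
    (fun d => Set.disjoint_left.1 (RSym.orb_disjoint c) (inJ_sim.1 d) hx) (isPos_sim x)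
  obtain ⟨n, a1, a2⟩ := hK.exists_rep_orb hθ i
  obtain ⟨m, b1, b2⟩ := hK.exists_rep_orb hθ k
  obtain ⟨b, hb, u, hu, e'⟩ := hK.exists_bnu hθ (mul_mem a1 b1) (e ▸ (a2.mul b2).cell) (b2.mul a2) (mul_mem b1 a1)
  have c1 := h0.cell hK hθ h (g := ⟨n, a1⟩) a2.cell
  have c2 := h0.cell hK hθ h' (g := ⟨m, b1⟩) b2.cell
  refine hθ.cell_unique (c1.mul_minK c2 (mk c.ne) (w0J_mem _)) ?_
  have := congrArg (fun x => (α x : Γ)) (show (⟨n, a1⟩ * ⟨m, b1⟩ : K) = ⟨b, hb.2⟩ * (⟨m, b1⟩ * ⟨n, a1⟩) * ⟨u, hu.2⟩ from Subtype.ext e')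
  simp only [map_mul, Subgroup.coe_mul] at this
  rw [this]
  exact ((c2.mul_minK c1 (mk c.ne.symm) (w0J_mem _)).mul_left ((h0.B hK hθ _).2 hb.1)).mul_right
    ((h0.B hK hθ _).2 (S.U_le_B (S.Um_le_U _ hu.1))))

variable (S R K) in
omit hK hθ in
/-- the two nodes of a rank two group are interchanged by an automorphism -/
def Swp2 : Prop := ∃ i j, R.orb i ≠ R.orb j ∧ (∀ k, k ∈ R.orb i ∨ k ∈ R.orb j) ∧ ∃ α : K ≃* K, Std S α ∧
  Pres α (UO S R i) (UO S R j) ∧ Pres α (VO S R i) (VO S R j)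

theorem pm_K [Finite F] [Finite Γ] {p : ℕ} [hp : Fact p.Prime] [CharP F p] (hG : K ≤ τ.G1) {Q₁ Q₂ : Prop}
    (q1 : (∀ i, R.orb i = Set.univ) → Q₁) (q2 : p = 2 → Swp2 R S K → Q₂) : PMn p K Q₁ Q₂ := by
  obtain ⟨P, hP⟩ := exists_sylow hK hθ p
  refine PMn.of_one P fun A h1 h2 Y h3 h4 h5 => ?_
  rw [hP] at h2 h5 ⊢
  have a0 : ∀ α ∈ A, Pres α S.U S.U := fun α hα g => ⟨fun h => by simpa [Subgroup.mem_subgroupOf] using h2 _ (inv_mem hα) _ h, h2 α hα g⟩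
  have top : ∀ Y : Subgroup K, S.U.subgroupOf K ≤ Y → (∀ i, VO S R i ⊓ K ≤ Y.map K.subtype) → Y = ⊤ := fun Y c1 c2 => by
    have a7 : τ.Adm (Y.map K.subtype) := ⟨(Subgroup.map_subtype_le _).trans hK.le,
      fun i u hu => ⟨⟨u, hK.hU i hu⟩, c1 (S.Um_le_U _ hu.1), rfl⟩, fun i => by
        obtain ⟨v, c4, c5, c6⟩ := hK.neV i; exact ⟨v, c2 i ⟨c5, c4⟩, c5, c6⟩⟩
    refine eq_top_iff.2 fun x _ => ?_
    obtain ⟨y, hy, e⟩ := a7.G1_le hθ (hG x.2)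
    exact (Subtype.ext e : y = x) ▸ hy
  have nt : ∀ {J : Set (I D)} {k}, k ∉ J → (S.P J).subgroupOf K ≠ ⊤ := fun {J k} hk e => by
    obtain ⟨n, a1, a2⟩ := hK.exists_rep_orb hθ k
    exact hk (mem_of_cell hθ a2.cell (e.ge (Subgroup.mem_top (⟨n, a1⟩ : K))))
  have hY : S.U.subgroupOf K ≤ Y := h5 _ (fun e => nt (J := ∅) (k := ⟨0, two_pos.trans_le two_le_rank⟩) (by simp)
    (eq_top_iff.2 (e.ge.trans fun x hx => U_le_P _ hx))) le_rfl h2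
  have t0 : ∃ i, ∀ j, ∃ α ∈ A, Pres α (S.P (R.orb i)) (S.P (R.orb j)) := by
    by_contra! c
    refine h3 (top Y hY fun i v hv => ⟨⟨v, hv.2⟩, ?_, rfl⟩)
    obtain ⟨k, hk⟩ := c i
    have m : ∀ α ∈ A, ∀ g : K, (g : Γ) ∈ S.P (R.orb i) → α g ∈ ⨆ α ∈ A, ((S.P (R.orb i)).subgroupOf K).map (α : K →* K) :=
      fun α hα g hg => Subgroup.mem_iSup_of_mem α (Subgroup.mem_iSup_of_mem hα ⟨g, hg, rfl⟩)
    refine h5 _ (ne_top_of_le_ne_top (nt (J := {j | ∃ α ∈ A, Pres α (S.P (R.orb i)) (S.P (R.orb j))}) (k := k)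
      fun ⟨α, c1, c2⟩ => hk α c1 c2) (iSup₂_le fun α hα => ?_)) (fun u hu => m 1 A.one_mem u (U_le_P _ hu)) (fun β hβ => ?_)
      (m 1 A.one_mem _ ((mem_VO_iff hθ).1 hv.1).2)
    · rintro _ ⟨g, hg, rfl⟩
      obtain ⟨j, hj⟩ := (a0 α hα).exists_P hK hθ i
      exact P_mono (J := {j | ∃ α ∈ A, Pres α (S.P (R.orb i)) (S.P (R.orb j))})
        (fun l hl => ⟨α, hα, by rwa [RSym.orb_eq_of_mem hl]⟩) ((hj g).2 hg)
    · refine fun y hy => (iSup₂_le fun α hα => ?_ : _ ≤ Subgroup.comap (β : K →* K)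
        (⨆ α ∈ A, ((S.P (R.orb i)).subgroupOf K).map (α : K →* K))) hy
      rintro _ ⟨g, hg, rfl⟩
      exact m (β * α) (mul_mem hβ hα) g hg
  have t1 : ∀ i j, ∃ α ∈ A, Pres α (S.P (R.orb i)) (S.P (R.orb j)) := fun i j => by
    obtain ⟨k, hk⟩ := t0
    obtain ⟨α, a1, a2⟩ := hk i
    obtain ⟨β, b1, b2⟩ := hk j
    exact ⟨β * α⁻¹, mul_mem b1 (inv_mem a1), a2.symm.trans b2⟩
  have y1 : S.U ⊓ K ≤ Y.map K.subtype := fun u hu => ⟨⟨u, hu.2⟩, hY hu.1, rfl⟩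
  refine ⟨fun y hy => ?_, ?_⟩
  · have := le_P_of_U_le hK hθ y1 (Subgroup.map_subtype_le Y) ⟨y, hy, rfl⟩
    rw [show {i | VO S R i ⊓ K ≤ Y.map K.subtype} = ∅ from Set.eq_empty_of_forall_notMem fun i hi => h3 (top Y hY fun j => ?_), P_empty] at this
    · exact Subgroup.mem_normalizer_fintype fun u hu => UJ_empty.le (conj_mem_of_normalizer (P_le_normalizer ∅ (B_le_P _ this)) (UJ_empty.ge hu))
    obtain ⟨α, a1, a2⟩ := t1 i j
    obtain ⟨v, c1, c2, c3⟩ := hK.neV i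
    obtain ⟨w, c4, rfl⟩ := hi ⟨c2, c1⟩
    exact VO_le_of_cell hK hθ y1 (Subgroup.map_subtype_le Y) ⟨_, h4 α a1 w c4, rfl⟩ ((a0 α a1).cell hK hθ a2 (cell_of_not_mem_B hK hθ c1
      ((mem_VO_iff hθ).1 c2).2 fun c => c3 (hθ.eq_one_of_V_B (VO_le i c2) c))) (by
        simpa [isPos_w0J (inJ_sim.2 (RSym.mem_orb j))] using isPos_sim j)
  by_cases e : ∀ i, R.orb i = Set.univ
  · exact Or.inl (q1 e)
  obtain ⟨i, hi⟩ := not_forall.1 e
  obtain ⟨j, hj⟩ := Set.nonempty_compl.2 hi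
  have hij : R.orb i ≠ R.orb j := fun c => hj (c ▸ RSym.mem_orb j)
  obtain ⟨i0, h0⟩ := exists_leaf_orb (R := R)
  have t2 := two_orbs (fun i k l c1 c2 => by
    obtain ⟨α, a1, a2⟩ := t1 i i0
    obtain ⟨k', b1⟩ := (a0 α a1).exists_P hK hθ k
    obtain ⟨l', b2⟩ := (a0 α a1).exists_P hK hθ l
    rw [← h0 k' l' ((a0 α a1).symm.nc hK hθ a2.symm b1.symm c1) ((a0 α a1).symm.nc hK hθ a2.symm b2.symm c2)] at b2
    exact b1.symm.orb_eq hK hθ b2.symm) hij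
  obtain ⟨α, a1, a2⟩ := t1 i j
  have p2 : p = 2 := hp.out.eq_two_or_odd'.resolve_right fun o => by
    obtain ⟨k, b1⟩ := (a0 α a1).exists_P hK hθ j
    rw [RSym.orb_eq_of_mem ((t2 k).resolve_right fun c => hij (a2.symm.orb_eq hK hθ (RSym.orb_eq_of_mem c ▸ b1.symm)))] at b1
    have b2 : ∀ m : ℕ, Pres (α ^ (2 * m + 1) : MulAut K) (S.P (R.orb i)) (S.P (R.orb j)) := fun m => by
      induction m with
      | zero => simpa using a2
      | succ m ih => rw [show 2 * (m + 1) + 1 = 2 * m + 1 + 1 + 1 by ring, pow_succ', pow_succ']; exact (ih.trans b1).trans a2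
    obtain ⟨n, hn⟩ := h1 ⟨α, a1⟩
    obtain ⟨m, hm⟩ := o.pow (n := n)
    have := b2 m
    rw [← hm, show α ^ p ^ n = 1 from congrArg Subtype.val hn] at this
    exact hij (Pres.orb_eq hK hθ (fun _ => Iff.rfl) this)
  obtain ⟨n, c1, c2⟩ := hK.exists_rep_orb hθ i
  refine Or.inr ⟨p2, q2 p2 ⟨i, j, hij, t2, ?_⟩, (S.P (R.orb i)).subgroupOf K, fun u hu => U_le_P _ hu, α, a1, ⟨n, c1⟩,
    rep_mem_P c2 (w0J_mem _), fun c => hj (mem_of_cell hθ ((a0 α a1).cell hK hθ a2 (g := ⟨n, c1⟩) c2.cell) c)⟩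
  obtain ⟨u, hu, hβ⟩ := (a0 α a1).exists_std hK hθ
  obtain ⟨k, b1, b2⟩ := hβ.exists_orb hK hθ i
  obtain ⟨v, d1, d2, d3⟩ := hK.neV i
  have d4 := (mem_VO_iff hθ).1 ((b2 ⟨v, d1⟩).2 d2)
  have d5 : R.orb k = R.orb j := RSym.orb_eq_of_mem (mem_of_cell hθ (cell_of_not_mem_B hK hθ (Subtype.prop _) d4.2 fun c =>
    d3 (by simpa using hθ.eq_one_of_V_B d4.1 c)) ((a2.trans (pres_conj_of_norm (Subgroup.le_normalizer (U_le_P _ hu))) _).2
      ((mem_VO_iff hθ).1 d2).2))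
  exact ⟨_, hβ, by simpa only [UO, d5] using b1, by simpa only [VO, d5] using b2⟩

end H24
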