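import Cfsg.Agent.H24.PMin
import Cfsg.Agent.H24.AutGr
import Cfsg.Prelude.Def_AlmostLie

/-! The property `PMn` in the sixteen families (`lie_pm`) and in `A₆` (`A6.pm`). -/

set_option autoImplicit false
set_option linter.unusedSectionVars false

namespace H24
open Cfsg Cfsg.Lie H12 H12.StSys H12.Tw H13
open scoped MatrixGroups

section
variable {D : ChevalleyDatum} [Good D] {R : RSym D} {F : Type*} [Field F] {Γ : Type*} [Group Γ] {S : StSys D F Γ}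
  {θ : Γ →* GL D.Idx F} {K : Subgroup Γ} {p : ℕ} {Q₁ Q₂ : Prop}

/-- two orbits with isomorphic root groups -/
def Sw3 (τ : Tw S R) : Prop := ∃ i j, R.orb i ≠ R.orb j ∧ (∀ k, k ∈ R.orb i ∨ k ∈ R.orb j) ∧
  Nonempty (↥(UO S R i ⊓ τ.Fix) ≃* ↥(UO S R j ⊓ τ.Fix))

theorem Swp2.sw3 {τ : Tw S R} (hK : τ.Adm K) (hθ : S.Cov θ) (h : Swp2 R S K) : Sw3 τ := by
  obtain ⟨i, j, h1, h2, α, -, h3, -⟩ := h
  refine ⟨i, j, h1, h2, ?_⟩
  rw [← hK.U_inf hθ (UO_le i), ← hK.U_inf hθ (UO_le j)]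
  exact ⟨⟨⟨fun x => ⟨α ⟨x, x.2.2⟩, (h3 _).2 x.2.1, Subtype.prop _⟩, fun x => ⟨α.symm ⟨x, x.2.2⟩, (h3.symm _).2 x.2.1, Subtype.prop _⟩,
    fun x => by simp, fun x => by simp⟩, fun x y => Subtype.ext (congrArg Subtype.val (map_mul α ⟨x, x.2.2⟩ ⟨y, y.2.2⟩) :)⟩⟩

theorem Sw3.of_ad {τ : TwF S R} (hθ : S.Cov θ) (h : Sw3 (adT τ hθ).toTw) : Sw3 τ.toTw := by
  have k : ∀ i, Nonempty (↥(UO S R i ⊓ τ.Fix) ≃* ↥(UO (adS D F) R i ⊓ (adT τ hθ).Fix)) := fun i => by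
    rw [UO, UO, ← map_gen_fix τ hθ fun _ h => h.1]
    exact ⟨MulEquiv.ofBijective (θ.subgroupMap _) ⟨fun a b e => Subtype.ext (hθ.injOn closed_isPos pos_fl (UO_le i a.2.1) (UO_le i b.2.1)
      (congrArg Subtype.val e)), θ.subgroupMap_surjective _⟩⟩
  obtain ⟨i, j, h1, h2, ⟨e⟩⟩ := h
  exact ⟨i, j, h1, h2, ⟨((k i).some.trans e).trans (k j).some.symm⟩⟩

theorem Sw3.three {τ : Tw S R} (h : Sw3 τ) {a b c : I D} (h1 : b ∉ R.orb a) (h2 : c ∉ R.orb a) (h3 : c ∉ R.orb b) : False := by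
  obtain ⟨i, j, -, h, -⟩ := h
  have k : ∀ {x y z : I D}, x ∈ R.orb z → y ∈ R.orb z → y ∈ R.orb x := fun u v => RSym.orb_eq_of_mem u ▸ v
  rcases h a with u | u <;> rcases h b with v | v <;> rcases h c with w | w <;>
    first | exact h1 (k u v) | exact h2 (k u w) | exact h3 (k v w)

theorem Sw3.iso {τ : Tw S R} (h : Sw3 τ) {a b : I D} (h1 : b ∉ R.orb a) : Nonempty (↥(UO S R a ⊓ τ.Fix) ≃* ↥(UO S R b ⊓ τ.Fix)) := by
  obtain ⟨i, j, -, h, ⟨e⟩⟩ := h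
  rcases h a with u | u <;> rcases h b with v | v <;> rw [UO, UO, RSym.orb_eq_of_mem u, RSym.orb_eq_of_mem v]
  exacts [⟨.refl _⟩, ⟨e⟩, ⟨e.symm⟩, ⟨.refl _⟩]

theorem Sw3.card {τ : Tw S R} (h : Sw3 τ) {a b : I D} (h1 : b ∉ R.orb a) :
    Nat.card ↥(S.Um (w0J (R.orb a)) ⊓ τ.Fix) = Nat.card ↥(S.Um (w0J (R.orb b)) ⊓ τ.Fix) := by
  rw [mem_Um_w0J, mem_Um_w0J]; exact Nat.card_congr (h.iso h1).some.toEquiv

theorem not_mem_orb (h : ∀ i, R.π (R.π i) = i) {a b : I D} (h1 : b ≠ a) (h2 : b ≠ R.π a) : b ∉ R.orb a := fun c =>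
  ((show R.Inv {a, R.π a} from fun i => by
    simp only [Set.mem_insert_iff, Set.mem_singleton_iff, R.π.injective.eq_iff]
    exact ⟨fun x => x.elim (fun e => Or.inr (by rw [← e, h])) Or.inl, fun x => x.elim Or.inr fun e => Or.inl (by rw [e, h])⟩).orb_subset
      (Or.inl rfl) c).elim h1 h2

variable [Finite F] [Fact p.Prime] [CharP F p]

theorem GAd.pm {τ : Tw (adS D F) R} {K : Subgroup (GL D.Idx F)} (h : GAd τ K p) (hs : IsSimpleGroup K)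
    (q1 : (∀ i, R.orb i = Set.univ) → Q₁) (q2 : p = 2 → Swp2 R (adS D F) K → Q₂) : PMn p K Q₁ Q₂ :=
  pm_K h.adm cov_ad (h.le_G1 cov_ad r3_ad) q1 q2

theorem GAd.pm' {G : Type*} [Group G] {τ : TwF S R} (h : GAd τ.toTw K p) (hθ : S.Cov θ)
    (hs : IsSimpleGroup (G ⧸ Subgroup.center G)) (e : G ≃* K) (q1 : (∀ i, R.orb i = Set.univ) → Q₁) (q2 : p = 2 → Sw3 τ.toTw → Q₂) :
    PMn p (G ⧸ Subgroup.center G) Q₁ Q₂ :=
  have f := (H11.centerQuotCongr e).trans (h.quot hθ)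
  have := Finite.of_equiv _ f.symm.toEquiv
  ((h.map hθ).pm f.symm.isSimpleGroup q1 fun a b => q2 a ((b.sw3 (h.map hθ).adm cov_ad).of_ad hθ)).of_equiv f

theorem pm_group (hs : IsSimpleGroup (D.group F)) (q2 : p = 2 → D.rank = 2 → Swp2 (R0 D) (adS D F) (D.group F) → Q₂) :
    PMn p (D.group F) Q₁ Q₂ := by
  have h2 := two_le_rank (D := D)
  refine ((ga0 cov_ad p).of_adm cov_ad adm0).pm hs (fun h => absurd ((h ⟨0, by omega⟩).ge (Set.mem_univ ⟨1, h2⟩))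
    (by simp [orb_R0])) fun a b => q2 a (by_contra fun c => ?_) b
  exact (b.sw3 adm0 cov_ad).three (a := ⟨0, by omega⟩) (b := ⟨1, by omega⟩) (c := ⟨2, by omega⟩) (by simp [orb_R0]) (by simp [orb_R0])
    (by simp [orb_R0])

theorem pm_st {F : Type} [Field F] [Finite F] [CharP F p] [Finite Γ] (hp : ∀ {Γ : Type} [Group Γ] (S : StSys D F Γ), commutator S.T = ⊤)
    (e : D.SteinbergGroup F ≃* Γ)
    (q2 : p = 2 → D.rank = 2 → Q₂) : PMn p (Γ ⧸ Subgroup.center Γ) Q₁ Q₂ := by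
  have hs := simple_group (D := D) (F := F) hp
  have := hs.toNontrivial
  have := (toGroup_surj (F := F) (D := D) cov_st stS_T).nontrivial
  obtain ⟨ψ, -⟩ := (stS D F).exists_iso_quot stS_T hs (perfect_of_T stS_T (hp _))
  exact (pm_group hs fun a b _ => q2 a b).of_equiv ((H11.centerQuotCongr e.symm).trans ψ.symm)

omit [CharP F p] [Fact p.Prime] in
theorem Std.mon {β : MulAut (D.group F)} (hx : Std (adS D F) β) : ∃ π c φ, Mon β π c φ := by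
  have key : ∀ i, ∃ j, ∃ (c : Fˣ) (φ : F ≃+* F), (∀ t, β ((grS D F).x (sim i) t) = (grS D F).x (sim j) (c * φ t)) ∧
      ∀ t, β ((grS D F).x (ng (sim i)) t) = (grS D F).x (ng (sim j)) ((c⁻¹ : Fˣ) * φ t) := fun i => by
    obtain ⟨j, f, g, hf, hg⟩ := exists_rank1 hx i
    obtain ⟨c, φ, e1, e2⟩ := R1.exists_field (S := (stR1 (grS D F) (sim i)).map β.toMonoidHom)
      (S' := stR1 (grS D F) (sim j)) (f := f) (g := g) (by
        obtain ⟨B, h1, h2⟩ := fa_stR1 (F := F) cov_gr (isPos_sim i)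
        exact ⟨B.map β.toMonoidHom, fun t => ⟨_, h1 t, rfl⟩, fun t ⟨a, ha, e⟩ => h2 t (β.injective e ▸ ha)⟩)
      (fa_stR1 cov_gr (isPos_sim j)) hf hg
    exact ⟨j, c, RingEquiv.ofBijective φ (Finite.injective_iff_bijective.1 φ.injective),
      fun t => (hf t).trans (by rw [e1]; rfl), fun t => (hg t).trans (by rw [e2]; rfl)⟩
  choose π c φ h1 h2 using key
  have h3 : Function.Injective π := fun i j e => by
    have : β ((grS D F).x (sim i) 1) = β ((grS D F).x (sim j) ((φ j).symm ((c j)⁻¹ * (c i * φ i 1)))) := by rw [h1, h1, e]; simp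
    exact sim_injective (eq_of_x_eq cov_gr (β.injective this) one_ne_zero)
  exact ⟨Equiv.ofBijective π (Finite.injective_iff_bijective.1 h3), c, φ, h1, h2⟩

theorem pm_G2 [Good chevG2] (hs : IsSimpleGroup (chevG2.group F)) : PMn p (chevG2.group F) Q₁ Q₂ := pm_group hs (by
  rintro rfl - ⟨i, j, h1, -, α, h2, h3, -⟩
  obtain ⟨π, c, φ, h⟩ := h2.mon
  obtain ⟨l, a1, a2⟩ := exists_has sym_G2 h.symm
  rw [UO_R0, UO_R0] at h3
  obtain ⟨t, ht⟩ := (adS _ F).mem_gen_single.1 ((h3 ((grS _ F).x (sim i) 1)).2 ((adS _ F).x_mem (Set.mem_singleton _) 1))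
  rw [h.pos] at ht
  have a3 := sim_injective (eq_of_x_eq (S := adS _ F) cov_ad ht (by simp))
  simp only [List.mem_cons, List.not_mem_nil, or_false] at a1
  rcases a1 with rfl | rfl
  · exact absurd (by rw [← a3, a2.eq has_one]; rfl) h1
  · exact absurd (CharP.eq F (h.charP a2 swp_G2 Nat.prime_three) inferInstance : 3 = 2) (by norm_num))
end

section
variable {p : ℕ} [Fact p.Prime] {Q₁ Q₂ : Prop} (F : Type) [Field F] [Fintype F]

theorem orb_RA {l : ℕ} (h : 2 ≤ l) (i : Fin l) : (RA h).orb i = {j | j ∈ [i, i.rev]} :=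
  RSym.orb_eq (R := RA h) (fun j : Fin l => by
    simp only [RA_π, List.mem_cons, List.not_mem_nil, or_false, Set.mem_setOf_eq, Fin.rev_eq_iff, Fin.rev_rev]; exact or_comm)
    (by simp) fun k hk => by
      simp only [List.mem_cons, List.not_mem_nil, or_false, Set.mem_setOf_eq] at hk
      rcases hk with rfl | rfl <;> simp [RA_π]

theorem not_mem_RA {l : ℕ} (h : 2 ≤ l) {a b : ℕ} (ha : a < l) (hb : b < l) (c1 : b ≠ a) (c2 : b + a + 1 ≠ l) :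
    (⟨b, hb⟩ : Fin l) ∉ (RA h).orb (⟨a, ha⟩ : Fin l) := by
  rw [orb_RA]; simp [Fin.ext_iff]; omega

theorem not_sw3_A [CharP F 2] {l : ℕ} (h : 2 ≤ l) (h' : l ≠ 2) {φ : F →+* F} (h1 : ∀ t, φ (φ t) = t) (h2 : φ ≠ RingHom.id F) :
    ¬ Sw3 (twA h φ).toTw := fun c => by
  by_cases e : 5 ≤ l
  · exact c.three (not_mem_RA h (a := 0) (b := 1) (by omega) (by omega) (by omega) (by omega))
      (not_mem_RA h (b := 2) _ (by omega) (by omega) (by omega)) (not_mem_RA h _ _ (by omega) (by omega))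
  obtain rfl | rfl : l = 3 ∨ l = 4 := by omega
  · have := c.card (a := (0 : Fin 3)) (b := (1 : Fin 3)) (not_mem_RA h (a := 0) (b := 1) _ _ (by omega) (by omega))
    rw [TwF.card_Um_fix (τ := twA h φ) (cov_A h F) (orth_two (i := (0 : Fin 3)) (j := (2 : Fin 3)) (show (0 : Fin 3) ≠ 2 by decide)
      (by rw [wt_A]; rfl)) (Y := Set.univ) (orb_RA h 0)
      (fun t => ⟨fun _ => ⟨fun j : Fin 3 => if j = 0 then t else φ t, fun j hj => by
        simp only [List.mem_cons, List.not_mem_nil, or_false] at hj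
        rcases hj with rfl | rfl
        exacts [rfl, (h1 t).symm], rfl⟩, fun _ => trivial⟩),
      TwF.card_Um_fix (τ := twA h φ) (cov_A h F) (orth_one (1 : Fin 3)) (Y := {t | φ t = t}) ((orb_RA h 1).trans (by
        ext j; simp [show (1 : Fin 3).rev = 1 from rfl]))
      (fun t => ⟨fun a => ⟨fun _ => t, fun _ _ => a.symm, rfl⟩, by
        rintro ⟨c, a, rfl⟩; exact (a (1 : Fin 3) (by simp)).symm⟩), Nat.card_coe_set_eq, Nat.card_coe_set_eq] at this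
    exact h2 (RingHom.ext fun t => (Set.eq_of_subset_of_ncard_le (Set.subset_univ _) this.le).ge (Set.mem_univ t))
  · obtain ⟨f⟩ := c.iso (a := (1 : Fin 4)) (b := (0 : Fin 4)) (not_mem_RA h (a := 1) (b := 0) _ _ (by omega) (by omega))
    have a := a2_A h φ h1 h2 (a := 1) (b := 2) (c := 3) (by decide) (by decide) (by decide) rfl rfl (Or.inl rfl)
    obtain ⟨u, hu⟩ := a.exists_y 1
    have k := pos_inJ_pair (D := (msA 4 h).D) (i := (1 : Fin 4)) (j := (2 : Fin 4)) (show (1 : Fin 4) ≠ 2 by decide) (by rw [wt_A]; rfl)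
      (by rw [wt_A]; rfl) (c := rA h 1 3 (by decide)) (by rw [sim_A, sim_A]; exact a.wc)
    rw [sim_A, sim_A] at k
    set y : ↥(UO (sysA h F) (RA h) (1 : Fin 4) ⊓ (twA h φ).Fix) := ⟨_, by
      rw [UO, orb_RA]; exact A2.y_mem (fun r hr => (k r).1 hr) _ _ _, a.y_fix hu⟩
    have b1 : f y ^ 2 = 1 := Subtype.ext (pow_eq_one_of_orth (orth_two (D := (msA 4 h).D) (i := (0 : Fin 4)) (j := (3 : Fin 4))
      (show (0 : Fin 4) ≠ 3 by decide) (by rw [wt_A]; rfl)) 2 (by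
        have := (Subgroup.mem_inf.1 (f y).2).1; simp only [UO, orb_RA] at this; exact this))
    rw [← map_pow, map_eq_one_iff _ f.injective, Subtype.ext_iff, Subgroup.coe_pow, pow_two, a.q3_mul] at b1
    have b2 := (a.q3_inj (cov_A h F) (pos_fl _ ((k _).1 (.head _)).1) (pos_fl _ ((k _).1 (.tail _ (.head _))).1)
      (s' := 0) (t' := 0) (u' := 0) (b1.trans (by simp [q3]))).2.2
    simp [CharTwo.add_self_eq_zero] at b2

variable [CharP F p]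
theorem pm_PSU {n q : ℕ} (hq : Fintype.card F = q ^ 2) (h : 3 ≤ n) (h' : ¬ (n = 3 ∧ q = 2)) (q1 : n = 3 → Q₁) :
    PMn p (PSU n F q) Q₁ Q₂ := by
  obtain ⟨l, rfl⟩ : ∃ l, n = l + 1 := ⟨n - 1, by omega⟩
  obtain ⟨φ, h1, h2, h3⟩ := H11.exists_frob hq
  have := (isGA_PSU (p := p) F hq h h').1
  have hl : 2 ≤ l := by omega
  refine (ga_A hl φ h2 h3 p).pm' (cov_A _ F) this (exists_fix_SU _ φ h2 h3 h1).some (fun c => q1 (by_contra fun e =>
      not_mem_RA hl (a := 0) (b := 1) (by omega) hl (by omega) (by omega) ((c _).ge (Set.mem_univ _)))) ?_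
  rintro rfl c
  refine absurd c (not_sw3_A F _ ?_ h2 h3)
  rintro rfl
  obtain ⟨i, j, c, -⟩ := c
  refine c (Set.ext fun k => ?_)
  rw [orb_RA, orb_RA]
  exact (by decide : ∀ i j k : Fin 2, k ∈ [i, i.rev] ↔ k ∈ [j, j.rev]) i j k

theorem pm_minus {m : ℕ} {a b : F} (h : 3 ≤ m) (hab : H11.Aniso a b) : PMn p (POmega F (quadFormMinus m F a b)) Q₁ Q₂ := by
  obtain ⟨K, _, _, _, φ, f, w, h1, e1, e2, e3, e4⟩ := exists_quadExt hab p
  obtain ⟨θ, hθ⟩ := exists_cov_D (K := K) (m := m) (by omega) (by omega)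
  obtain ⟨K₁, h2, ⟨e⟩⟩ := exists_ga_desc _ _ h1 e1 e2 e3 e4 hab p hθ
  have o : ∀ {a b : Fin (m + 1)}, (a : ℕ) + 1 < m → (b : ℕ) ≠ a → b ∉ (RD (m := m) (by omega)).orb a := fun {a b} c1 c2 =>
    not_mem_orb (fun i => Equiv.swap_apply_self _ _ i) (Fin.ne_of_val_ne c2) (by
      rw [show (RD (m := m) _).π a = a from Equiv.swap_apply_of_ne_of_ne (Fin.ne_of_val_ne (by simp; omega)) (Fin.ne_of_val_ne (by simp; omega))]
      exact Fin.ne_of_val_ne c2)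
  exact (h2.pm' hθ ((H11.sMinus_nondeg m hab).orth_isSimple (by rw [H11.finrank_minus_fun]; omega)) e
    (fun c => absurd ((c _).ge (Set.mem_univ _)) (o (a := ⟨0, by omega⟩) (b := ⟨1, by omega⟩) (by simp; omega) (by simp)))
    fun _ c => (c.three (o (a := ⟨0, by omega⟩) (b := ⟨1, by omega⟩) (by simp; omega) (by simp))
      (o (b := ⟨2, by omega⟩) (by simp; omega) (by simp)) (o (by simp; omega) (by simp))).elim).of_equiv (H11.pomegaEquiv (H11.qMinus m F a b))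

theorem pm_E6 {q : ℕ} (hq : IsPrimePow q) (h : Fintype.card F = q ^ 2) : PMn p (twistedE6 F q) Q₁ Q₂ := by
  obtain ⟨φ, h1⟩ := exists_frob hq two_ne_zero h
  have o := fun a b => @not_mem_orb _ _ R6 (by decide +kernel) a b
  exact ((ga_fix (τ := tw6 φ) cov_ad p fun i => Or.inl ((exists_orb6 i).imp fun O a => ⟨orb6 O a.1, a.2⟩)).of_adm cov_ad (adm6 h1 h)).pm
    (isGA_E6 (p := p) F hq h).1 (fun c => absurd ((c (n6 1)).ge (Set.mem_univ (n6 3))) (o _ _ (by decide) (by decide)))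
    fun _ c => ((c.sw3 (adm6 h1 h) cov_ad).three (o (n6 1) (n6 3) (by decide) (by decide)) (o (n6 1) (n6 0) (by decide) (by decide))
      (o _ _ (by decide) (by decide))).elim

theorem pm_D4 {q : ℕ} (hq : IsPrimePow q) (h : Fintype.card F = q ^ 3) : PMn p (twistedD4 F q) Q₁ Q₂ := by
  obtain ⟨φ, h1⟩ := exists_frob hq three_ne_zero h
  have o1 := orb4 [n4 1] (by simp)
  have o2 := orb4 [n4 0, n4 2, n4 3] (by simp)
  have o : n4 0 ∉ R4.orb (n4 1) := by rw [o1.orb _ (by simp)]; decide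
  refine ((ga_fix (τ := tw4 φ) cov_ad p fun i => Or.inl ((exists_orb4 i).imp fun O a => ⟨orb4 O a.1, a.2⟩)).of_adm cov_ad (adm4 h1 h)).pm
    (isGA_D4 (p := p) F hq h).1 (fun c => absurd ((c _).ge (Set.mem_univ _)) o) fun _ c => ?_
  have := (c.sw3 (adm4 h1 h) cov_ad).card o
  rw [(cardJ4 h1 h _).2, (cardJ4 h1 h _).2, o1.orb _ (by simp), o2.orb _ (by simp), o1.orth.len, o2.orth.len] at this
  exact absurd (Nat.pow_right_injective hq.two_le this) (by decide)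

omit [CharP F p] in
theorem pm_F4 {m : ℕ} (hm : 1 ≤ m) (h : Fintype.card F = 2 ^ (2 * m + 1)) : PMn 2 (twistedF4 F (2 ^ m)) Q₁ Q₂ := by
  obtain ⟨_, φ, h1, h2⟩ := exists_frob2 h
  have o : nF 1 ∉ RF.orb (nF 0) := by rw [orbF1.orb _ (by simp)]; decide
  refine pm_K (admF h2 h1) cov_ad (eqF h2 h1).le (fun c => absurd ((c _).ge (Set.mem_univ _)) o) fun _ c => ?_
  have := (c.sw3 (admF h2 h1) cov_ad).card o
  rw [(cardJF h2 _).2, (cardJF h2 _).2, orbF1.orb _ (by simp), orbF2 _ (by simp), orbF1.orth.len, posF2.len] at this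
  exact absurd (Nat.pow_right_injective Finite.one_lt_card this) (by decide)
end

theorem lie_pm {p : ℕ} [Fact p.Prime] {G : Type*} [Group G] [Finite G] (h : IsLieTypeChar p G) : PMn p G (IsLieRankOneChar p G)
    ((∃ (F : Type) (_ : Field F) (_ : Fintype F) (_ : CharP F 2), Nonempty (G ≃* PSL(3, F))) ∨
      ∃ (F : Type) (_ : Field F) (_ : Fintype F) (_ : CharP F 2), 4 ≤ Fintype.card F ∧ Nonempty (G ≃* PSp 2 F)) := by
  rcases h with ⟨F, _, _, _, n, h1, h2, ⟨e⟩⟩ | ⟨F, _, _, _, n, h1, h2, ⟨e⟩⟩ | ⟨F, _, _, _, n, q, h1, h2, h3, ⟨e⟩⟩ |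
    ⟨F, _, _, _, n, h1, h2, ⟨e⟩⟩ | ⟨F, _, _, _, n, h1, ⟨e⟩⟩ | ⟨F, _, _, _, n, a, b, h1, h2, ⟨e⟩⟩ | ⟨F, _, _, _, h⟩ |
    ⟨F, _, _, _, q, h1, ⟨h2, ⟨e⟩⟩ | ⟨h2, ⟨e⟩⟩⟩ | ⟨rfl, F, _, _, m, h1, h2, ⟨e⟩⟩ | ⟨rfl, F, _, _, m, h1, h2, ⟨e⟩⟩ | ⟨rfl, F, _, _, m, h1, h2, ⟨e⟩⟩
  · rcases h1.eq_or_lt with rfl | h3
    · have := Matrix.ProjectiveSpecialLinearGroup.rank_two_simple (F := F) (by rw [Nat.card_eq_fintype_card]; exact h2 rfl)
      exact ((rkPSL F).pm (Or.inl ⟨F, _, _, ‹_›, h2 rfl, ⟨e⟩⟩)).of_equiv e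
    obtain ⟨l, rfl⟩ : ∃ l, n = l + 1 := ⟨n - 1, by omega⟩
    exact (pm_st (perfect_A (by omega)) (exists_isoA (by omega) F).choose (by
      rintro rfl (rfl : l = 2); exact Or.inl ⟨F, _, ‹_›, ‹_›, ⟨e⟩⟩)).of_equiv e
  · have k : 3 ≤ n ∨ ∃ x : F, x ≠ 0 ∧ x ≠ 1 := (Nat.lt_or_ge 2 n).imp id fun e => exists_ne_of_card F (h2 (by omega))
    refine (pm_st (perfect_C h1 k) (exists_isoC h1 F k).choose ?_).of_equiv e
    rintro rfl (rfl : n = 2)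
    obtain ⟨k, -, hk⟩ := FiniteField.card F 2
    refine Or.inr ⟨F, _, _, ‹_›, (h2 rfl).lt_of_ne fun c => ?_, ⟨e⟩⟩
    have := dvd_pow_self 2 k.ne_zero
    omega
  · exact (pm_PSU F h1 h2 h3 (by rintro rfl; exact Or.inr (Or.inl ⟨F, _, _, ‹_›, q, h1, fun c => h3 ⟨rfl, c⟩, ⟨e⟩⟩))).of_equiv e
  · exact (pm_group (simple_group (perfect_B (by omega) h1)) fun _ (c : n = 2) => by omega).of_equiv (e.trans (exists_isoB _ h1).some.symm)
  · exact (pm_group (simple_group (perfect_D (by omega) h1)) fun _ (c : n = 2) => by omega).of_equiv (e.trans (exists_isoD _ h1).some.symm)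
  · exact (pm_minus F (by omega) h2).of_equiv e
  · rcases h with ⟨h, ⟨e⟩⟩ | ⟨⟨e⟩⟩ | ⟨⟨e⟩⟩ | ⟨⟨e⟩⟩ | ⟨⟨e⟩⟩
    · exact (pm_G2 (simple_of_mem (by simp) fun _ => exists_ne_of_card F h).1).of_equiv e
    all_goals exact (pm_group (simple_of_mem (by simp) (by rintro (a | a) <;> exact absurd (congrArg (·.rank) a) (by decide))).1
      fun _ c => absurd c (by decide)).of_equiv e
  · exact (pm_E6 F h1 h2).of_equiv e
  · exact (pm_D4 F h1 h2).of_equiv e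
  · have : H13.Sz.IsSz F m := ⟨h1, h2⟩
    exact ((rkSz F m).pm (Or.inr (Or.inr (Or.inl ⟨rfl, F, _, _, m, h1, h2, ⟨e⟩⟩)))).of_equiv (e.trans (H13.Sz.lieEquiv F m).symm)
  · exact (pm_F4 F h1 h2).of_equiv e
  · have : H13.Ree.IsRee F m := ⟨h2⟩
    have := H13.Ree.isSimpleGroup (K := F) h1
    exact ((rkRee F m).pm (Or.inr (Or.inr (Or.inr ⟨rfl, Or.inl ⟨F, _, _, m, h1, h2, ⟨e⟩⟩⟩)))).of_equiv e

open Subgroup in
theorem pm_two {G : Type*} [Group G] {U T₁ T₂ : Subgroup G} {Q₁ Q₂ : Prop} (q : Q₂) (ov : ∀ M, U ≤ M → M = ⊤ ∨ M ≤ T₁ ∨ M ≤ T₂)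
    (h0 : T₁ ⊓ T₂ ≤ U) (h1 : U ≤ T₁) (h2 : U ≤ T₂) (n1 : ¬ T₁ ≤ T₂) (n2 : ¬ T₂ ≤ T₁) : PM1 2 U Q₁ Q₂ := fun A _ a2 Y a3 a4 a5 => by
  have key : ∀ {T₁ T₂ : Subgroup G}, (∀ M, U ≤ M → M = ⊤ ∨ M ≤ T₁ ∨ M ≤ T₂) → U ≤ T₁ → U ≤ T₂ → ¬ T₁ ≤ T₂ → ¬ T₂ ≤ T₁ → U ≤ Y →
      ¬ (∀ α ∈ A, ∀ y ∈ T₁, α y ∈ T₁) → Y ≤ T₁ ⊓ T₂ := fun {T₁ T₂} ov h1 h2 n1 n2 hY c => by
    push Not at c
    obtain ⟨α, b1, y, b2, b3⟩ := c
    have k : ∀ β ∈ A, ∀ T : Subgroup G, U ≤ T → T ≠ ⊤ → T.comap (β : G →* G) ≤ T₁ ∨ T.comap (β : G →* G) ≤ T₂ := fun β hβ T c1 c2 =>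
      (ov (T.comap (β : G →* G)) fun u hu => c1 (a2 β hβ u hu)).resolve_left fun e => c2 (eq_top_iff.2 fun x _ => by
        simpa using e.ge (mem_top (β.symm x)))
    have b4 := (k _ (inv_mem b1) T₁ h1 fun e => n2 (e ▸ le_top)).resolve_left fun e => b3 (e (by simpa using b2))
    have b5 := (k _ b1 T₂ h2 fun e => n1 (e ▸ le_top)).resolve_right fun e => n1 fun x hx => e (b4 (by simpa using hx))
    rcases (ov Y hY).resolve_left a3 with e | e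
    · exact le_inf e fun x hx => b4 (e (a4 _ (inv_mem b1) x hx))
    · exact le_inf (fun x hx => b5 (e (a4 _ b1 x hx))) e
  have t1 : T₁ ≠ ⊤ := fun e => n2 (e ▸ le_top)
  have t2 : T₂ ≠ ⊤ := fun e => n1 (e ▸ le_top)
  have hY := a5 U (ne_top_of_le_ne_top t1 h1) le_rfl a2
  by_cases c1 : ∀ α ∈ A, ∀ y ∈ T₁, α y ∈ T₁
  · by_cases c2 : ∀ α ∈ A, ∀ y ∈ T₂, α y ∈ T₂
    · exact ((ov Y hY).elim a3 fun e => e.elim (fun e => n2 ((a5 _ t2 h2 c2).trans e)) fun e => n1 ((a5 _ t1 h1 c1).trans e)).elim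
    · exact ⟨((key (fun M hM => (ov M hM).imp id Or.symm) h2 h1 n2 n1 hY c2).trans ((inf_comm _ _).le.trans h0)).trans le_normalizer,
        Or.inr ⟨rfl, q, T₂, h2, by simpa using c2⟩⟩
  · exact ⟨((key ov h1 h2 n1 n2 hY c1).trans h0).trans le_normalizer, Or.inr ⟨rfl, q, T₁, h1, by simpa using c1⟩⟩

namespace A6
open Equiv Subgroup
/-- centralisers in `A₆` of permutations -/
def C (t : Perm (Fin 6)) : Subgroup A := (centralizer {t}).subgroupOf _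
theorem mem_C {t : Perm (Fin 6)} {g : A} : g ∈ C t ↔ g.1 * t = t * g.1 := mem_centralizer_singleton_iff
def z : A := ⟨swap 0 2 * swap 1 3, Perm.mem_alternatingGroup.2 (by decide)⟩
def b₁ : A := ⟨swap 0 2 * swap 4 5, Perm.mem_alternatingGroup.2 (by decide)⟩
def b₂ : A := ⟨swap 0 1 * swap 2 3, Perm.mem_alternatingGroup.2 (by decide)⟩
theorem C_z : C z.1 = centralizer {z} := ext fun _ => by
  rw [mem_C, mem_centralizer_singleton_iff, Subtype.ext_iff]; rfl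
theorem f1 : ∀ g : Perm (Fin 6), Perm.sign g = 1 → ((g * swap 4 5 = swap 4 5 * g ∧ g * (z.1 * swap 4 5) = z.1 * swap 4 5 * g ↔
    g * z.1 = z.1 * g) ∧ (g * b₁.1 = b₁.1 * g → g * b₂.1 = b₂.1 * g → g = 1 ∨ g = z.1) ∧
    (g * z.1 = z.1 * g → g = 1 ∨ g = z.1 ∨ b₁.1 * g * b₁.1⁻¹ * g⁻¹ = z.1 ∨ b₂.1 * g * b₂.1⁻¹ * g⁻¹ = z.1) ∧
    (g * z.1 * g⁻¹ * z.1 = z.1 * (g * z.1 * g⁻¹) → g * swap 4 5 = swap 4 5 * g ∨ g * (z.1 * swap 4 5) = z.1 * swap 4 5 * g)) := by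
  decide +kernel
theorem pz : IsPGroup 2 (C z.1) := C_z ▸ pC (orderOf_eq_prime (Subtype.ext (by decide)) (by decide))
def S : Sylow 2 A := ⟨C z.1, pz, fun {Q} h1 h2 => le_antisymm (fun x hx => by
  obtain ⟨c, a1, a2, a3⟩ := H17.exists_orderOf_center h1 fun e => absurd (mem_bot.1 (e.le (h2 (mem_C.2 (rfl : z.1 * z.1 = _))))) (by decide)
  rcases (f1 c c.2).2.1 (congrArg Subtype.val (a2 b₁ (h2 (mem_C.2 (by decide)))).symm)
    (congrArg Subtype.val (a2 b₂ (h2 (mem_C.2 (by decide)))).symm) with e | e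
  · rw [show c = 1 from Subtype.ext e] at a3; simp at a3
  · exact mem_C.2 (e ▸ congrArg Subtype.val (a2 x hx))) h2⟩

theorem pm {Q₁ Q₂ : Prop} (q : Q₂) : PMn 2 A Q₁ Q₂ := by
  refine PMn.of_one S (pm_two (T₁ := C (swap 4 5)) (T₂ := C (z.1 * swap 4 5)) q (fun M hM => or_iff_not_imp_left.2 fun e => ?_)
    (fun g hg => mem_C.2 ((f1 g g.2).1.1 ⟨mem_C.1 hg.1, mem_C.1 hg.2⟩)) (fun g hg => mem_C.2 ((f1 g g.2).1.2 (mem_C.1 hg)).1)
    (fun g hg => mem_C.2 ((f1 g g.2).1.2 (mem_C.1 hg)).2)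
    (fun e => absurd (mem_C.1 (e (mem_C.2 (by decide) : (⟨swap 0 1 * swap 4 5, Perm.mem_alternatingGroup.2 (by decide)⟩ : A) ∈ _))) (by decide))
    fun e => absurd (mem_C.1 (e (mem_C.2 (by decide) : (⟨swap 0 4 * swap 2 5, Perm.mem_alternatingGroup.2 (by decide)⟩ : A) ∈ _))) (by decide))
  have := mt (ovP M fun d => S.not_dvd_index (d.trans (index_dvd_of_le hM))) e
  push Not at this
  obtain ⟨Q, a1, a2, a3, a4⟩ := this
  have a5 : Q ≤ C z.1 := le_sup_left.trans (S.3 (a1.to_sup_of_normal_left' S.2 fun s hs => mem_normalizer_fintype (a3 s (hM hs)))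
    le_sup_right).le
  obtain ⟨⟨x, hx⟩, h⟩ := ne_bot_iff_exists_ne_one.1 a4
  have a6 : z ∈ Q := by
    rcases (f1 x x.2).2.2.1 (mem_C.1 (a5 hx)) with c | c | c | c
    · exact absurd (Subtype.ext (Subtype.ext c)) h
    · exact (Subtype.ext c : x = z) ▸ hx
    · exact (Subtype.ext c : b₁ * x * b₁⁻¹ * x⁻¹ = z) ▸ mul_mem (a3 _ (hM (mem_C.2 (by decide))) x hx) (inv_mem hx)
    · exact (Subtype.ext c : b₂ * x * b₂⁻¹ * x⁻¹ = z) ▸ mul_mem (a3 _ (hM (mem_C.2 (by decide))) x hx) (inv_mem hx)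
  have a7 : ∀ g ∈ M, g ∈ C (swap 4 5) ∨ g ∈ C (z.1 * swap 4 5) := fun g hg =>
    ((f1 g g.2).2.2.2 (mem_C.1 (a5 (a3 g hg z a6)))).imp mem_C.2 mem_C.2
  by_contra! c
  obtain ⟨a, b1, b2⟩ := SetLike.not_le_iff_exists.1 c.1
  obtain ⟨b, b3, b4⟩ := SetLike.not_le_iff_exists.1 c.2
  exact (a7 _ (mul_mem b1 b3)).elim (fun d => b2 ((mul_mem_cancel_right ((a7 b b3).resolve_right b4)).1 d))
    fun d => b4 ((mul_mem_cancel_left ((a7 a b1).resolve_left b2)).1 d)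
end A6

end H24
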