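import Cfsg.Agent.H11.Phan4
import Cfsg.Agent.H11.U3B
import Cfsg.Agent.H12.MR

/-! Central extensions of special unitary groups: sections over the groups `SA A` and the induction step `su_step`, from the step
lemma of Phan's theorem. -/

set_option autoImplicit false

namespace H24
open H11 H11.PForm Subgroup Module
open scoped commutatorElement

section grp
variable {E G : Type*} [Group E] [Group G] {π : E →* G} {K K' : Subgroup G} {φ ψ : G → E}

/-- all lifts commute -/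
def LCm (π : E →* G) (g h : G) : Prop := ∀ x y, π x = g → π y = h → Commute x y
theorem LCm.symm {g h : G} (e : LCm π g h) : LCm π h g := fun x y hx hy => (e y x hy hx).symm
theorem lcm_of (hc : π.ker ≤ center E) {g h : G} (hg : g ∈ ⁅centralizer {h} ⊓ π.range, centralizer {h} ⊓ π.range⁆) : LCm π g h := by
  rintro x y rfl rfl
  exact commutatorElement_eq_one_iff_commute.1 (H12.milnor hc hg)
/-- sections -/
def Sc (π : E →* G) (K : Subgroup G) (φ : G → E) : Prop := HomOn K φ ∧ ∀ g ∈ K, π (φ g) = g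
theorem Sc.uniq (hc : π.ker ≤ center E) (hK : K ≤ ⁅K, K⁆) (h : Sc π K φ) (h' : Sc π K ψ) {g : G} (hg : g ∈ K) : φ g = ψ g := by
  have k : ∀ {φ : G → E}, Sc π K φ → ∀ a ∈ K, ∀ b ∈ K, φ ⁅a, b⁆ = ⁅φ a, φ b⁆ := fun h a ha b hb => by
    rw [commutatorElement_def, h.1 _ (mul_mem (mul_mem ha hb) (inv_mem ha)) _ (inv_mem hb), ← h.1.conj ha hb, h.1.inv hb,
      commutatorElement_def]
  refine ((commutator_le (H₃ := h.1.eqv h'.1)).2 (fun a ha b hb => ?_) (hK hg)).2.2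
  have m : ⁅a, b⁆ ∈ K := mul_mem (mul_mem (mul_mem ha hb) (inv_mem ha)) (inv_mem hb)
  exact ⟨m, m, by rw [k h a ha b hb, k h' a ha b hb]; exact H13.comm_congr hc (by rw [h.2 a ha, h'.2 a ha]) (by rw [h.2 b hb, h'.2 b hb])⟩
theorem Sc.conj (hc : π.ker ≤ center E) (hK : K' ≤ ⁅K', K'⁆) (h : Sc π K φ) (h' : Sc π K' ψ) (x : E)
    (hx : ∀ g ∈ K', (π x)⁻¹ * g * π x ∈ K) {g : G} (hg : g ∈ K') : ψ g = x * φ ((π x)⁻¹ * g * π x) * x⁻¹ :=
  h'.uniq (ψ := fun g => x * φ ((π x)⁻¹ * g * π x) * x⁻¹) hc hK ⟨fun a ha b hb => by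
    beta_reduce
    rw [show (π x)⁻¹ * (a * b) * π x = (π x)⁻¹ * a * π x * ((π x)⁻¹ * b * π x) by group, h.1 _ (hx a ha) _ (hx b hb)]; group,
    fun a ha => by simp only [map_mul, map_inv, h.2 _ (hx a ha)]; group⟩ hg
theorem sc_of_hom {G' : Type*} [Group G'] (η : G' →* E) (hk : ∀ x, π (η x) = 1 → η x = 1) : ∃ φ, Sc π (π.comp η).range φ := by
  classical
  have k : ∀ x y, π (η x) = π (η y) → η x = η y := fun x y e => by
    have := hk (y⁻¹ * x) (by simp [e]); rwa [map_mul, map_inv, inv_mul_eq_one, eq_comm] at this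
  let φ : G → E := fun g => if h : ∃ x, π (η x) = g then η h.choose else 1
  have e : ∀ x, φ (π (η x)) = η x := fun x => by
    have h : ∃ y, π (η y) = π (η x) := ⟨x, rfl⟩
    simp only [φ, dif_pos h]; exact k _ _ h.choose_spec
  refine ⟨φ, ?_, ?_⟩
  · rintro _ ⟨a, rfl⟩ _ ⟨b, rfl⟩
    simp only [MonoidHom.comp_apply, ← map_mul, e]
  · rintro _ ⟨a, rfl⟩; simp only [MonoidHom.comp_apply, e]
theorem sc_of_schur {G' : Type*} [Group G'] (hc : π.ker ≤ center E) (ι : G' →* G) (hι : Function.Injective ι) (hr : ι.range ≤ π.range)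
    (hp : commutator G' = ⊤) (h : Cfsg.HasCyclicSchurMultiplier G' 1) : ∃ φ, Sc π ι.range φ := by
  obtain ⟨η, hη⟩ := H21.exists_lift_of_perfect_of_trivial ⟨hp⟩ h (ι.codRestrict π.range fun x => hr ⟨x, rfl⟩) π.rangeRestrict
    π.rangeRestrict_surjective (by rwa [MonoidHom.ker_rangeRestrict])
  have e : π.comp η = ι := MonoidHom.ext fun x => congrArg Subtype.val (DFunLike.congr_fun hη x)
  exact e ▸ sc_of_hom η fun x hx => by rw [hι (a₁ := x) (a₂ := 1) (by rw [← e, map_one]; exact hx), map_one]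
end grp

variable {F : Type*} [Field F] {σ : F →+* F} {hσ : ∀ a, σ (σ a) = a} {V : Type*} [AddCommGroup V] [Module F V]
  {S : PForm (unitP σ hσ) V} {E : Type*} [Group E] {π : E →* S.Isom}

variable (S) in
/-- the special unitary group of the orthogonal complement of `A` -/
noncomputable def SA (A : Submodule F V) : Subgroup S.Isom := S.SIsom ⊓ S.fix A

theorem eich_mem_comm (hne : σ ≠ RingHom.id F) {D : Subgroup S.Isom} {e w : V} (he : S.Sing e) (ew : S.h e w = 0) (ww : S.h w w ≠ 0)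
    (hD : ∀ (c : F) b, S.eich e (c • w) b ∈ D) : (∀ b, S.eich e 0 b ∈ ⁅D, D⁆) ∧
      ∀ g ∈ D, ∀ ν : F, ν ≠ 1 → g.1 e = e → g.1 w = ν • w → ∀ (c : F) b, S.eich e (c • w) b ∈ ⁅D, D⁆ := by
  obtain ⟨θ, hθ⟩ := exists_trace_one hσ hne
  have ec : ∀ c : F, S.ECond e (c • w) (S.q (c • w)) := fun c => .of_q he (by simp [ew])
  have h1 : ∀ b, S.eich e 0 b ∈ ⁅D, D⁆ := fun b => by
    by_cases h : S.ECond e 0 b
    · have := commutator_eich (ec 1) (ec (θ * b / S.h w w))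
      have hb := (uec.1 h).2.2
      rw [show S.h ((1 : F) • w) ((θ * b / S.h w w) • w) - S.h ((θ * b / S.h w w) • w) ((1 : F) • w) = b by
        simp [S.unit_h_self_fixed, ww] at hb ⊢; linear_combination b * hθ + σ θ * hb] at this
      exact this ▸ commutator_mem_commutator (hD _ _) (hD _ _)
    · rw [eich_junk h]; exact one_mem _
  refine ⟨h1, fun g hg ν hν g1 g2 c b => ?_⟩
  by_cases h : S.ECond e (c • w) b
  swap
  · rw [eich_junk h]; exact one_mem _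
  have e1 := ec (c / (ν - 1))
  have e2 := e1.map g
  have m := commutator_mem_commutator hg (hD (c / (ν - 1)) (S.q ((c / (ν - 1)) • w)))
  rw [commutatorElement_def, conj_eich, eich_inv e1, g1] at m
  rw [g1] at e2
  have e3 := e2.add e1.neg
  rw [eich_mul e2 e1.neg] at m
  have e4 : g.1 ((c / (ν - 1)) • w) + -((c / (ν - 1)) • w) = c • w := by
    rw [map_smul, g2, smul_smul, ← neg_smul, ← add_smul]; congr 1; field_simp [sub_ne_zero.2 hν]; ring
  rw [e4] at m e3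
  obtain ⟨b', m, e3⟩ : ∃ b', S.eich e (c • w) b' ∈ ⁅D, D⁆ ∧ S.ECond e (c • w) b' := ⟨_, m, e3⟩
  have e5 : S.ECond e 0 (b - b') := uec.2 ⟨he, by simp, by simp; linear_combination (uec.1 h).2.2 - (uec.1 e3).2.2⟩
  simpa [eich_mul e3 e5] using mul_mem m (h1 (b - b'))

variable [FiniteDimensional F V]

theorem SA_map (hS : S.Nondeg) {A : Submodule F V} (hA : (S.restrict A).Nondeg) :
    SA S A = ((ext1 (hS.restrict_perp hA)).comp (S.restrict (S.perp A)).SIsom.subtype).range := by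
  ext g
  have := ext1_range hS (hS.restrict_perp hA)
  rw [hS.perp_perp] at this
  refine ⟨fun h => ?_, ?_⟩
  · obtain ⟨g, rfl⟩ := this.ge h.2
    exact ⟨⟨g, (det_ext1 (hS.restrict_perp hA) g).symm.trans h.1⟩, rfl⟩
  · rintro ⟨g, rfl⟩
    exact ⟨(det_ext1 (hS.restrict_perp hA) g.1).trans g.2, this.le ⟨g, rfl⟩⟩

theorem sup_unit {A : Submodule F V} (hA : (S.restrict A).Nondeg) {x : V} (hx : x ∈ S.perp A) (xx : S.h x x = 1) :
    (S.restrict (A ⊔ F ∙ x)).Nondeg ∧ finrank F (A ⊔ F ∙ x : Submodule F V) = finrank F A + 1 :=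
  ⟨nondeg_sup hA ((S.restrict_nondeg_iff' _).2 fun y hy h => by
    obtain ⟨c, rfl⟩ := Submodule.mem_span_singleton.1 hy
    simpa [xx, show x ≠ 0 by rintro rfl; simp at xx] using h x (Submodule.mem_span_singleton_self x))
    ((Submodule.span_singleton_le_iff_mem _ _).2 hx),
    Submodule.finrank_sup_span_singleton (notMem_of_perp hA hx (by rintro rfl; simp at xx))⟩
theorem onb2 {a b : V} (aa : S.h a a = 1) (bb : S.h b b = 1) (ab : S.h a b = 0) :
    (S.restrict (Submodule.span F {a, b})).Nondeg ∧ finrank F (Submodule.span F {a, b}) = 2 := by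
  have h1 := sup_unit (S := S) (A := ⊥) ((S.restrict_nondeg_iff' _).2 (by simp)) (by simp) aa
  rw [bot_sup_eq, finrank_bot] at h1
  have h2 := sup_unit h1.1 (S.mem_perp_singleton.2 ab) bb
  rwa [← Submodule.span_insert, h1.2] at h2
theorem onb3 {a b c : V} (aa : S.h a a = 1) (bb : S.h b b = 1) (cc : S.h c c = 1) (ab : S.h a b = 0) (ac : S.h a c = 0) (bc : S.h b c = 0) :
    (S.restrict (Submodule.span F {a, b, c})).Nondeg ∧ finrank F (Submodule.span F {a, b, c}) = 3 := by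
  have h1 := onb2 bb cc bc
  have h2 := sup_unit h1.1 (S.mem_perp_pair.2 ⟨S.h_swap_zero ab, S.h_swap_zero ac⟩) aa
  rwa [sup_comm, ← Submodule.span_insert, h1.2] at h2

variable [Finite F] (hne : σ ≠ RingHom.id F) (hS : S.Nondeg) {q : ℕ} (hF : Nat.card F = q ^ 2)
include hne hS hF

theorem su_perf (h : 3 ≤ finrank F V ∧ ¬ (finrank F V = 3 ∧ q = 2) ∨ finrank F V = 2 ∧ 4 ≤ q) : commutator S.SIsom = ⊤ := by
  rcases h with h | h
  · exact (hS.unit_isSimple hne hF h.1 h.2).1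
  obtain ⟨e, f, H⟩ := hS.unit_exists_hyp hne h.1.ge
  obtain ⟨c, h1, h2, h3, h4⟩ := exists_fix3 hσ hne hF h.2 0 1 (-1)
  have h5 : c * c - 1 ≠ 0 := fun e => by
    rcases mul_self_eq_one_iff.1 (sub_eq_zero.1 e) with e | e
    exacts [h3 e, h4 e]
  rw [eq_top_iff, ← map_subtype_le_map_subtype, Subgroup.map_subtype_commutator, ← MonoidHom.range_eq_map, range_subtype]
  nth_rw 1 [H.unit_SIsom_eq_E hne hS, ← hS.unit_T_eq_E_of_dim hne (by omega)]
  refine T_le_iff.2 fun u a hu u0 ha => ?_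
  obtain ⟨v, h6, h7⟩ := hS.exists_hyp hu u0
  have H' : S.IsHyp u v := ⟨hu, h6, h7⟩
  have m : a / (c * c - 1) ∈ (unitP σ hσ).Λ := by
    rw [mem_unitP_Λ] at ha ⊢; simp [h1, ← add_div, ha]
  have := commutator_mem_commutator (E_le_SIsom (T_le_E (H'.unit_tor_mem_T hne (c := Units.mk0 c h2) h1))) (S.eich_mem_SIsom u 0 (a / (c * c - 1)))
  rw [commutatorElement_def, H'.conj_tor_eich _ (Submodule.zero_mem _) (.of_mem hu m), smul_zero, transv_inv hu m,
    transv_mul hu (by rw [mem_unitP_Λ] at m ⊢; simp [h1] at m ⊢; linear_combination c * c * m) (neg_mem m)] at this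
  convert this using 2
  simp only [Units.val_mk0, h1]; rw [eq_comm, ← sub_eq_add_neg, mul_right_comm, ← sub_one_mul, mul_div_cancel₀ _ h5]

theorem SA_perf {A : Submodule F V} (hA : (S.restrict A).Nondeg) (h : 3 ≤ finrank F (S.perp A) ∧ ¬ (finrank F (S.perp A) = 3 ∧ q = 2) ∨
    finrank F (S.perp A) = 2 ∧ 4 ≤ q) : SA S A ≤ ⁅SA S A, SA S A⁆ := by
  rw [SA_map hS hA, ← map_commutator_eq, su_perf hne (hS.restrict_perp hA) hF h, MonoidHom.range_eq_map]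

variable (hc : π.ker ≤ center E) (hr : S.SIsom ≤ π.range)
include hc hr

omit hne hF [Finite F] in
theorem lcm_perf {B : Submodule F V} (hB : (S.restrict B).Nondeg) (h : SA S B ≤ ⁅SA S B, SA S B⁆) {k u : S.Isom} (hk : k ∈ SA S B)
    (hu : u ∈ S.fix (S.perp B)) : LCm π k u :=
  have : SA S B ≤ centralizer {u} ⊓ π.range := fun _ hg => ⟨mem_centralizer_singleton_iff.2 (commute_fix_perp hS hB hg.2 hu).eq, hr hg.1⟩
  lcm_of hc (commutator_mono this this (h hk))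

theorem lcm_two {B : Submodule F V} (hB : (S.restrict B).Nondeg) (h2 : finrank F B = 2) (h : 5 ≤ finrank F V ∨ 4 ≤ finrank F V ∧ 4 ≤ q)
    {k u : S.Isom} (hk : k ∈ SA S B) (hu : u ∈ S.fix (S.perp B)) : LCm π k u := by
  have d := hS.finrank_perp B
  by_cases h3 : finrank F (S.perp B) = 3
  swap
  · exact lcm_perf hS hc hr hB (SA_perf hne hS hF hB (by omega)) hk hu
  have hT := hS.restrict_perp hB
  have le : SA S B ≤ centralizer {u} ⊓ π.range := fun _ hg => ⟨mem_centralizer_singleton_iff.2 (commute_fix_perp hS hB hg.2 hu).eq, hr hg.1⟩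
  obtain ⟨e, f, H⟩ := hT.unit_exists_hyp hne (by omega)
  rw [SA_map hS hB] at hk
  obtain ⟨⟨k, hk⟩, rfl⟩ := hk
  refine lcm_of hc (hT.E_le_of_hyp (K := Subgroup.comap (ext1 hT) ⁅centralizer {u} ⊓ π.range, centralizer {u} ⊓ π.range⁆) (fun e f H v hv a ha => ?_) ((H.unit_SIsom_eq_E hne hT).le hk))
  have d' := hT.finrank_perp (Submodule.span F {e, f})
  rw [H.finrank_span] at d'
  obtain ⟨w, hw, ww⟩ := unit_exists_norm_mem hne (hT.restrict_perp H.nondeg) (by omega) (map_one σ)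
  obtain ⟨c, rfl⟩ : ∃ c : F, c • w = v := by
    obtain ⟨c, hc⟩ := (finrank_eq_one_iff_of_nonzero' (K := F) (⟨w, hw⟩ : (S.restrict (S.perp B)).perp (Submodule.span F {e, f}))
      (fun h => by simp [show w = 0 from congrArg Subtype.val h] at ww)).1 (by omega) ⟨v, hv⟩
    exact ⟨c, congrArg Subtype.val hc⟩
  have ew : S.h e.1 w.1 = 0 := ((S.restrict _).mem_perp_pair.1 hw).1
  replace ww : S.h w.1 w.1 = 1 := ww
  obtain ⟨μ, m1, m2⟩ := exists_norm1 hσ hne hF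
  have μ0 : μ ≠ 0 := by rintro rfl; simp at m1
  let l : normOne σ := ⟨Units.mk0 μ μ0, m1⟩
  obtain ⟨d, d1, d2, d3⟩ := exists_det_eq_of_ne (S := S) (v := w.1) (by simp [ww]) (l⁻¹ ^ 2)
  have hd : d ∈ S.fix B := fun x hx => d1 x (S.mem_perp_singleton.2 (S.h_swap_zero (w.2 x hx)))
  obtain ⟨u, rfl⟩ := (ext1_range hS hB).ge hu
  rw [mem_comap, ext1_eich]
  refine (eich_mem_comm (S := S) (e := e.1) (w := w.1) hne H.sing_e ew (by simp [ww]) fun c b => le ⟨S.eich_mem_SIsom _ _ _, fun x hx =>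
    eich_apply_of_perp_perp (S.h_swap_zero (e.2 x hx)) (by simp [S.h_swap_zero (w.2 x hx)])⟩).2 (d * ext1 hB ((S.restrict B).scal l))
    ⟨mem_centralizer_singleton_iff.2 (Commute.mul_left (commute_fix_perp hS hB hd hu) ?_).eq, hr ?_⟩ _ (fun e => m2 ?_) ?_
      (by rw [isom_mul_apply, ext1_right hB _ w.2, d3]) c a
  · exact Commute.map (isom_ext fun x => by simp) _
  · rw [SIsom, MonoidHom.mem_ker, map_mul, d2, detHom_apply, det_ext1, ← detHom_apply, detHom_scal, h2]; simp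
  · have : μ * μ = 1 := inv_eq_one.1 (by rw [mul_inv]; simpa [l, sq] using e)
    exact mul_right_cancel₀ μ0 (m1.trans this.symm)
  · rw [isom_mul_apply, ext1_right hB _ e.2, d1 _ (S.mem_perp_singleton.2 (S.h_swap_zero ew))]

section stp
variable {A : Submodule F V} {K P P' : Subgroup S.Isom} {a b c t : V} {n : S.Isom} {φ φ' : S.Isom → E}
  (D : S.Stp A K P P' a b c t n φ φ') (h1 : ∀ g ∈ P, π (φ g) = g) (h2 : π (φ' n) = n)

omit hS hF hc hr in
/-- the defect of a square -/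
noncomputable def dfc (p r p' r' : S.perp A) : E := D.co hne p r * D.co hne r p' * (D.co hne p r' * D.co hne r' p')⁻¹

include h1 h2
omit hS hF hr in
theorem dfc_eq {p r p' r' : S.perp A} (h : (S.restrict (S.perp A)).Sq p r p' r') {x y z w : S.Isom} (hx : x ∈ K) (hy : y ∈ K) (hz : z ∈ K)
    (hw : w ∈ K) (e1 : x.1 a = p) (e2 : y.1 a = r) (e3 : z.1 a = p') (e4 : w.1 a = r') :
    dfc hne D p r p' r' = D.Φ (x⁻¹ * y) * D.Φ (y⁻¹ * z) * (D.Φ (x⁻¹ * w) * D.Φ (w⁻¹ * z))⁻¹ ∧ dfc hne D p r p' r' ∈ center E := by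
  have k : ∀ x ∈ K, ∀ y ∈ K, S.h (x.1 a) (y.1 a) = 0 → π (D.Φ (x⁻¹ * y)) = x⁻¹ * y := fun x hx y hy e => by
    obtain ⟨p, hp, p', hp', e⟩ := D.dec hne (K.mul_mem (K.inv_mem hx) hy) (by rw [isom_mul_apply, ← isom_h_left, e])
    rw [e, D.Φ_eq hp hp', map_mul, map_mul, h1 p hp, h1 p' hp', h2]
  have m : D.Φ (x⁻¹ * y) * D.Φ (y⁻¹ * z) * (D.Φ (x⁻¹ * w) * D.Φ (w⁻¹ * z))⁻¹ ∈ center E := hc (by
    rw [MonoidHom.mem_ker, map_mul, map_inv, map_mul, map_mul, k x hx y hy (by rw [e1, e2]; exact h.pr),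
      k y hy z hz (by rw [e2, e3]; exact h.symm.pr'), k x hx w hw (by rw [e1, e4]; exact h.pr'), k w hw z hz (by rw [e4, e3]; exact h.symm.p'r')]
    group)
  have e : dfc hne D p r p' r' = D.Φ (x⁻¹ * y) * D.Φ (y⁻¹ * z) * (D.Φ (x⁻¹ * w) * D.Φ (w⁻¹ * z))⁻¹ := by
    rw [dfc, D.co_eq hne hx hy e1 e2 h.pr, D.co_eq hne hy hz e2 e3 h.symm.pr', D.co_eq hne hx hw e1 e4 h.pr',
      D.co_eq hne hw hz e4 e3 h.symm.p'r', ← mul_inv_cancel_right (_ * (D.Φ (x⁻¹ * w) * _)⁻¹) (φ ((D.gv hne p)⁻¹ * x)),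
      ← mem_center_iff.1 m]
    group
  exact ⟨e, e ▸ m⟩

theorem dfc_map (h5 : 5 ≤ finrank F V) (hP : P ≤ ⁅P, P⁆) {s₀ : V} (hs : s₀ ∈ A) (ss : S.h s₀ s₀ = 1) {p r p' r' u v u' v' : S.perp A}
    (h : (S.restrict (S.perp A)).Sq p r p' r') {g : S.Isom} (hg : g ∈ S.fix A) (e1 : g.1 p = u) (e2 : g.1 r = v) (e3 : g.1 p' = u')
    (e4 : g.1 r' = v') : dfc hne D u v u' v' = dfc hne D p r p' r' := by
  have key : ∀ v : S.perp A, S.h v.1 v.1 = 1 → ∃ x ∈ K, x.1 a = v := fun v vv => by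
    obtain ⟨r, mr, rr, h1, -⟩ := D.rel2 hne v.2 v.2 vv
    obtain ⟨x, hx, -, e⟩ := D.move ∅ D.ma v.2 mr D.aa vv rr (by simp) h1
    exact ⟨x, hx, e⟩
  have h' : (S.restrict (S.perp A)).Sq u v u' v' := by
    obtain ⟨a1, a2, a3, a4, a5, a6, a7, a8⟩ := h
    constructor <;> simp only [restrict_h, ← e1, ← e2, ← e3, ← e4, isom_h] <;> assumption
  obtain ⟨x, hx, x1⟩ := key p h.pp
  obtain ⟨y, hy, y1⟩ := key r h.rr
  obtain ⟨z, hz, z1⟩ := key p' h.pp'
  obtain ⟨w, hw, w1⟩ := key r' h.rr'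
  let ε : normOne σ := ⟨_, hS.det_mem_normOne g⟩
  obtain ⟨d, d1, d2, -⟩ := exists_det_eq_of_ne (S := S) (v := c) (by simp [D.cc]) ε
  obtain ⟨d', d1', d2', -⟩ := exists_det_eq_of_ne (S := S) (v := s₀) (by simp [ss]) ε⁻¹
  have f1 : d ∈ S.fix A := fun x hx => d1 x (S.mem_perp_singleton.2 (S.h_swap_zero (D.mc x hx)))
  have f2 : d' ∈ S.fix (S.perp A) := fun x hx => d1' x (S.mem_perp_singleton.2 (hx _ hs))
  have f3 : d * d' ∈ S.stab A := mul_mem (fix_le_stab _ f1) (hS.perp_perp A ▸ stab_le_stab_perp _ (fix_le_stab _ f2))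
  have f4 : d * d' ∈ S.SIsom := by rw [SIsom, MonoidHom.mem_ker, map_mul, d2, d2']; simp
  have ga : (d * d').1 a = a := by rw [isom_mul_apply, f2 a D.ma, d1 a (S.mem_perp_singleton.2 (S.h_swap_zero D.ac))]
  have gb : (d * d').1 b = b := by rw [isom_mul_apply, f2 b D.mb, d1 b (S.mem_perp_singleton.2 (S.h_swap_zero D.bc))]
  have hk : g * d⁻¹ ∈ K := (D.hK _).2 ⟨by rw [SIsom, MonoidHom.mem_ker, map_mul, map_inv, d2]; simp [ε], mul_mem hg (inv_mem f1)⟩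
  have gd : ∀ v ∈ S.perp A, (g * d⁻¹).1 ((d * d').1 v) = g.1 v := fun v hv => by simp [f2 v hv]
  obtain ⟨X, hX⟩ := hr f4
  rw [← hX] at f3 f4 ga gb gd
  have cK : ∀ G ∈ S.stab A, ∀ k ∈ K, G * k * G⁻¹ ∈ K := fun G hG k hk => (D.hK _).2 ⟨Subgroup.Normal.conj_mem inferInstance _ ((D.hK _).1 hk).1 _,
    fun x hx => by rw [isom_mul_apply, isom_mul_apply, ((D.hK _).1 hk).2 _ ((mem_stab.1 (inv_mem hG) x).1 hx), isom_apply_inv_self]⟩
  have ga' : (π X)⁻¹.1 a = a := by rw [← ga, isom_inv_apply_self, ga]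
  have cP : ∀ k ∈ P, π X * k * (π X)⁻¹ ∈ P := fun k hk => (D.hP _).2 ⟨cK _ f3 k (D.PK hk), by
    rw [isom_mul_apply, isom_mul_apply, ga', ((D.hP _).1 hk).2, ga]⟩
  have c1 : ∀ k ∈ P, φ (π X * k * (π X)⁻¹) = X * φ k * X⁻¹ := fun k hk => by
    rw [Sc.conj hc hP ⟨D.hφ, h1⟩ ⟨D.hφ, h1⟩ X⁻¹ (by simpa using cP) hk]; simp [mul_assoc]
  have o := onb2 D.aa D.bb D.ab
  have c2 := lcm_two hne hS hF hc hr o.1 o.2 (.inl h5) ⟨f4, mem_fix_span.2 (by simp [ga, gb])⟩ D.n2 _ _ rfl h2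
  have c3 : ∀ x ∈ K, ∀ y ∈ K, S.h (x.1 a) (y.1 a) = 0 → D.Φ ((g * d⁻¹ * (π X * x * (π X)⁻¹))⁻¹ * (g * d⁻¹ * (π X * y * (π X)⁻¹))) =
      X * D.Φ (x⁻¹ * y) * X⁻¹ := fun x hx y hy e => by
    obtain ⟨p, hp, p', hp', e⟩ := D.dec hne (K.mul_mem (K.inv_mem hx) hy) (by rw [isom_mul_apply, ← isom_h_left, e])
    have := (c2.map π).eq
    rw [h2] at this
    rw [show _ * (g * d⁻¹ * _) = π X * (x⁻¹ * y) * (π X)⁻¹ by group, e, show π X * (p * n * p') * (π X)⁻¹ = π X * p * (π X)⁻¹ * n * (π X * p' * (π X)⁻¹) by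
      rw [mul_assoc (π X * p * _), ← mul_assoc n, ← mul_assoc n, ← this]; group, D.Φ_eq (cP p hp) (cP p' hp'), D.Φ_eq hp hp', c1 p hp, c1 p' hp',
      mul_assoc (X * φ p * X⁻¹), ← mul_assoc (φ' n), ← mul_assoc (φ' n), ← c2.eq]
    group
  have m : ∀ x ∈ K, g * d⁻¹ * (π X * x * (π X)⁻¹) ∈ K := fun x hx => K.mul_mem hk (cK _ f3 x hx)
  have m' : ∀ x ∈ K, (g * d⁻¹ * (π X * x * (π X)⁻¹)).1 a = g.1 (x.1 a) := fun x hx => by
    rw [isom_mul_apply (g * d⁻¹), isom_mul_apply (π X * x), isom_mul_apply (π X), ga', gd _ (D.mem hx D.ma)]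
  obtain ⟨k1, k2⟩ := dfc_eq hne hc D h1 h2 h hx hy hz hw x1 y1 z1 w1
  rw [(dfc_eq hne hc D h1 h2 h' (m x hx) (m y hy) (m z hz) (m w hw) (by rw [m' x hx, x1, e1]) (by rw [m' y hy, y1, e2]) (by rw [m' z hz, z1, e3])
    (by rw [m' w hw, w1, e4])).1, c3 x hx y hy (by rw [x1, y1]; exact h.pr), c3 y hy z hz (by rw [y1, z1]; exact h.symm.pr'),
    c3 x hx w hw (by rw [x1, w1]; exact h.pr'), c3 w hw z hz (by rw [w1, z1]; exact h.symm.p'r'), ← mul_inv_cancel_right (dfc hne D p r p' r') X,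
    ← mem_center_iff.1 k2, k1]
  group

theorem q3_three (h3 : (3 : F) = 0) (h5 : 5 ≤ finrank F V) (hP : P ≤ ⁅P, P⁆) {s₀ : V} (hs : s₀ ∈ A) (ss : S.h s₀ s₀ = 1) :
    (S.restrict (S.perp A)).Q3 (D.co hne) := by
  intro p r z h zz pz rz _
  have C := D.coc hne
  obtain ⟨θ, hθ⟩ := exists_trace_one hσ hne
  replace zz : S.h z.1 z.1 = 0 := zz
  replace rz : S.h r.1 z.1 = 0 := rz
  have rr : S.h r.1 r.1 = 1 := h.rr
  have sq : ∀ p : S.perp A, S.h p.1 p.1 = 1 → S.h p.1 r.1 = 0 → S.h p.1 z.1 = 0 → (S.restrict (S.perp A)).Sq p r (p + z) (r + z) :=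
    fun p a1 a2 a3 => by constructor <;> simp [a1, a2, a3, zz, rz, rr, S.h_swap_zero rz, S.h_swap_zero a3]
  have key : ∀ v : S.perp A, S.h v.1 v.1 = 1 → ∃ x ∈ K, x.1 a = v := fun v vv => by
    obtain ⟨r, mr, rr, h1, -⟩ := D.rel2 hne v.2 v.2 vv
    obtain ⟨x, hx, -, e⟩ := D.move ∅ D.ma v.2 mr D.aa vv rr (by simp) h1
    exact ⟨x, hx, e⟩
  have cen : ∀ {p r p' r' : S.perp A}, (S.restrict (S.perp A)).Sq p r p' r' → dfc hne D p r p' r' ∈ center E := fun h => by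
    obtain ⟨x, hx, x1⟩ := key _ h.pp
    obtain ⟨y, hy, y1⟩ := key _ h.rr
    obtain ⟨z, hz, z1⟩ := key _ h.pp'
    obtain ⟨w, hw, w1⟩ := key _ h.rr'
    exact (dfc_eq hne hc D h1 h2 h hx hy hz hw x1 y1 z1 w1).2
  have st : ∀ p : S.perp A, S.h p.1 p.1 = 1 → S.h p.1 r.1 = 0 → S.h p.1 z.1 = 0 →
      D.co hne (r + z) p * D.co hne p r = dfc hne D p r (p + z) (r + z) * (D.co hne (r + z) (p + z) * D.co hne (p + z) r) ∧
      dfc hne D (p + z) r (p + z + z) (r + z) = dfc hne D p r (p + z) (r + z) := fun p a1 a2 a3 => by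
    have s := sq p a1 a2 a3
    have ec : S.ECond z.1 (-p.1) θ := uec.2 ⟨(S.unit_sing _).2 zz, by simp [S.h_swap_zero a3], by simp [a1, hθ]⟩
    refine ⟨?_, dfc_map hne hS hF hc hr D h1 h2 h5 hP hs ss s (g := S.eich z.1 (-p.1) θ) (fun x hx =>
      eich_apply_of_perp_perp (S.h_swap_zero (z.2 x hx)) (by simp [S.h_swap_zero (p.2 x hx)])) ?_ ?_ ?_ ?_⟩
    · rw [← mul_inv_cancel_right (dfc hne D p r _ _) (D.co hne (r + z) p), ← mem_center_iff.1 (cen s), dfc, eq_inv_of_mul_eq_one_left (C.inv _ _ s.rr s.pp' s.symm.pr'),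
        eq_inv_of_mul_eq_one_left (C.inv _ _ s.pp s.rr' s.pr')]
      group
    all_goals simp [eich_apply ec, a1, a2, a3, zz, S.h_swap_zero rz, S.h_swap_zero a3]
  have pp : S.h p.1 p.1 = 1 := h.pp
  have pr : S.h p.1 r.1 = 0 := h.pr
  replace pz : S.h p.1 z.1 = 0 := pz
  have zp := S.h_swap_zero pz
  have zr := S.h_swap_zero rz
  obtain ⟨k1, k2⟩ := st p pp pr pz
  obtain ⟨k3, k4⟩ := st (p + z) (by simp [pp, pz, zp, zz]) (by simp [pr, zr]) (by simp [pz, zz])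
  obtain ⟨k5, -⟩ := st (p + z + z) (by simp [pp, pz, zp, zz]) (by simp [pr, zr]) (by simp [pz, zz])
  have e0 : p + z + z + z = p := by
    rw [add_assoc, add_assoc, show z + (z + z) = (3 : F) • z by module, h3, zero_smul, add_zero]
  rw [k4, k2] at k5
  rw [k3, k5, k2, e0, ← mul_assoc, ← mul_assoc, eq_comm, mul_eq_right] at k1
  have qc : S.QCond (p.1 - r.1) 1 := ⟨one_ne_zero, (S.unit_congr_iff _ _).2 (by simp [pp, rr, pr, S.h_swap_zero pr])⟩
  have k6 := dfc_map hne hS hF hc hr D h1 h2 h5 hP hs ss h (g := S.qrefl (p.1 - r.1) 1) (u := r) (v := p) (u' := r + z) (v' := p + z)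
    (fun x hx => qrefl_apply_of_perp (by simp [S.h_swap_zero (p.2 x hx), S.h_swap_zero (r.2 x hx)]))
    (by simp [qrefl_apply qc, pp, S.h_swap_zero pr]) (by simp [qrefl_apply qc, rr, pr])
    (by simp [qrefl_apply qc, pp, S.h_swap_zero pr, pz, rz, add_comm]) (by simp [qrefl_apply qc, rr, pr, pz, rz, add_comm])
  have k7 : dfc hne D p r (p + z) (r + z) * dfc hne D r p (r + z) (p + z) = 1 := by
    rw [← mul_inv_cancel_right (dfc hne D r p _ _) (D.co hne p r), ← mem_center_iff.1 (cen h.symm), dfc, dfc,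
      eq_inv_of_mul_eq_one_left (C.inv _ _ h.rr h.pp h.symm.pr), eq_inv_of_mul_eq_one_left (C.inv _ _ h.pp' h.rr' h.p'r')]
    group
  rw [k6] at k7
  rw [k7, one_mul, dfc, mul_inv_eq_one] at k1
  exact k1
end stp

theorem su_step {A : Submodule F V} (hA : (S.restrict A).Nondeg) (h4 : 4 ≤ finrank F (S.perp A))
    (h2 : q = 2 → 5 ≤ finrank F (S.perp A) ∧ finrank F V ≠ 6) (h3 : q = 3 → 5 ≤ finrank F V)
    (ih : ∀ x ∈ S.perp A, S.h x x = 1 → ∃ φ, Sc π (SA S (A ⊔ F ∙ x)) φ) : ∃ φ, Sc π (SA S A) φ := by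
  have hT := hS.restrict_perp hA
  have q2 := two_le_of_card_sq hF
  have dA := hS.finrank_perp A
  have : Nontrivial (S.perp A) := Module.nontrivial_of_finrank_pos (R := F) (by omega)
  obtain ⟨⟨a, ma⟩, aa⟩ := hT.unit_exists_norm hne (map_one σ)
  obtain ⟨⟨b, mb⟩, bb, ab, -⟩ := hT.unit_perp2 hne h4 aa ⟨a, ma⟩
  obtain ⟨⟨c, mc⟩, cc, ac, bc⟩ := hT.unit_perp2 hne h4 aa ⟨b, mb⟩
  obtain ⟨⟨t, mt⟩, tt, at', bt, ct⟩ := hT.unit_perp3 hne h4 aa bb ab (s := ⟨c, mc⟩) (.inr (.inl (by rw [ac, bc, cc]; simp)))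
  simp only [restrict_h] at aa bb cc tt ab ac bc at' bt ct
  obtain ⟨n, n1, n2, n3⟩ := hS.exists_U aa bb ab (x := 0) (y := 1) (by simp)
  obtain ⟨s, s1, s2, s3⟩ := hS.exists_U aa tt at' (x := 0) (y := 1) (by simp)
  rw [zero_smul, zero_add, one_smul] at n3 s3
  have hP : ∀ x g, g ∈ SA S (A ⊔ F ∙ x) ↔ g ∈ SA S A ∧ g.1 x = x := fun x g => by simp [SA, mem_fix_sup, mem_fix_span, and_assoc]
  have D₀ : S.Frm A (SA S A) (SA S (A ⊔ F ∙ a)) (SA S (A ⊔ F ∙ t)) a b c t n := ⟨hS, hA, h4, fun _ => Iff.rfl, hP a, hP t, ma, mb, mc, mt,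
    aa, bb, cc, tt, ab, ac, S.h_swap_zero at', bc, S.h_swap_zero bt, S.h_swap_zero ct, n1, n2, n3⟩
  obtain ⟨φ, k⟩ := ih a ma aa
  obtain ⟨φ', k'⟩ := ih t mt tt
  have pf : ∀ x ∈ S.perp A, S.h x x = 1 → SA S (A ⊔ F ∙ x) ≤ ⁅SA S (A ⊔ F ∙ x), SA S (A ⊔ F ∙ x)⁆ := fun x hx xx => by
    have := sup_unit hA hx xx
    have d := hS.finrank_perp (A ⊔ F ∙ x)
    exact SA_perf hne hS hF this.1 (by omega)
  have two : ∀ {x y}, S.h x x = 1 → S.h y y = 1 → S.h x y = 0 → ∀ k ∈ S.SIsom, k.1 x = x → k.1 y = y →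
      ∀ u ∈ S.fix (S.perp (Submodule.span F {x, y})), LCm π k u := fun xx yy xy k hk kx ky u hu =>
    lcm_two hne hS hF hc hr (onb2 xx yy xy).1 (onb2 xx yy xy).2 (by omega) ⟨hk, mem_fix_span.2 (by simp [kx, ky])⟩ hu
  have D : S.Stp A _ _ _ a b c t n φ φ' := ⟨D₀, k.1, k'.1, fun g hg hg' => by
      obtain ⟨x, rfl⟩ := hr s1
      have sK : π x ∈ SA S A := ⟨s1, fun y hy => s2 y (S.mem_perp_pair.2 ⟨S.h_swap_zero (ma y hy), S.h_swap_zero (mt y hy)⟩)⟩
      have c1 := two aa tt at' g hg.1 ((hP _ _).1 hg).2 ((hP _ _).1 hg').2 _ s2 _ _ (k.2 g hg) rfl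
      have c2 := (c1.map π).eq
      rw [k.2 g hg] at c2
      rw [Sc.conj hc (pf t mt tt) k k' x (fun g hg => (hP _ _).2 ⟨mul_mem (mul_mem (inv_mem sK) ((hP _ _).1 hg).1) sK, by
        rw [isom_mul_apply, isom_mul_apply, s3, ((hP _ _).1 hg).2, ← s3, isom_inv_apply_self]⟩) hg', mul_assoc _ g, c2, inv_mul_cancel_left,
        ← c1.eq, mul_inv_cancel_right],
    fun u u1 u2 g hg gb => two aa bb ab g hg.1 ((hP _ _).1 hg).2 gb u u2 _ _ (k.2 g hg) (k'.2 u (D₀.UP u1 u2))⟩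
  have hn := k'.2 n (D₀.UP n1 n2)
  have f3 : 3 ≤ q → ∃ ν : F, σ ν = ν ∧ ν ≠ 0 ∧ ν ≠ 1 := exists_fixed_ne hσ hne hF
  obtain ⟨Ψ, p1, p2, p3⟩ := D.ext' hne hF (unit_σ_eq hσ hne hF) (by
      by_cases e : q = 2
      · refine D.q0' hne (.inl (h2 e).1) fun u u1 u2 g hg gb gc => ?_
        have o := onb3 aa bb cc ab ac bc
        have d := hS.finrank_perp (Submodule.span F {a, b, c})
        have m : g ∈ S.fix (Submodule.span F {a, b, c}) := mem_fix_span.2 (by simp [((hP _ _).1 hg).2, gb, gc])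
        have mu : u ∈ SA S (A ⊔ F ∙ t) := (hP _ _).2 ⟨⟨u1, fun x hx => u2 x (S.mem_perp_span.2 (by
          simp [S.h_swap_zero (ma x hx), S.h_swap_zero (mb x hx), S.h_swap_zero (mc x hx)]))⟩, u2 t (S.mem_perp_span.2 (by simp [at', bt, ct]))⟩
        refine (?_ : LCm π g u) _ _ (k.2 g hg) (k'.2 u mu)
        by_cases e' : finrank F V = 5
        · exact (lcm_two hne hS hF hc hr (hS.restrict_perp o.1) (by omega) (by omega) ⟨u1, u2⟩ (by rwa [hS.perp_perp])).symm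
        · exact lcm_perf hS hc hr o.1 (SA_perf hne hS hF o.1 (by have := h2 e; omega)) ⟨hg.1, m⟩ u2
      · obtain ⟨ν, a1, a2, a3⟩ := f3 (by omega)
        exact (D.coc hne).q0 hne a1 a2 a3) (by
      by_cases e : 5 ≤ finrank F (S.perp A) ∨ 4 ≤ q
      · exact (D.coc hne).q3 hne hT h4 (e.imp_right fun e => exists_fix3 hσ hne hF e 0 1 2)
      · obtain rfl : q = 3 := by by_contra h; have := h2 (by omega); omega
        obtain ⟨s₀, a1, a2⟩ := unit_exists_norm_mem hne hA (by have := h3 rfl; omega) (map_one σ)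
        refine q3_three hne hS hF hc hr D k.2 hn ?_ (h3 rfl) (pf a ma aa) a1 a2
        have := Fintype.ofFinite F
        have e := FiniteField.cast_card_eq_zero F
        rw [← Nat.card_eq_fintype_card, hF] at e
        exact pow_eq_zero_iff (two_ne_zero) |>.1 (by exact_mod_cast e))
    (by by_cases e : q = 2; exacts [.inl (h2 e).1, .inr (f3 (by omega))])
  refine ⟨Ψ, p1, fun g hg => (D₀.gen hne (M := (show HomOn (SA S A) fun g => π (Ψ g) from fun a ha b hb => by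
    simp only [p1 a ha b hb, map_mul]).eqv (K' := ⊤) (Ψ := id) fun _ _ _ _ => rfl) (fun g hg => ⟨D₀.PK hg, trivial, by
      simp only [p2 g hg, k.2 g hg, id]⟩) ⟨D₀.PK' (D₀.UP n1 n2), trivial, by simp only [p3 n (D₀.UP n1 n2), hn, id]⟩ hg).2.2⟩

theorem su_all {m : ℕ} (hm : 3 ≤ m) (h2 : q = 2 → 4 ≤ m ∧ finrank F V ≠ 6) (h3 : q = 3 → m < finrank F V → 5 ≤ finrank F V)
    (h0 : ∀ A, (S.restrict A).Nondeg → finrank F (S.perp A) = m → ∃ φ, Sc π (SA S A) φ) (k : ℕ) :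
    ∀ A, (S.restrict A).Nondeg → finrank F (S.perp A) = m + k → ∃ φ, Sc π (SA S A) φ := by
  induction k with
  | zero => exact h0
  | succ k ih =>
    intro A hA e
    have d := hS.finrank_perp A
    refine su_step hne hS hF hc hr hA (by omega) (fun h => by have := h2 h; omega) (fun h => h3 h (by omega)) fun x hx xx => ?_
    have := sup_unit hA hx xx
    have d := hS.finrank_perp (A ⊔ F ∙ x)
    exact ih _ this.1 (by omega)

end H24
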