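import Cfsg.Agent.H24.Su1

/-! Central extensions of the Borel subgroup of `SU₃(q)`: the unipotent radical (`heis_comm`). -/

set_option autoImplicit false

namespace H24
open H11 H11.PForm Subgroup Module
open scoped commutatorElement

universe u

section heis
variable {F : Type*} [Field F] {σ : F →+* F} (hσ : ∀ a, σ (σ a) = a) {B : Type*} [Group B] {X : F → F → B} (hX : HsU σ X)
include hσ hX

theorem hs_inv {α a : F} (v : a + σ a = σ α * α) : (X α a)⁻¹ = X (-α) (σ a) :=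
  inv_eq_of_mul_eq_one_right (by
    rw [hX.mul _ _ _ _ v (by simp [hσ, ← v, add_comm]), ← hX.zero]; congr 1 <;> [simp; linear_combination v])
theorem hs_add {α a β b : F} (v : a + σ a = σ α * α) (w : b + σ b = σ β * β) :
    a + b + σ α * β + σ (a + b + σ α * β) = σ (α + β) * (α + β) := by
  simp only [map_add, map_mul, hσ]; linear_combination v + w
theorem hs_neg {α a : F} (v : a + σ a = σ α * α) : σ a + σ (σ a) = σ (-α) * -α := by simp [hσ, ← v, add_comm]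
/-- the Heisenberg group -/
def hsU : Subgroup B where
  carrier := {x | ∃ p : F × F, p.2 + σ p.2 = σ p.1 * p.1 ∧ x = X p.1 p.2}
  mul_mem' := by rintro _ _ ⟨p, v, rfl⟩ ⟨r, w, rfl⟩; exact ⟨(_, _), hs_add hσ hX v w, hX.mul _ _ _ _ v w⟩
  one_mem' := ⟨0, by simp, hX.zero.symm⟩
  inv_mem' := by rintro _ ⟨p, v, rfl⟩; exact ⟨(_, _), hs_neg hσ hX v, hs_inv hσ hX v⟩
theorem hs_inj {α a β b : F} (v : a + σ a = σ α * α) (w : b + σ b = σ β * β) (e : X α a = X β b) : α = β ∧ a = b := by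
  have := hX.inj _ _ (hs_add hσ hX v (hs_neg hσ hX w)) (by rw [← hX.mul _ _ _ _ v (hs_neg hσ hX w), ← hs_inv hσ hX w, e, mul_inv_cancel])
  obtain rfl : α = β := by linear_combination this.1
  exact ⟨rfl, by linear_combination this.2 - w⟩
open Classical in
/-- the first coordinate -/
noncomputable def hsCo (x : B) : F := if h : x ∈ hsU hσ hX then h.choose.1 else 0
theorem hsCo_X {α a : F} (v : a + σ a = σ α * α) : hsCo hσ hX (X α a) = α := by
  have h : X α a ∈ hsU hσ hX := ⟨(α, a), v, rfl⟩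
  rw [hsCo, dif_pos h]
  exact (hs_inj hσ hX v h.choose_spec.1 h.choose_spec.2).1.symm
theorem hs_comm {α a β b : F} (v : a + σ a = σ α * α) (w : b + σ b = σ β * β) : ⁅X α a, X β b⁆ = X 0 (σ α * β - σ β * α) := by
  have v' : σ α * β - σ β * α + σ (σ α * β - σ β * α) = 0 := by simp [hσ, mul_comm]
  rw [commutatorElement_def, mul_assoc, ← mul_inv_rev, mul_inv_eq_iff_eq_mul, hX.mul _ _ _ _ v w, hX.mul _ _ _ _ w v,
    (hX.comm hσ (hs_add hσ hX w v) v').2, add_comm α]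
  congr 1; ring

variable [Finite F] (hne : σ ≠ RingHom.id F) {q : ℕ} (hF : Nat.card F = q ^ 2)
include hne hF

theorem card_hsU : Nat.card (hsU hσ hX) = q ^ 3 := by
  obtain ⟨θ, hθ⟩ := exists_trace_one hσ hne
  have v : ∀ (α : F) (c : (unitP σ hσ).Λ), θ * (σ α * α) + c + σ (θ * (σ α * α) + c) = σ α * α := fun α c => by
    simp only [map_add, map_mul, hσ]; linear_combination (σ α * α) * hθ + mem_unitP_Λ.1 c.2
  rw [pow_succ, ← hF, ← card_unit_Λ hσ hne hF, ← Nat.card_prod, eq_comm]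
  refine Nat.card_eq_of_bijective (fun p => ⟨X p.1 (θ * (σ p.1 * p.1) + p.2), (_, _), v _ _, rfl⟩) ⟨fun p r e => ?_, ?_⟩
  · obtain ⟨h1, h2⟩ := hs_inj hσ hX (v _ _) (v _ _) (congrArg Subtype.val e)
    exact Prod.ext h1 (Subtype.ext (by rw [h1] at h2; exact add_left_cancel h2))
  · rintro ⟨_, p, w, rfl⟩
    refine ⟨(p.1, ⟨p.2 - θ * (σ p.1 * p.1), mem_unitP_Λ.2 ?_⟩), by simp⟩
    simp only [map_sub, map_mul, hσ]; linear_combination w - (σ p.1 * p.1) * hθ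

omit hX in
theorem exists_wts (hq : 3 ≤ q) : ∃ v : F, v ≠ 0 ∧ 1 - v ≠ 0 ∧ v ^ 2 - v + 1 ≠ 0 ∧
    (∃ l ≠ 0, σ l * (σ l / l) = v) ∧ ∃ l ≠ 0, σ l * (σ l / l) = 1 - v := by
  have := Fintype.ofFinite F
  by_cases h : 5 ≤ q
  · obtain ⟨K, h1, h2⟩ := exists_fixF hσ hne hF
    have := Fintype.ofFinite K
    obtain ⟨v, a, b, c⟩ := exists_v_of_four_lt (F := K) ⟨Finset.univ, by rw [Finset.card_univ, ← Nat.card_eq_fintype_card]; omega⟩
    have k : ∀ x : K, x ≠ 0 → ∃ l ≠ 0, σ l * (σ l / l) = x := fun x hx => by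
      have : (x : F) ≠ 0 := by exact_mod_cast hx
      exact ⟨x, this, by rw [(h2 _).1 x.2]; field_simp⟩
    exact ⟨v, by exact_mod_cast a, by exact_mod_cast b, by exact_mod_cast c, k v a, by exact_mod_cast k _ b⟩
  have k : ∀ x : F, x ≠ 0 → ∃ l ≠ 0, σ l * (σ l / l) = x := fun x hx => by
    have e := FiniteField.pow_card_sub_one_eq_one x hx
    rw [← Nat.card_eq_fintype_card, hF] at e
    obtain rfl | rfl : q = 3 ∨ q = 4 := by omega
    · refine ⟨x ^ 5, by simp [hx], ?_⟩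
      rw [unit_σ_eq hσ hne hF]; field_simp; linear_combination (x ^ 16 + x ^ 8 + 1) * e
    · refine ⟨x ^ 13, by simp [hx], ?_⟩
      rw [unit_σ_eq hσ hne hF]; field_simp; linear_combination (x ^ 75 + x ^ 60 + x ^ 45 + x ^ 30 + x ^ 15 + 1) * e
  obtain ⟨v, a, b, c⟩ := exists_v_of_four_lt (F := F) ⟨Finset.univ, by rw [Finset.card_univ, ← Nat.card_eq_fintype_card]; nlinarith⟩
  exact ⟨v, a, b, c, k v a, k _ b⟩

omit hX in
theorem exists_norm_cube (hq : 3 ≤ q) : ∃ l : F, σ l * l = 1 ∧ l ^ 3 ≠ 1 := by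
  by_contra! h
  have : Nat.card (normOne σ) ≤ 3 := by
    have := Fintype.ofFinite (normOne σ)
    classical
    rw [Nat.card_eq_fintype_card, ← Finset.card_univ]
    refine le_trans (Finset.card_le_card fun x _ => ?_) (IsCyclic.card_pow_eq_one_le (α := normOne σ) (n := 3) (by omega))
    simpa [Subtype.ext_iff, Units.ext_iff] using h _ x.2
  rw [card_normOne_unit hσ hne hF] at this; omega

theorem heis_comm (hq : 3 ≤ q) {Γ : Type u} [Group Γ] [Finite Γ] {s : Γ →* B} (hs : Function.Surjective s) (hc : s.ker ≤ center Γ)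
    {h : B} {ζ : F} (prim : ∀ a ≠ 0, ∃ i : ℕ, ζ ^ i = a) (ah : Act σ X h (σ ζ * (σ ζ / ζ))) :
    ⁅(hsU hσ hX).comap s, (hsU hσ hX).comap s⁆ ⊓ s.ker = ⊥ := by
  obtain ⟨θ, hθ⟩ := exists_trace_one hσ hne
  have act : ∀ l ≠ 0, ∃ g ∈ zpowers h, Act σ X g (σ l * (σ l / l)) := fun l hl => by
    obtain ⟨i, rfl⟩ := prim l hl
    exact ⟨h ^ i, npow_mem_zpowers h i, by simpa [mul_pow, div_pow] using ah.pow hσ i⟩
  have s1 : ∀ x ∈ hsU hσ hX, ∀ z ∈ hX.Z hσ, LCm s x z := by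
    rintro _ ⟨⟨α, a⟩, v, rfl⟩ _ ⟨c, hc', rfl⟩
    obtain ⟨l, l1, l2⟩ := exists_norm_cube hσ hne hF hq
    have l0 : l ≠ 0 := by rintro rfl; simp at l1
    obtain ⟨g, -, ag⟩ := act l l0
    obtain ⟨ν, ag, n1, n2⟩ : ∃ ν, Act σ X g ν ∧ σ ν * ν = 1 ∧ ν - 1 ≠ 0 := by
      rw [eq_inv_of_mul_eq_one_left l1] at ag
      refine ⟨_, ag, by simp [eq_inv_of_mul_eq_one_left l1]; field_simp, fun e => l2 ?_⟩
      field_simp at e; linear_combination -e
    have m : ∀ β b, b + σ b = σ β * β → X β b ∈ centralizer {X 0 c} ⊓ s.range := fun β b w =>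
      ⟨mem_centralizer_singleton_iff.2 ((hX.comm hσ w hc').1.trans (hX.comm hσ w hc').2.symm), hs _⟩
    have t : ∀ β, θ * (σ β * β) + σ (θ * (σ β * β)) = σ β * β := fun β => by
      simp only [map_mul, hσ]; linear_combination (σ β * β) * hθ
    have w := t (α / (ν - 1))
    have w' : σ ν * ν * (θ * (σ (α / (ν - 1)) * (α / (ν - 1)))) + σ (σ ν * ν * (θ * (σ (α / (ν - 1)) * (α / (ν - 1))))) =
        σ (ν * (α / (ν - 1))) * (ν * (α / (ν - 1))) := by rw [n1, one_mul, w, map_mul]; linear_combination (-σ (α / (ν - 1)) * (α / (ν - 1))) * n1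
    have m1 := commutator_mem_commutator (show g ∈ centralizer {X 0 c} ⊓ s.range from ⟨mem_centralizer_singleton_iff.2 (by
      rw [← mul_inv_eq_iff_eq_mul, ag _ _ (by simpa), n1, mul_zero, one_mul]), hs _⟩) (m _ _ w)
    have w2 := hs_add hσ hX w' (hs_neg hσ hX w)
    rw [commutatorElement_def, ag _ _ w, hs_inv hσ hX w, hX.mul _ _ _ _ w' (hs_neg hσ hX w)] at m1
    rw [show ν * (α / (ν - 1)) + -(α / (ν - 1)) = α by field_simp; ring] at m1 w2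
    obtain ⟨b, m1, w2⟩ : ∃ b, X α b ∈ ⁅centralizer {X 0 c} ⊓ s.range, centralizer {X 0 c} ⊓ s.range⁆ ∧ b + σ b = σ α * α := ⟨_, m1, w2⟩
    have d : a - b + σ (a - b) = 0 := by rw [map_sub]; linear_combination v - w2
    have m2 := commutator_mem_commutator (m _ _ (t 1)) (m _ _ (t (θ * (a - b))))
    rw [hs_comm hσ hX (t _) (t _), show σ 1 * (θ * (a - b)) - σ (θ * (a - b)) * 1 = a - b by
      rw [map_one, map_mul]; linear_combination (a - b) * hθ - σ θ * d] at m2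
    simpa [(hX.comm hσ w2 d).1] using lcm_of hc (mul_mem m1 m2)
  have ZU : ∀ z ∈ hX.Z hσ, z ∈ hsU hσ hX := by rintro _ ⟨c, hc, rfl⟩; exact ⟨(0, c), by simpa, rfl⟩
  have hV : ∀ a ∈ (hX.Z hσ).comap s, ∀ b ∈ (hX.Z hσ).comap s, a * b = b * a := fun a ha b hb => s1 _ (ZU _ ha) _ hb _ _ rfl rfl
  obtain ⟨g, rfl⟩ := hs h
  have z0 : ζ ≠ 0 := by
    rintro rfl
    obtain ⟨c, -, c0, c1⟩ := exists_fixed_ne hσ hne hF hq
    obtain ⟨_ | i, rfl⟩ := prim c c0 <;> simp at c0 c1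
  have nm : σ (σ ζ * (σ ζ / ζ)) * (σ ζ * (σ ζ / ζ)) = σ ζ * ζ := by
    have : σ ζ ≠ 0 := by simpa
    simp only [map_mul, map_div₀, hσ]; field_simp
  obtain ⟨W, hW1, hW2, hW3⟩ := H13.exists_compl hc hV (g := g) (fun v ⟨c, hc, e⟩ => ⟨σ ζ * ζ * c, by
    simp only [map_mul, hσ]; linear_combination σ ζ * ζ * hc, by rw [map_mul, map_mul, map_inv, e, ah _ _ (by simpa), nm, mul_zero]⟩)
    fun v ⟨c, hc, e⟩ e' => by
      rw [e, ← mul_inv_eq_iff_eq_mul, ah _ _ (by simpa), nm, mul_zero] at e'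
      have := (hs_inj hσ hX (by simp only [map_mul, hσ, mul_zero]; linear_combination σ ζ * ζ * hc) (by simpa) e').2
      obtain ⟨d, d1, d0, d2⟩ := exists_fixed_ne hσ hne hF hq
      obtain ⟨x, rfl⟩ := exists_norm_eq hσ hne d1
      obtain ⟨i, rfl⟩ := prim x (by rintro rfl; simp at d0)
      rw [e, (mul_left_eq_self₀.1 this).resolve_left fun h => d2 (by rw [map_pow, ← mul_pow, h, one_pow]), hX.zero]
  rw [eq_bot_iff, ← hW2]
  refine inf_le_inf_right _ (commutator_le.2 fun a ha b hb => ?_)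
  have k1 : ∀ {x y}, Commute x y → ⁅x, y⁆ ∈ W := fun hx => by rw [hx.commutator_eq]; exact one_mem _
  have k2 : ∀ x ∈ hsU hσ hX, hsCo hσ hX x = 0 → x ∈ hX.Z hσ := by
    rintro _ ⟨⟨α, a⟩, v, rfl⟩ e
    rw [hsCo_X hσ hX v] at e
    subst e
    exact ⟨a, by simpa using v, rfl⟩
  have ad : ∀ x ∈ hsU hσ hX, ∀ y ∈ hsU hσ hX, hsCo hσ hX (x * y) = hsCo hσ hX x + hsCo hσ hX y := by
    rintro _ ⟨p, v, rfl⟩ _ ⟨r, w, rfl⟩
    rw [hX.mul _ _ _ _ v w, hsCo_X hσ hX (hs_add hσ hX v w), hsCo_X hσ hX v, hsCo_X hσ hX w]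
  have su : ∀ α, ∃ x ∈ hsU hσ hX, hsCo hσ hX x = α := fun α => by
    have : θ * (σ α * α) + σ (θ * (σ α * α)) = σ α * α := by simp only [map_mul, hσ]; linear_combination (σ α * α) * hθ
    exact ⟨_, ⟨(α, _), this, rfl⟩, hsCo_X hσ hX this⟩
  have cj : ∀ i : {p : B × F // p.1 ∈ zpowers (s g) ∧ Act σ X p.1 p.2}, ∀ x ∈ hsU hσ hX, i.1.1 * x * i.1.1⁻¹ ∈ hsU hσ hX ∧
      hsCo hσ hX (i.1.1 * x * i.1.1⁻¹) = i.1.2 * hsCo hσ hX x := by
    rintro ⟨⟨k, ξ⟩, -, ak⟩ _ ⟨p, v, rfl⟩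
    have : σ ξ * ξ * p.2 + σ (σ ξ * ξ * p.2) = σ (ξ * p.1) * (ξ * p.1) := by
      simp only [map_mul, hσ]; linear_combination σ ξ * ξ * v
    rw [ak _ _ v, hsCo_X hσ hX this, hsCo_X hσ hX v]
    exact ⟨⟨(_, _), this, rfl⟩, rfl⟩
  obtain ⟨v, v0, v1, v2, ⟨l, l0, rfl⟩, l', l0', e⟩ := exists_wts hσ hne hF hq
  obtain ⟨g1, m1, a1⟩ := act l l0
  obtain ⟨g2, m2, a2⟩ := act l' l0'
  refine H13.comm_mem_of_rigid (fun M _ b h1 h2 h3 => biadd_eq_one (fun a a' c => by rw [add_comm, h1]) h2 v0 v1 v2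
    (h3 ⟨(g1, _), m1, a1⟩) (e ▸ h3 ⟨(g2, _), m2, a2⟩)) hs (fun v hv x hx => by rwa [hV v hv x (hW1 hx), mul_inv_cancel_right]) hW1 ad ad su su
    ?_ (fun a ha v hv => k1 (s1 _ (ha.elim id id) _ hv _ _ rfl rfl)) (fun a b ha hb h => h.elim
      (fun h => k1 (s1 _ hb _ (k2 _ ha h) _ _ rfl rfl).symm) fun h => k1 (s1 _ ha _ (k2 _ hb h) _ _ rfl rfl)) _ cj cj
    (fun i g' e => hW3 g' (e ▸ i.2.1)) ha hb
  rintro a b ⟨p, v, e⟩ ⟨r, w, e'⟩
  exact ⟨σ p.1 * r.1 - σ r.1 * p.1, by simp [hσ, mul_comm], by rw [map_commutatorElement, e, e', hs_comm hσ hX v w]⟩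
end heis

end H24
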