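import Cfsg.Agent.H24.Su2
import Cfsg.Agent.H24.ClA
import Cfsg.Agent.H25.MiU8

/-! The Schur multiplier of `SU₃(q)`, `q ≥ 3`, is trivial (`schur_su3`). -/

set_option autoImplicit false

namespace H24
open H11 H11.PForm Subgroup Module
open scoped commutatorElement MatrixGroups

universe u

section grp
variable {E G : Type*} [Group E] [Group G] {π : E →* G} {K K' : Subgroup G} {φ ψ : G → E}

/-- uniqueness of sections -/
def Uq (π : E →* G) (K : Subgroup G) : Prop := ∀ φ ψ, Sc π K φ → Sc π K ψ → ∀ g ∈ K, φ g = ψ g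
theorem Sc.conj' (hK : Uq π K') (h : Sc π K φ) (h' : Sc π K' ψ) (x : E) (hx : ∀ g ∈ K', (π x)⁻¹ * g * π x ∈ K) {g : G} (hg : g ∈ K') :
    ψ g = x * φ ((π x)⁻¹ * g * π x) * x⁻¹ :=
  hK ψ (fun g => x * φ ((π x)⁻¹ * g * π x) * x⁻¹) h' ⟨fun a ha b hb => by
    beta_reduce
    rw [show (π x)⁻¹ * (a * b) * π x = (π x)⁻¹ * a * π x * ((π x)⁻¹ * b * π x) by group, h.1 _ (hx a ha) _ (hx b hb)]; group,
    fun a ha => by simp only [map_mul, map_inv, h.2 _ (hx a ha)]; group⟩ g hg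

theorem sc_sl2 (hc : π.ker ≤ center E) {k : Type*} [Field k] [Finite k] (p : ℕ) [CharP k p] {m : ℕ} (hm : p.Coprime m)
    (hz : ∀ z, π z = 1 → z ^ m = 1) (ι : SL(2, k) →* G) (hι : Function.Injective ι) (hr : ι.range ≤ π.range) :
    (∃ φ, Sc π ι.range φ) ∧ Uq π ι.range := by
  let C : CE E π.range := ⟨π.rangeRestrict, π.rangeRestrict_surjective, by rwa [MonoidHom.ker_rangeRestrict]⟩
  have hC : C.PDiv p := C.pDiv_of_coprime hm fun z h => hz z (congrArg Subtype.val h)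
  obtain ⟨S, hx, hy⟩ := ((sl2R k).map (ι.codRestrict π.range fun x => hr ⟨x, rfl⟩)).exists_lift_pDiv C _ hC
  obtain ⟨f, fx, fy⟩ := S.exists_hom
  have e : π.comp f = ι := MonoidHom.eq_of_eqOn_dense (sl2R_T k) (by
    rintro _ (⟨t, rfl⟩ | ⟨t, rfl⟩)
    · exact (congrArg π (fx t)).trans (congrArg Subtype.val (hx t))
    · exact (congrArg π (fy t)).trans (congrArg Subtype.val (hy t)))
  refine ⟨e ▸ sc_of_hom f fun x hx => by rw [hι (a₁ := x) (a₂ := 1) (by rw [← e, map_one]; exact hx), map_one], ?_⟩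
  rintro φ ψ h h' _ ⟨g, rfl⟩
  have k1 : ∀ {φ}, Sc π ι.range φ → ∀ g, g ^ p = 1 → φ (ι g) ^ p = 1 := fun h g e => by
    simpa [HomOn.hom, e, ← map_pow, h.1.one] using (map_pow h.1.hom ⟨ι g, g, rfl⟩ p).symm
  have k2 : ∀ g, g ^ p = 1 → g ∈ (h.1.eqv h'.1).comap ι := fun g e => ⟨⟨g, rfl⟩, ⟨g, rfl⟩,
    hC.unique (Subtype.ext ((h.2 _ ⟨g, rfl⟩).trans (h'.2 _ ⟨g, rfl⟩).symm)) (k1 h g e) (k1 h' g e)⟩
  refine ((closure_le ((h.1.eqv h'.1).comap ι)).2 ?_ ((sl2R_T k).ge (mem_top g))).2.2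
  rintro _ (⟨t, rfl⟩ | ⟨t, rfl⟩)
  · exact k2 _ (by simp [R1.x_pow])
  · exact k2 _ (((sl2R k).swap.x_pow t p).trans (by simp))

variable [Finite E] (hc : π.ker ≤ center E)
include hc

theorem comm_inf_ker {L : Subgroup E} (hL : ∀ l ∈ L, π l = 1 → l = 1) {g : E} (hg : ∀ l ∈ L, g * l * g⁻¹ ∈ L) {N : Subgroup G}
    (hN : N ≤ L.map π ⊔ zpowers (π g)) : ⁅N.comap π, N.comap π⁆ ⊓ π.ker = ⊥ := by
  have n : zpowers g ≤ normalizer L := zpowers_le.2 (mem_normalizer_fintype hg)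
  have k : ∀ a ∈ N.comap π, ∃ l ∈ L, ∃ i : ℤ, π a = π (l * g ^ i) := fun a ha => by
    have := hN ha
    rw [← MonoidHom.map_zpowers, ← Subgroup.map_sup] at this
    obtain ⟨b, hb, e⟩ := this
    rw [coe_mul_of_right_le_normalizer_left _ _ n] at hb
    obtain ⟨l, hl, _, ⟨i, rfl⟩, rfl⟩ := hb
    exact ⟨l, hl, i, e.symm⟩
  refine eq_bot_iff.2 fun z hz => hL z ((commutator_le (H₃ := L)).2 (fun a ha b hb => ?_) hz.1) hz.2
  obtain ⟨l, hl, i, e⟩ := k a ha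
  obtain ⟨l', hl', j, e'⟩ := k b hb
  rw [H13.comm_congr hc e e', show ⁅l * g ^ i, l' * g ^ j⁆ = l * (g ^ i * l' * (g ^ i)⁻¹) * (g ^ j * l⁻¹ * (g ^ j)⁻¹) * l'⁻¹ by group]
  exact mul_mem (mul_mem (mul_mem hl ((mem_normalizer_iff.1 (n ⟨i, rfl⟩) _).1 hl')) ((mem_normalizer_iff.1 (n ⟨j, rfl⟩) _).1 (inv_mem hl)))
    (inv_mem hl')

omit hc [Finite E] in
theorem card_mul_rel (h : K ≤ K') : Nat.card K * K.relIndex K' = Nat.card K' := by
  rw [← Nat.card_congr (subgroupOfEquivOfLe h).toEquiv]; exact card_mul_index _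

theorem pow_of_card (hp : π.ker ≤ commutator E) {N : Subgroup G} (hN : N ≤ π.range) (h : ⁅N.comap π, N.comap π⁆ ⊓ π.ker = ⊥) {k : ℕ}
    (hk : Nat.card N * k = Nat.card π.range) {z : E} (hz : π z = 1) : z ^ k = 1 := by
  have h3 := H21.pow_index_mem_commutator (N.comap π) (hc hz) (hp hz)
  have : Finite π.range := Finite.of_surjective _ π.rangeRestrict_surjective
  have : Finite N := Finite.of_injective _ (inclusion_injective hN)
  rw [index_comap, Nat.eq_of_mul_eq_mul_left Nat.card_pos ((card_mul_rel hN).trans hk.symm)] at h3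
  exact h.le ⟨h3, pow_mem hz _⟩
end grp

variable {F : Type*} [Field F] {σ : F →+* F} {hσ : ∀ a, σ (σ a) = a} {V : Type*} [AddCommGroup V] [Module F V]
  {S : PForm (unitP σ hσ) V} {E : Type*} [Group E] {π : E →* S.Isom}

theorem SA_conj {x y : V} {k g : S.Isom} {c : F} (hk : k.1 x = c • y) (hg : g ∈ SA S (F ∙ y)) : k⁻¹ * g * k ∈ SA S (F ∙ x) :=
  ⟨Normal.conj_mem' inferInstance _ hg.1 _, mem_fix_span.2 (by
    rintro _ rfl
    rw [isom_mul_apply, isom_mul_apply, hk, map_smul, hg.2 y (Submodule.mem_span_singleton_self y), ← hk, isom_inv_apply_self])⟩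

theorem qc_dq {u : V} (uu : S.h u u = 1) {ε : F} (hε : σ ε * ε = 1) (h : ε ≠ 1) : S.QCond u (1 - ε)⁻¹ := by
  have h1 := sub_ne_zero.2 h
  have h2 := sub_ne_zero.2 h.symm
  have h0 : ε ≠ 0 := by rintro rfl; simp at hε
  exact ⟨inv_ne_zero h2, (S.unit_congr_iff _ _).2 (by
    rw [uu, map_inv₀, map_sub, map_one, eq_inv_of_mul_eq_one_left hε]; field_simp; ring)⟩
theorem dq_apply {u : V} (uu : S.h u u = 1) (ε : normOne σ) (x : V) :
    (S.qrefl u (1 - ε.1)⁻¹).1 x = x + ((ε.1 - 1) * S.h u x) • u := by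
  by_cases h : (ε.1 : F) = 1
  · rw [qrefl_junk fun h' => h'.ne (by simp [h])]; simp [h]
  · rw [qrefl_apply (qc_dq uu ε.2 h), inv_inv, sub_eq_add_neg, ← neg_smul, ← neg_mul, neg_sub]
/-- the quasi-reflections in a unit vector -/
noncomputable def dn {u : V} (uu : S.h u u = 1) : normOne σ →* S.Isom :=
  MonoidHom.mk' (fun ε => S.qrefl u (1 - ε.1)⁻¹) fun a b => isom_ext fun x => by
    rw [isom_mul_apply, dq_apply uu, dq_apply uu, dq_apply uu]; simp [uu]; module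
theorem dn_apply {u : V} (uu : S.h u u = 1) (ε : normOne σ) (x : V) : (dn uu ε).1 x = x + ((ε.1 - 1) * S.h u x) • u := dq_apply uu ε x
theorem dn_self {u : V} (uu : S.h u u = 1) (ε : normOne σ) : (dn uu ε).1 u = (ε.1 : F) • u := by
  rw [dn_apply, uu]; module
theorem dn_perp {u : V} (uu : S.h u u = 1) (ε : normOne σ) {x : V} (h : S.h u x = 0) : (dn uu ε).1 x = x := by simp [dn_apply, h]
theorem dn_comm {u v : V} (uu : S.h u u = 1) (vv : S.h v v = 1) (uv : S.h u v = 0) (ε ε' : normOne σ) : Commute (dn uu ε) (dn vv ε') :=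
  isom_ext fun x => by simp [dn_apply, uv, S.h_swap_zero uv]; module
theorem dn_conj {u v : V} (uu : S.h u u = 1) (vv : S.h v v = 1) {k : S.Isom} {c : F} (hk : k.1 u = c • v) (ε : normOne σ) :
    k * dn uu ε = dn vv ε * k := isom_ext fun x => by
  have h1 := isom_h k u u
  have h2 := isom_h k u x
  rw [hk] at h1 h2
  simp [uu, vv] at h1
  simp only [isom_mul_apply, dn_apply, map_add, map_smul, hk, smul_smul, ← h2, S.h_smul_left]
  congr 2; linear_combination ((ε.1 : F) - 1) * S.h v (k.1 x) * h1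

variable [FiniteDimensional F V]

theorem det_dn {u : V} (uu : S.h u u = 1) (ε : normOne σ) : S.detHom (dn uu ε) = ε := by
  by_cases h : (ε.1 : F) = 1
  · rw [show ε = 1 from Subtype.ext (Units.ext h), map_one, map_one]; rfl
  have h1 := sub_ne_zero.2 h
  have h2 := sub_ne_zero.2 (Ne.symm h)
  refine Units.ext ((det_qrefl (qc_dq uu ε.2 h)).trans ?_)
  rw [map_inv₀, map_sub, map_one, eq_inv_of_mul_eq_one_left ε.2]; simp only [unitP_ε]; field_simp; ring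

theorem dn_mem {u v w : V} (uu : S.h u u = 1) (vv : S.h v v = 1) (uw : S.h u w = 0) (vw : S.h v w = 0) (ε : normOne σ) :
    dn uu ε * dn vv ε⁻¹ ∈ SA S (F ∙ w) :=
  ⟨MonoidHom.mem_ker.2 (by rw [map_mul, det_dn, det_dn]; simp), mem_fix_span.2 (by
    rintro _ rfl; rw [isom_mul_apply, dn_perp vv _ vw, dn_perp uu _ uw])⟩

theorem exists_suIso [Fintype F] (hne : σ ≠ RingHom.id F) {q : ℕ} (hq : ∀ x, σ x = x ^ q) (hS : S.Nondeg) {n : ℕ} (h : finrank F V = n) :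
    Nonempty (Cfsg.SU n F q ≃* S.SIsom) := by
  obtain ⟨e, he⟩ := unit_eqv hne n (stdUnit_nondeg hσ hne (Fin n)) hS (by simp) h
  exact ⟨(suEquiv hσ hne hq n).trans (subgroupEquivOfIff (isomCongr e he) fun g => by
    simp only [SIsom, MonoidHom.mem_ker, detHom_isomCongr])⟩

variable [Finite F] (hne : σ ≠ RingHom.id F) (hS : S.Nondeg) {q : ℕ} (hF : Nat.card F = q ^ 2) (h3 : finrank F V = 3)
include hne hS hF h3

theorem card_su3 {Φ : ℕ} (hΦ : Φ + q = q ^ 2 + 1) : ∃ r, q = r + 1 ∧ Nat.card S.SIsom = q ^ 3 * r * (q + 1) ^ 2 * Φ := by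
  have := hS.unit_card_SIsom hne hF h3 (by omega)
  obtain ⟨r, rfl⟩ : ∃ r, q = r + 1 := ⟨q - 1, by have := two_le_of_card_sq hF; omega⟩
  refine ⟨r, rfl, Nat.eq_of_mul_eq_mul_left (Nat.succ_pos (r + 1)) (this.trans ?_)⟩
  obtain rfl : Φ = r ^ 2 + r + 1 := by nlinarith
  simp [guOrd_succ, guOrd_zero, show (r + 1) ^ 2 - 1 = r * (r + 2) from Nat.sub_eq_of_eq_add (by ring)]; ring

theorem card_stab_line {x : V} (xx : S.h x x = 1) : ∃ r, q = r + 1 ∧ Nat.card (S.stab (F ∙ x) ⊓ S.SIsom : Subgroup S.Isom) = q * r * (q + 1) ^ 2 := by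
  have hx := nondeg_singleton (S := S) (v := x) (by simp [xx])
  have d := finrank_perp_singleton (S := S) (v := x) (by simp [xx])
  have := hS.card_eq_of_det (S.stab (F ∙ x)) fun c => ⟨dn xx c, mem_stab_line.2 ⟨_, dn_self xx c⟩, det_dn xx c⟩
  rw [Nat.card_congr (stabEquivProd hx).toEquiv, Nat.card_prod, unit_card_Isom hne hF 1 hx (finrank_span_singleton (by rintro rfl; simp at xx)),
    unit_card_Isom hne hF 2 (hS.restrict_perp hx) (by omega), card_normOne_unit hσ hne hF] at this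
  obtain ⟨r, rfl⟩ : ∃ r, q = r + 1 := ⟨q - 1, by have := two_le_of_card_sq hF; omega⟩
  refine ⟨r, rfl, Nat.eq_of_mul_eq_mul_left (Nat.succ_pos (r + 1)) (this.symm.trans ?_)⟩
  simp [guOrd_succ, guOrd_zero, show (r + 1) ^ 2 - 1 = r * (r + 2) from Nat.sub_eq_of_eq_add (by ring)]; ring

variable (hc : π.ker ≤ center E) (hr : π.range = S.SIsom)
include hc hr

theorem sc_line (p : ℕ) [CharP F p] {m : ℕ} (hm : p.Coprime m) (hz : ∀ z, π z = 1 → z ^ m = 1) {x : V} (xx : S.h x x = 1) :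
    (∃ φ, Sc π (SA S (F ∙ x)) φ) ∧ Uq π (SA S (F ∙ x)) := by
  have := Fintype.ofFinite F
  have hx := nondeg_singleton (S := S) (v := x) (by simp [xx])
  have d := finrank_perp_singleton (S := S) (v := x) (by simp [xx])
  obtain ⟨K, h1, h2⟩ := exists_fixF hσ hne hF
  obtain ⟨-, e1, -⟩ := exists_su2 hσ hne (unit_σ_eq hσ hne hF) (Nat.card_eq_fintype_card.symm.trans hF) h1 h2
  obtain ⟨e2⟩ := exists_suIso hne (unit_σ_eq hσ hne hF) (hS.restrict_perp hx) (n := 2) (by omega)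
  have e : SA S (F ∙ x) = (((ext1 (hS.restrict_perp hx)).comp (Subgroup.subtype _)).comp (e1.trans e2).toMonoidHom).range := by
    rw [SA_map hS hx, MonoidHom.range_comp _ (e1.trans e2).toMonoidHom, (MonoidHom.range_eq_top (f := (e1.trans e2).toMonoidHom)).2 (e1.trans e2).surjective,
      ← MonoidHom.range_eq_map]
  rw [e]
  exact sc_sl2 hc p hm hz _ (((ext1_injective _).comp Subtype.val_injective).comp (e1.trans e2).injective) (e ▸ hr ▸ inf_le_left)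

omit hc hr hF in
theorem exists_onb : ∃ a b c : V, S.h a a = 1 ∧ S.h b b = 1 ∧ S.h c c = 1 ∧ S.h a b = 0 ∧ S.h a c = 0 ∧ S.h b c = 0 := by
  have : Nontrivial V := Module.nontrivial_of_finrank_pos (R := F) (by omega)
  obtain ⟨a, aa⟩ := hS.unit_exists_norm hne (map_one σ)
  have d := finrank_perp_singleton (S := S) (v := a) (by simp [aa])
  obtain ⟨b, ab, bb⟩ := unit_exists_norm_mem hne (hS.restrict_perp (nondeg_singleton (v := a) (by simp [aa]))) (by omega) (map_one σ)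
  have o := onb2 aa bb (S.mem_perp_singleton.1 ab)
  have d' := hS.finrank_perp (Submodule.span F {a, b})
  obtain ⟨c, hc, cc⟩ := unit_exists_norm_mem hne (hS.restrict_perp o.1) (by omega) (map_one σ)
  exact ⟨a, b, c, aa, bb, cc, S.mem_perp_singleton.1 ab, S.mem_perp_pair.1 hc⟩

variable [Finite E]

theorem su3_p (hq : 3 ≤ q) : ∃ U ≤ S.SIsom, Nat.card U = q ^ 3 ∧ ⁅U.comap π, U.comap π⁆ ⊓ π.ker = ⊥ := by
  obtain ⟨e, f, w, c, ζ, Hy, h, U, -⟩ := hS.exists_U3 hne h3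
  let B := S.SIsom ⊓ S.stab (F ∙ e)
  have hs : Function.Surjective (π.subgroupComap B) := fun g => by
    obtain ⟨x, hx⟩ := hr.ge g.2.1
    exact ⟨⟨x, by rw [mem_comap, hx]; exact g.2⟩, Subtype.ext hx⟩
  have := heis_comm hσ U.hs hne hF hq hs (fun x hx => mem_center_iff.2 fun y => Subtype.ext
    (mem_center_iff.1 (hc (congrArg Subtype.val hx)) y)) U.prim U.act_h
  refine ⟨(hsU hσ U.hs).map B.subtype, (map_subtype_le _).trans inf_le_left, by
    rw [card_map_of_injective B.subtype_injective, card_hsU hσ U.hs hne hF], eq_bot_iff.2 fun z hz => ?_⟩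
  have e : ((hsU hσ U.hs).map B.subtype).comap π = ((hsU hσ U.hs).comap (π.subgroupComap B)).map (Subgroup.subtype _) := by
    ext x
    refine ⟨fun ⟨y, hy, e⟩ => ?_, ?_⟩
    · have m : x ∈ B.comap π := by rw [mem_comap, ← e]; exact y.2
      exact ⟨⟨x, m⟩, by rw [SetLike.mem_coe, mem_comap, show π.subgroupComap B ⟨x, m⟩ = y from Subtype.ext e.symm]; exact hy, rfl⟩
    · rintro ⟨y, hy, rfl⟩; exact ⟨_, hy, rfl⟩
  rw [e, ← map_commutator] at hz
  obtain ⟨⟨y, hy, rfl⟩, h1⟩ := hz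
  exact congrArg Subtype.val (this.le ⟨hy, Subtype.ext h1⟩)

omit h3 hne hS hF in
theorem su3_M {x y : V} (xx : S.h x x = 1) (yy : S.h y y = 1) (xy : S.h x y = 0) {φ : S.Isom → E} (h : Sc π (SA S (F ∙ x)) φ)
    (hu : Uq π (SA S (F ∙ x))) : ⁅(S.stab (F ∙ x) ⊓ S.SIsom).comap π, (S.stab (F ∙ x) ⊓ S.SIsom).comap π⁆ ⊓ π.ker = ⊥ := by
  obtain ⟨ε, hε⟩ := IsCyclic.exists_generator (α := normOne σ)
  have m : dn xx ε * dn yy ε⁻¹ ∈ S.SIsom := MonoidHom.mem_ker.2 (by rw [map_mul, det_dn, det_dn]; simp)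
  obtain ⟨g, hg⟩ := hr.ge m
  have gx : (π g).1 x = (ε.1 : F) • x := by rw [hg, isom_mul_apply, dn_perp yy _ (S.h_swap_zero xy), dn_self]
  have gx' : (π g⁻¹).1 x = (ε⁻¹.1 : F) • x := by
    rw [map_inv, ← one_smul F x, ← show (ε⁻¹.1 : F) * ε.1 = 1 by simp, mul_smul, ← gx, map_smul, isom_inv_apply_self, gx]; simp
  refine comm_inf_ker hc (L := h.1.hom.range) (by
    rintro _ ⟨k, rfl⟩ e
    rw [show k = 1 from Subtype.ext ((h.2 _ k.2).symm.trans e), map_one]) (g := g) (by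
      rintro _ ⟨k, rfl⟩
      refine ⟨⟨_, SA_conj gx' k.2⟩, ?_⟩
      rw [eq_comm, mul_inv_eq_iff_eq_mul, ← eq_inv_mul_iff_mul_eq, ← mul_assoc]
      simpa [HomOn.hom] using Sc.conj' hu h h g⁻¹ (fun _ => SA_conj gx') k.2) fun a ha => ?_
  obtain ⟨c, hc⟩ := mem_stab_line.1 ha.1
  have h1 := isom_h a x x
  rw [hc, S.h_smul_left, S.h_smul_right, xx, mul_one] at h1
  obtain ⟨i, hi⟩ := mem_powers_iff_mem_zpowers.2 (hε ⟨Units.mk0 c (by rintro rfl; simp at h1), h1⟩)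
  have e : (π g ^ i).1 x = a.1 x := by rw [U3.pow_eig gx, hc]; congr 1; simpa using congrArg (fun t : normOne σ => (t.1 : F)) hi
  have m' : (π g ^ i)⁻¹ * a ∈ SA S (F ∙ x) := ⟨S.SIsom.mul_mem (S.SIsom.inv_mem (S.SIsom.pow_mem (hg ▸ m) i)) ha.2, mem_fix_span.2 (by
    intro _ h
    rw [h, isom_mul_apply, ← e, isom_inv_apply_self])⟩
  rw [← mul_inv_cancel_left (π g ^ i) a]
  exact mul_mem (mem_sup_right (npow_mem_zpowers _ i)) (mem_sup_left ⟨φ _, ⟨⟨_, m'⟩, rfl⟩, h.2 _ m'⟩)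

omit hc hr [Finite E] in
theorem su3_cyc {Φ r : ℕ} (hΦ : Φ + q = q ^ 2 + 1) (hp : r.Prime) (h : r ∣ Φ) (h' : r ≠ 3) :
    ∃ P ≤ S.SIsom, IsCyclic P ∧ ∃ k, ¬ r ∣ k ∧ Nat.card P * k = Nat.card S.SIsom := by
  have := Fact.mk hp
  have : Finite V := Module.finite_of_finite F
  have : Finite S.Isom := Finite.of_injective (fun g : S.Isom => (g.1 : V → V)) fun _ _ h => isom_ext (congrFun h)
  obtain ⟨P⟩ := Sylow.nonempty (p := r) (G := S.SIsom)
  refine ⟨P.1.map S.SIsom.subtype, map_subtype_le _, ?_, P.1.index, P.not_dvd_index, by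
    rw [card_map_of_injective (subtype_injective _), card_mul_index]⟩
  suffices IsCyclic P.1 from isCyclic_of_surjective _ (P.1.equivMapOfInjective _ (subtype_injective _)).surjective
  rcases subsingleton_or_nontrivial P.1 with _ | _
  · infer_instance
  have := P.isPGroup'.center_nontrivial
  obtain ⟨x, hx⟩ := exists_prime_orderOf_dvd_card' (G := center P.1) r
    ((P.isPGroup'.to_subgroup _).card_eq_or_dvd.resolve_left Finite.one_lt_card.ne')
  obtain ⟨e, f, H⟩ := hS.unit_exists_hyp hne (by omega)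
  have o : orderOf x.1.1.1 = r := by rw [orderOf_coe, orderOf_coe, orderOf_coe, hx]
  have ne := H25.NE_of_prime hne hS h3 hF hΦ ((H.unit_SIsom_eq_E hne hS).le x.1.1.2) (by rwa [o]) (by rwa [o]) (by rwa [o])
  have := (ne.isField hS h3).isDomain
  letI := (ne.isField hS h3).toField
  refine isCyclic_of_injective_ringHom (((H25.toE S).comp (S.SIsom.subtype.comp P.1.subtype)).codRestrict
    (Subalgebra.centralizer F {H25.toE S x.1.1.1}) fun g => ?_) fun a b e => Subtype.ext (Subtype.ext (H25.toE_inj (congrArg Subtype.val e)))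
  rintro _ rfl
  exact (map_mul _ _ _).symm.trans ((congrArg (fun t : P.1 => H25.toE S t.1.1) (mem_center_iff.1 x.2 g).symm).trans (map_mul _ _ _))

theorem su3_three {p m : ℕ} [CharP F p] (hm : p.Coprime m) (hz : ∀ z, π z = 1 → z ^ m = 1) (h2 : ∀ z, π z = 1 → z ^ 2 = 1 → z = 1) :
    ∃ N ≤ S.SIsom, 3 * (q + 1) ^ 2 ∣ Nat.card N ∧ ⁅N.comap π, N.comap π⁆ ⊓ π.ker = ⊥ := by
  obtain ⟨a, b, c, aa, bb, cc, ab, ac, bc⟩ := exists_onb hne hS h3
  have ba := S.h_swap_zero ab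
  have ca := S.h_swap_zero ac
  have cb := S.h_swap_zero bc
  choose Φ hΦ using fun x (xx : S.h x x = 1) => (sc_line hne hS hF h3 hc hr p hm hz xx).1
  have uq := fun x (xx : S.h x x = 1) => (sc_line hne hS hF h3 hc hr p hm hz xx).2
  have cj : ∀ {u v w u' v' w' : V} (uu : S.h u u = 1) (vv : S.h v v = 1) (ww : S.h w w = 1) (uu' : S.h u' u' = 1) (vv' : S.h v' v' = 1)
      (ww' : S.h w' w' = 1), S.h u' w' = 0 → S.h v' w' = 0 → ∀ (e : E) {κ κ' κ'' : F}, (π e).1 u = κ • u' → (π e).1 v = κ' • v' →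
      (π e).1 w = κ'' • w' → ∀ γ, e * Φ w ww (dn uu γ * dn vv γ⁻¹) * e⁻¹ = Φ w' ww' (dn uu' γ * dn vv' γ⁻¹) :=
    fun uu vv ww uu' vv' ww' h1 h2 e _ _ _ e1 e2 e3 γ => by
    rw [Sc.conj' (uq _ ww') (hΦ _ ww) (hΦ _ ww') e (fun _ => SA_conj e3) (dn_mem uu' vv' h1 h2 γ), mul_assoc (π e)⁻¹, mul_assoc (dn uu' γ),
      ← dn_conj vv vv' e2, ← mul_assoc (dn uu' γ), ← dn_conj uu uu' e1, mul_assoc (π e), inv_mul_cancel_left]
  have iv : ∀ {u v w : V} (uu : S.h u u = 1) (vv : S.h v v = 1) (ww : S.h w w = 1), S.h u w = 0 → S.h v w = 0 → ∀ γ,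
      Φ w ww (dn vv γ * dn uu γ⁻¹) = (Φ w ww (dn uu γ * dn vv γ⁻¹))⁻¹ := fun uu vv ww h1 h2 γ => by
    rw [← (hΦ _ ww).1.inv (dn_mem uu vv h1 h2 γ)]; simp
  have sw : ∀ {u v : V}, S.h u u = 1 → S.h v v = 1 → S.h u v = 0 → ∃ g : S.Isom, (S.detHom g : F) = -1 ∧ g.1 u = v ∧ g.1 v = u ∧
      ∀ w, S.h u w = 0 → S.h v w = 0 → g.1 w = w := fun {u v} uu vv uv => by
    have qc : S.QCond (u - v) 1 := ⟨one_ne_zero, (S.unit_congr_iff _ _).2 (by simp [uu, vv, uv, S.h_swap_zero uv])⟩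
    exact ⟨S.qrefl (u - v) 1, by simp [det_qrefl qc], by simp [qrefl_apply qc, uu, S.h_swap_zero uv], by simp [qrefl_apply qc, vv, uv],
      fun w h1 h2 => qrefl_apply_of_perp (by simp [h1, h2])⟩
  obtain ⟨g1, d1, a1, b1, c1⟩ := sw aa bb ab
  obtain ⟨g2, d2, b2, c2, a2⟩ := sw bb cc bc
  let n1 : normOne σ := ⟨-1, by simp [mem_normOne]⟩
  obtain ⟨w, hw⟩ := hr.ge (show g1 * dn cc n1 ∈ S.SIsom from Units.ext (by simp [det_dn, d1, n1]))
  obtain ⟨ρ, hρ⟩ := hr.ge (show g1 * g2 ∈ S.SIsom from Units.ext (by simp [d1, d2]))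
  have ρa : (π ρ).1 a = (1 : F) • b := by rw [hρ, isom_mul_apply, a2 a ba ca, a1, one_smul]
  have ρb : (π ρ).1 b = (1 : F) • c := by rw [hρ, isom_mul_apply, b2, c1 c ac bc, one_smul]
  have ρc : (π ρ).1 c = (1 : F) • a := by rw [hρ, isom_mul_apply, c2, b1, one_smul]
  have wa : (π w).1 a = (1 : F) • b := by rw [hw, isom_mul_apply, dn_perp cc _ ca, a1, one_smul]
  have wb : (π w).1 b = (1 : F) • a := by rw [hw, isom_mul_apply, dn_perp cc _ cb, b1, one_smul]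
  have wc : (π w).1 c = (-1 : F) • c := by rw [hw, isom_mul_apply, dn_self, map_smul, c1 c ac bc]; rfl
  have mk : ∀ {u v w : V} (uu : S.h u u = 1) (vv : S.h v v = 1) (ww : S.h w w = 1), S.h u v = 0 → S.h u w = 0 → S.h v w = 0 →
      ∃ f : normOne σ →* E, ∀ γ, f γ = Φ w ww (dn uu γ * dn vv γ⁻¹) ∧ π (f γ) = dn uu γ * dn vv γ⁻¹ := fun uu vv ww h1 h2 h3 =>
    ⟨MonoidHom.mk' (fun γ => Φ _ ww (dn uu γ * dn vv γ⁻¹)) fun γ γ' => by
      rw [← (hΦ _ ww).1 _ (dn_mem uu vv h2 h3 γ) _ (dn_mem uu vv h2 h3 γ'), mul_inv, map_mul, map_mul,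
        (dn_comm uu vv h1 _ _).mul_mul_mul_comm], fun γ => ⟨rfl, (hΦ _ ww).2 _ (dn_mem uu vv h2 h3 γ)⟩⟩
  obtain ⟨A, hA⟩ := mk aa bb cc ab ac bc
  obtain ⟨B, hB⟩ := mk bb cc aa bc ba ca
  obtain ⟨C, hC⟩ := mk cc aa bb ca cb ab
  have δ : ∀ γ, A γ * B γ * C γ = 1 := fun γ => by
    have k : π (A γ * B γ * C γ) = 1 := by simp [(hA _).2, (hB _).2, (hC _).2]
    have z := mem_center_iff.1 (hc k)
    have e1 : w * A γ * w⁻¹ = (A γ)⁻¹ := by rw [(hA _).1, cj aa bb cc bb aa cc bc ac w wa wb wc, iv aa bb cc ac bc]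
    have e2 : w * B γ * w⁻¹ = (C γ)⁻¹ := by rw [(hB _).1, (hC _).1, cj bb cc aa aa cc bb ab cb w wb wc wa, iv cc aa bb cb ab]
    have e3 : w * C γ * w⁻¹ = (B γ)⁻¹ := by rw [(hB _).1, (hC _).1, cj cc aa bb cc bb aa ca ba w wc wa wb, iv bb cc aa ba ca]
    refine h2 _ k ?_
    rw [sq]
    nth_rw 2 [← mul_inv_cancel_right (A γ * B γ * C γ) w]
    rw [← z w, show w * (A γ * B γ * C γ) * w⁻¹ = w * A γ * w⁻¹ * (w * B γ * w⁻¹) * (w * C γ * w⁻¹) by group, e1, e2, e3, ← mul_assoc,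
      ← mul_assoc, ← z]
    group
  have mA : ∀ γ, π (A γ) ∈ S.stab (F ∙ a) ⊓ S.SIsom := fun γ => ⟨mem_stab_line.2 ⟨γ.1, by
    rw [(hA _).2, isom_mul_apply, dn_perp bb _ ba, dn_self]⟩, hr.le ⟨_, rfl⟩⟩
  have mB : ∀ γ, π (B γ) ∈ S.stab (F ∙ a) ⊓ S.SIsom := fun γ => ⟨mem_stab_line.2 ⟨1, by
    rw [(hB _).2, isom_mul_apply, dn_perp cc _ ca, dn_perp bb _ ba, one_smul]⟩, hr.le ⟨_, rfl⟩⟩
  have cm : ∀ γ γ', Commute (A γ) (B γ') := fun γ γ' => commutatorElement_eq_one_iff_commute.1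
    ((su3_M hc hr aa bb ab (hΦ a aa) (uq a aa)).le ⟨commutator_mem_commutator (mA γ) (mB γ'), MonoidHom.mem_ker.2 <| by
      rw [map_commutatorElement, commutatorElement_eq_one_iff_commute, (hA _).2, (hB _).2]
      exact ((dn_comm aa bb ab _ _).mul_right (dn_comm aa cc ac _ _)).mul_left
        (((Commute.all _ _).map _).mul_right (dn_comm bb cc bc _ _))⟩)
  let τ := A.noncommCoprod B cm
  have inj : ∀ x, π (τ x) = 1 → x = 1 := fun x e => by
    rw [MonoidHom.noncommCoprod_apply, map_mul, (hA _).2, (hB _).2] at e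
    have e1 := congrArg (fun g => S.h a (g.1 a)) e
    have e2 := congrArg (fun g => S.h c (g.1 c)) e
    simp only [isom_mul_apply, dn_perp cc _ ca, dn_perp bb _ ba, dn_perp bb _ bc, dn_perp aa _ ac, dn_self, map_smul] at e1 e2
    simp [aa, cc] at e1 e2
    exact Prod.ext e1 e2
  have nm : ∀ l ∈ τ.range, ρ * l * ρ⁻¹ ∈ τ.range := by
    rintro _ ⟨x, rfl⟩
    have e1 : ρ * A x.1 * ρ⁻¹ = τ (1, x.1) := by
      rw [(hA _).1, cj aa bb cc bb cc aa ba ca ρ ρa ρb ρc, ← (hB _).1]; simp [τ]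
    have e2 : ρ * B x.2 * ρ⁻¹ = (τ (x.2, x.2))⁻¹ := by
      rw [(hB _).1, cj bb cc aa cc aa bb cb ab ρ ρb ρc ρa, ← (hC _).1]; exact eq_inv_of_mul_eq_one_right (δ _)
    rw [MonoidHom.noncommCoprod_apply, ← conj_mul, e1, e2]
    exact mul_mem ⟨_, rfl⟩ (inv_mem ⟨_, rfl⟩)
  refine ⟨τ.range.map π ⊔ zpowers (π ρ), hr ▸ sup_le (map_le_range _ _) (zpowers_le.2 ⟨_, rfl⟩), ?_,
    comm_inf_ker hc (by rintro _ ⟨x, rfl⟩ e; rw [inj x e, map_one]) nm le_rfl⟩
  rw [← card_mul_rel le_sup_left, mul_comm 3]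
  refine mul_dvd_mul (Eq.dvd ?_) ?_
  · rw [← MonoidHom.range_comp, ← Nat.card_congr (MonoidHom.ofInjective ((injective_iff_map_eq_one (π.comp τ)).2 inj)).toEquiv,
      Nat.card_prod, card_normOne_unit hσ hne hF, sq]
  have : Finite (τ.range.map π) := Finite.Set.finite_image _ _
  have := normal_subgroupOf_of_le_normalizer (H := τ.range.map π ⊔ zpowers (π ρ)) (N := τ.range.map π) (sup_le le_normalizer
    (zpowers_le.2 (mem_normalizer_fintype (by rintro _ ⟨l, hl, rfl⟩; exact ⟨_, nm l hl, by simp⟩))))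
  have m : π ρ ^ (τ.range.map π).relIndex (τ.range.map π ⊔ zpowers (π ρ)) ∈ S.stab (F ∙ a) := by
    obtain ⟨_, ⟨x, rfl⟩, e⟩ := pow_index_mem ((τ.range.map π).subgroupOf (τ.range.map π ⊔ zpowers (π ρ))) ⟨π ρ, mem_sup_right (mem_zpowers _)⟩
    exact (show π (τ x) = π ρ ^ _ from e) ▸ (by rw [MonoidHom.noncommCoprod_apply, map_mul]; exact mul_mem (mA _).1 (mB _).1)
  generalize (τ.range.map π).relIndex _ = j at m
  obtain ⟨t, ht⟩ := mem_stab_line.1 m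
  have k : ∀ i, (π ρ ^ (3 * i)).1 a = a := fun i => by
    rw [pow_mul, U3.pow_eig (t := 1) (by simp [pow_succ, ρa, ρb, ρc])]; simp
  by_contra h
  obtain ⟨i, rfl | rfl⟩ : ∃ i, j = 1 + 3 * i ∨ j = 2 + 3 * i := ⟨j / 3, by omega⟩
  all_goals rw [pow_add, isom_mul_apply, k] at ht
  · simpa [ρa, ba, bb] using congrArg (S.h b) ht
  · simpa [ρa, ρb, ca, cc, sq] using congrArg (S.h c) ht

theorem su3_ker (hq : 3 ≤ q) (hp : π.ker ≤ commutator E) {z : E} (hz : π z = 1) : z = 1 := by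
  obtain ⟨Φ, hΦ⟩ : ∃ Φ, Φ + q = q ^ 2 + 1 := ⟨q ^ 2 + 1 - q, Nat.sub_add_cancel (by nlinarith)⟩
  obtain ⟨r, rfl, cG⟩ := card_su3 hne hS hF h3 hΦ
  obtain rfl : Φ = r ^ 2 + r + 1 := by nlinarith
  have := Fintype.ofFinite F
  obtain ⟨p, hp'⟩ := CharP.exists F
  obtain ⟨n, pp, hn⟩ := FiniteField.card F p
  rw [← Nat.card_eq_fintype_card, hF] at hn
  obtain ⟨U, u1, u2, u3⟩ := su3_p hne hS hF h3 hc hr hq
  have k1 : ∀ z, π z = 1 → z ^ (r * (r + 1 + 1) ^ 2 * (r ^ 2 + r + 1)) = 1 := fun z hz =>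
    pow_of_card hc hp (hr ▸ u1) u3 (by rw [hr, u2, cG]; ring) hz
  have c1 : (r + 1).Coprime (r * (r + 1 + 1) ^ 2 * (r ^ 2 + r + 1)) :=
    ((by simp : (r + 1).Coprime r).mul_right ((by simp : (r + 1).Coprime (r + 1 + 1)).pow_right 2)).mul_right (by
      rw [show r ^ 2 + r + 1 = 1 + r * (r + 1) by ring]; simp)
  have c2 := c1.coprime_dvd_left (pp.dvd_of_dvd_pow (n := 2) (hn ▸ dvd_pow_self p n.ne_zero))
  obtain ⟨a, b, -, aa, bb, -, ab, -⟩ := exists_onb hne hS h3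
  obtain ⟨⟨φ, h⟩, hu⟩ := sc_line hne hS hF h3 hc hr p c2 k1 aa
  obtain ⟨_, e, cM⟩ := card_stab_line hne hS hF h3 aa
  obtain rfl := Nat.succ_injective e
  have k2 : ∀ z, π z = 1 → z ^ (r ^ 2 + r + 1) = 1 := fun z hz => by
    have := pow_of_card hc hp (hr ▸ inf_le_right) (su3_M hc hr aa bb ab h hu) (k := (r + 1) ^ 2 * (r ^ 2 + r + 1)) (by rw [hr, cM, cG]; ring) hz
    exact orderOf_dvd_iff_pow_eq_one.1 (((c1.coprime_dvd_right (orderOf_dvd_of_pow_eq_one (k1 z hz))).symm.pow_right 2).dvd_of_dvd_mul_left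
      (orderOf_dvd_of_pow_eq_one this))
  by_contra z1
  obtain ⟨s, hs, hd⟩ := Nat.exists_prime_and_dvd (mt orderOf_eq_one_iff.1 z1)
  have o := orderOf_pow_orderOf_div (orderOf_pos z).ne' hd
  have hy : π (z ^ (orderOf z / s)) = 1 := by rw [map_pow, hz, one_pow]
  have d := o ▸ orderOf_dvd_of_pow_eq_one (k2 _ hy)
  by_cases h' : s = 3
  swap
  · obtain ⟨P, p1, _, k, p2, p3⟩ := su3_cyc hne hS hF h3 hΦ hs d h'
    exact p2 (o ▸ orderOf_dvd_of_pow_eq_one (pow_of_card hc hp (hr ▸ p1) (by rw [H13.comm_comap_of_isCyclic hc, bot_inf_eq]) (hr ▸ p3) hy))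
  subst h'
  obtain ⟨N, n1, ⟨j, n2⟩, n3⟩ := su3_three hne hS hF h3 hc hr c2 k1 fun z hz e => by
    have := pow_gcd_eq_one.2 ⟨e, k2 z hz⟩
    rwa [Nat.Coprime.gcd_eq_one ((Nat.coprime_two_left).2 (by rw [sq, ← Nat.mul_succ]; exact (Nat.even_mul_succ_self r).add_one)), pow_one] at this
  obtain ⟨i, hi⟩ := o ▸ orderOf_dvd_of_pow_eq_one (pow_of_card hc hp (hr ▸ n1) n3 (card_mul_rel (hr ▸ n1)) hy)
  have e1 := card_mul_rel n1
  rw [← hr, hi, hr, n2, cG] at e1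
  have e2 : 9 ∣ (r + 1) ^ 3 * r * (r ^ 2 + r + 1) := ⟨j * i, Nat.eq_of_mul_eq_mul_left (show 0 < (r + 1 + 1) ^ 2 by positivity) (by linarith)⟩
  refine H25.not_nine_Phi hΦ (Nat.Coprime.dvd_of_dvd_mul_left (Nat.Coprime.pow_left 2 ((Nat.Prime.coprime_iff_not_dvd Nat.prime_three).2 ?_)) e2)
  rw [← ZMod.natCast_eq_zero_iff] at d ⊢
  push_cast at d ⊢
  generalize (r : ZMod 3) = y at d ⊢
  revert y; decide

omit hc hr [Finite E] in
theorem schur_su3 (hq : 3 ≤ q) : Cfsg.HasCyclicSchurMultiplier S.SIsom 1 := by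
  have : Finite V := Module.finite_of_finite F
  have : Finite S.Isom := Finite.of_injective (fun g : S.Isom => (g.1 : V → V)) fun _ _ h => isom_ext (congrFun h)
  refine H21.schur_trivial_of_forall_stem fun Γ _ _ s hs => eq_bot_iff.2 fun z hz => ?_
  have k := MonoidHom.ker_comp_of_injective s _ S.SIsom.subtype_injective
  exact su3_ker hne hS hF h3 (π := S.SIsom.subtype.comp s) (k ▸ hs.2.1) (by
    rw [MonoidHom.range_comp, MonoidHom.range_eq_top.2 hs.1, ← MonoidHom.range_eq_map, range_subtype]) hq (k ▸ hs.2.2) (congrArg Subtype.val hz)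

omit hne hS hF h3 hc hr [Finite E] [Finite F] in
theorem schur_SU3 [Fintype F] {q : ℕ} (hF : Fintype.card F = q ^ 2) (hq : 3 ≤ q) : Cfsg.HasCyclicSchurMultiplier (Cfsg.SU 3 F q) 1 := by
  obtain ⟨σ, h1, hσ, hne⟩ := exists_frob hF
  exact H21.schur_congr_left (schur_su3 hne (stdUnit_nondeg hσ hne _) (Nat.card_eq_fintype_card.trans hF) (by simp) hq) (suEquiv hσ hne h1 3).symm

omit hne hS hF h3 hc hr [Finite E] [Finite F] in
theorem schur_PSU_of [Fintype F] {n q : ℕ} (hF : Fintype.card F = q ^ 2) (hn : 3 ≤ n) (h3 : ¬ (n = 3 ∧ q = 2))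
    (h : Cfsg.HasCyclicSchurMultiplier (Cfsg.SU n F q) 1) : Cfsg.HasCyclicSchurMultiplier (Cfsg.PSU n F q) (Nat.gcd n (q + 1)) := by
  obtain ⟨σ, h1, hσ, hne⟩ := exists_frob hF
  have hF' := Nat.card_eq_fintype_card.trans hF
  have hS := stdUnit_nondeg hσ hne (Fin n)
  have := isCyclic_center_SU hF (n := n) (by omega)
  let e := suEquiv hσ hne h1 n
  refine schur_quot h ?_ ?_
  · have := congrArg (Subgroup.map e.symm.toMonoidHom) (su_perf hne hS hF' (.inl (by simpa using ⟨hn, by omega⟩)))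
    rwa [commutator_def, map_commutator, map_top_of_surjective _ e.symm.surjective] at this
  · rw [Nat.card_congr (subgroupEquivOfIff e (mem_center_iff_equiv _)).toEquiv, hS.unit_card_center hne hF' (n := n) (by simp) (by omega)]

omit hne hS hF h3 hc hr [Finite E] [Finite F] in
theorem schur_PSU3 [Fintype F] {q : ℕ} (hF : Fintype.card F = q ^ 2) (hq : 3 ≤ q) :
    Cfsg.HasCyclicSchurMultiplier (Cfsg.PSU 3 F q) (Nat.gcd 3 (q + 1)) := schur_PSU_of hF le_rfl (by omega) (schur_SU3 hF hq)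

end H24
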