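import Cfsg.Agent.H24.HP
import Cfsg.Agent.H12.TwD4
import Cfsg.Agent.H12.Coll

/-! The unipotent radical `q^{1+8}` of `³D₄(q)`: relations in `D₄` (`Pd_mul`, `Rd_mul`, `Rd_Pd`, `Ad_x`), membership in
`twistedD4`, and the two polynomial facts `exists_tr_one`, `exists_cubic_root`. -/

set_option autoImplicit false

namespace H24
open H12 H12.StSys Cfsg.Lie H13 Polynomial

section rel
variable {F Γ : Type*} [Field F] [Group Γ] (S : StSys chevD4 F Γ)

theorem exists_v8 (a b c d e f g h : F) : ∃ v : ℕ →* F, v 2 = a ∧ v 3 = b ∧ v 5 = c ∧ v 7 = d ∧ v 11 = e ∧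
    v 13 = f ∧ v 17 = g ∧ v 19 = h := by
  obtain ⟨v, hv⟩ := exists_v fun p => if p = 2 then a else if p = 3 then b else if p = 5 then c else
    if p = 7 then d else if p = 11 then e else if p = 13 then f else if p = 17 then g else h
  exact ⟨v, hv 2 (by norm_num), hv 3 (by norm_num), hv 5 (by norm_num), hv 7 (by norm_num), hv 11 (by norm_num),
    hv 13 (by norm_num), hv 17 (by norm_num), hv 19 (by norm_num)⟩

/-- first half of the radical -/
noncomputable def Pd (t a b c : F) : Γ := S.xN 14 t * (S.xN 19 a * (S.xN 16 b * S.xN 15 c))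
/-- second half of the radical -/
noncomputable def Rd (a b c t : F) : Γ := S.xN 21 a * (S.xN 20 b * (S.xN 17 c * S.xN 22 t))
/-- the short simple root elements -/
noncomputable def Ad (a b c : F) : Γ := S.xN 18 a * (S.xN 13 b * S.xN 12 c)

open Ex

theorem Pd_mul (t a b c t' a' b' c' : F) :
    Pd S t a b c * Pd S t' a' b' c' = Pd S (t + t') (a + a') (b + b') (c + c') := by
  obtain ⟨v, rfl, rfl, rfl, rfl, rfl, rfl, rfl, rfl⟩ := exists_v8 t a b c t' a' b' c'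
  simpa [Pd, mul_assoc] using S.eq_of_coll v (Or.inl rfl) (key := id) (n := 30)
    (w := [(14, var 2), (19, var 3), (16, var 5), (15, var 7), (14, var 11), (19, var 13), (16, var 17), (15, var 19)])
    (w' := [(14, var 2 + var 11), (19, var 3 + var 13), (16, var 5 + var 17), (15, var 7 + var 19)])
    (by rw [tabD4_eq]; decide +kernel)

theorem Rd_mul (t a b c t' a' b' c' : F) :
    Rd S a b c t * Rd S a' b' c' t' = Rd S (a + a') (b + b') (c + c') (t + t') := by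
  obtain ⟨v, rfl, rfl, rfl, rfl, rfl, rfl, rfl, rfl⟩ := exists_v8 t a b c t' a' b' c'
  simpa [Rd, mul_assoc] using S.eq_of_coll v (Or.inl rfl) (key := id) (n := 30)
    (w := [(21, var 3), (20, var 5), (17, var 7), (22, var 2), (21, var 13), (20, var 17), (17, var 19), (22, var 11)])
    (w' := [(21, var 3 + var 13), (20, var 5 + var 17), (17, var 7 + var 19), (22, var 2 + var 11)])
    (by rw [tabD4_eq]; decide +kernel)

theorem Rd_Pd (t a b c t' a' b' c' : F) :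
    Rd S a b c t * Pd S t' a' b' c' =
      Pd S t' a' b' c' * Rd S a b c t * S.xN 23 (a' * c + b' * b + c' * a + -(t * t')) := by
  obtain ⟨v, rfl, rfl, rfl, rfl, rfl, rfl, rfl, rfl⟩ := exists_v8 t a b c t' a' b' c'
  simpa [Rd, Pd, mul_assoc] using S.eq_of_coll v (Or.inl rfl) (key := id) (n := 30)
    (w := [(21, var 3), (20, var 5), (17, var 7), (22, var 2), (14, var 11), (19, var 13), (16, var 17), (15, var 19)])
    (w' := [(14, var 11), (19, var 13), (16, var 17), (15, var 19), (21, var 3), (20, var 5), (17, var 7), (22, var 2),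
      (23, var 13 * var 7 + var 17 * var 5 + var 19 * var 3 + cst (-1) * (var 2 * var 11))])
    (by rw [tabD4_eq]; decide +kernel)

theorem Ad_x (t a b c : F) : Ad S a b c * S.xN 14 t =
    Pd S t (-(t * a)) (t * b) (t * c) * Rd S (-(t * (a * b))) (-(t * (c * a))) (t * (b * c)) (-(t * (a * b * c))) *
      S.xN 23 (-(t * t * (a * b * c))) * Ad S a b c := by
  obtain ⟨v, rfl, rfl, rfl, rfl, -⟩ := exists_v8 t a b c 0 0 0 0
  simpa [Rd, Pd, Ad, mul_assoc] using S.eq_of_coll v (Or.inl rfl) (key := id) (n := 30)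
    (w := [(18, var 3), (13, var 5), (12, var 7), (14, var 2)])
    (w' := [(14, var 2), (19, cst (-1) * (var 2 * var 3)), (16, var 2 * var 5), (15, var 2 * var 7),
      (21, cst (-1) * (var 2 * (var 3 * var 5))), (20, cst (-1) * (var 2 * (var 7 * var 3))), (17, var 2 * (var 5 * var 7)),
      (22, cst (-1) * (var 2 * (var 3 * var 5 * var 7))), (23, cst (-1) * (var 2 * var 2 * (var 3 * var 5 * var 7))),
      (18, var 3), (13, var 5), (12, var 7)])
    (by rw [tabD4_eq]; decide +kernel)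

theorem z_comm (r : ℕ) (h : r ∈ [12, 13, 14, 15, 16, 17, 18, 19, 20, 21, 22]) (a b : F) :
    Commute (S.xN 23 a) (S.xN r b) := by
  obtain ⟨v, rfl, rfl, -⟩ := exists_v8 a b 0 0 0 0 0 0
  simpa [Commute, SemiconjBy] using S.eq_of_coll v (Or.inl rfl) (key := id) (n := 30)
    (w := [(23, var 2), (r, var 3)]) (w' := [(r, var 3), (23, var 2)])
    (by revert r; rw [tabD4_eq]; decide +kernel)

theorem z_Pd (c t a b d : F) : Commute (S.xN 23 c) (Pd S t a b d) := by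
  simp only [Pd]
  apply_rules [Commute.mul_right, z_comm] <;> simp

theorem z_Rd (c t a b d : F) : Commute (S.xN 23 c) (Rd S a b d t) := by
  simp only [Rd]
  apply_rules [Commute.mul_right, z_comm] <;> simp

theorem z_Ad (c a b d : F) : Commute (S.xN 23 c) (Ad S a b d) := by
  simp only [Ad]
  apply_rules [Commute.mul_right, z_comm] <;> simp

theorem PR_mul (t a b c a' b' c' t' s d e f d' e' f' s' : F) :
    Pd S t a b c * Rd S a' b' c' t' * (Pd S s d e f * Rd S d' e' f' s') =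
      Pd S (t + s) (a + d) (b + e) (c + f) * Rd S (a' + d') (b' + e') (c' + f') (t' + s') *
        S.xN 23 (d * c' + e * b' + f * a' + -(t' * s)) := by
  rw [mul_assoc, ← mul_assoc (Rd S _ _ _ _), Rd_Pd, mul_assoc (_ * _), (z_Rd S _ _ _ _ _).eq, ← Pd_mul, ← Rd_mul]
  simp only [mul_assoc]

theorem Pd_perm (t a b c : F) : S.xN 14 t * (S.xN 16 b * (S.xN 15 c * S.xN 19 a)) = Pd S t a b c := by
  obtain ⟨v, rfl, rfl, rfl, rfl, -⟩ := exists_v8 t a b c 0 0 0 0
  simpa [Pd] using S.eq_of_coll v (Or.inl rfl) (key := id) (n := 30)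
    (w := [(14, var 2), (16, var 5), (15, var 7), (19, var 3)])
    (w' := [(14, var 2), (19, var 3), (16, var 5), (15, var 7)]) (by rw [tabD4_eq]; decide +kernel)

theorem Rd_perm (t a b c : F) : S.xN 17 c * (S.xN 21 a * (S.xN 20 b * S.xN 22 t)) = Rd S a b c t := by
  obtain ⟨v, rfl, rfl, rfl, rfl, -⟩ := exists_v8 t a b c 0 0 0 0
  simpa [Rd] using S.eq_of_coll v (Or.inl rfl) (key := id) (n := 30)
    (w := [(17, var 7), (21, var 3), (20, var 5), (22, var 2)])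
    (w' := [(21, var 3), (20, var 5), (17, var 7), (22, var 2)]) (by rw [tabD4_eq]; decide +kernel)

theorem Ad_perm (a b c : F) : S.xN 13 b * (S.xN 12 c * S.xN 18 a) = Ad S a b c := by
  obtain ⟨v, rfl, rfl, rfl, -⟩ := exists_v8 a b c 0 0 0 0 0
  simpa [Ad] using S.eq_of_coll v (Or.inl rfl) (key := id) (n := 30)
    (w := [(13, var 3), (12, var 5), (18, var 2)])
    (w' := [(18, var 2), (13, var 3), (12, var 5)]) (by rw [tabD4_eq]; decide +kernel)

theorem rf_eq_of_tab {D : ChevalleyDatum} [Good D] {r s u : Φ D}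
    (h : ∀ i < (tab D).l, (tab D).ca i u = (tab D).ca i s - (tab D).pr r s * (tab D).ca i r) : rf r s = u :=
  wt_injective (funext fun i => by
    rw [wt_rf, ← pr_tab]
    exact (h i i.2).symm)
end rel

section poly
variable {K : Type*} [Field K] [Fintype K] {q : ℕ} (hK : Fintype.card K = q ^ 3)
include hK

theorem exists_root_of_fixed (f : K[X]) (h1 : f.natDegree = 1 + q + q ^ 2) (h2 : ∀ s, f.eval s ^ q = f.eval s) :
    ∃ s, f.eval s = 0 := by
  have hq := q_pos4 hK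
  obtain ⟨r, rfl⟩ : ∃ r, q = r + 1 := ⟨q - 1, by omega⟩
  by_contra hn
  push Not at hn
  have h3 : (f ^ r).natDegree = r * (1 + (r + 1) + (r + 1) ^ 2) := by rw [natDegree_pow, h1]
  have h4 := eq_of_natDegree_lt_card_of_eval_eq (f ^ r) 1 Function.injective_id (fun s => by
    have := h2 s
    rw [pow_succ] at this
    simpa using mul_right_cancel₀ (hn s) (this.trans (one_mul _).symm)) (by
      rw [h3, hK, natDegree_one, max_eq_left (Nat.zero_le _)]
      nlinarith)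
  rw [h4, natDegree_one] at h3
  nlinarith

variable {φ : K →+* K} (hφ : ∀ t, φ t = t ^ q)
include hφ

theorem phi3 (t : K) : φ (φ (φ t)) = t := by rw [hφ, hφ, hφ, ← pow_mul t q q, ← sq, pow_cube4 hK]

theorem exists_tr_one : ∃ x : K, x + φ x + φ (φ x) = 1 := by
  have hq := q_pos4 hK
  obtain ⟨x, hx⟩ : ∃ x : K, x + φ x + φ (φ x) ≠ 0 := by
    by_contra hn
    push Not at hn
    have h1 : (X + X ^ q + X ^ q ^ 2 : K[X]).natDegree = q ^ 2 := by
      rw [natDegree_add_eq_right_of_natDegree_lt, natDegree_X_pow]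
      rw [natDegree_X_pow]
      refine (natDegree_add_le _ _).trans_lt ?_
      rw [natDegree_X, natDegree_X_pow, max_lt_iff]
      constructor <;> nlinarith
    have h2 := eq_zero_of_natDegree_lt_card_of_eval_eq_zero (X + X ^ q + X ^ q ^ 2 : K[X]) Function.injective_id
      (fun s => by simpa [hφ, ← pow_mul, sq] using hn s) (by rw [h1, hK]; nlinarith)
    rw [h2, natDegree_zero] at h1
    nlinarith
  have h1 : φ (x + φ x + φ (φ x)) = x + φ x + φ (φ x) := by simp only [map_add, phi3 hK hφ]; ring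
  refine ⟨x / (x + φ x + φ (φ x)), ?_⟩
  simp only [map_div₀, h1]
  field_simp

theorem exists_cubic_root {α δ : K} (hα : φ α = α) (hδ : φ δ = δ) (h0 : δ ≠ 0) (β γ : K) :
    ∃ s, α - (s * β + φ (s * β) + φ (φ (s * β))) + (φ s * φ (φ s) * γ + φ (φ s * φ (φ s) * γ) +
      φ (φ (φ s * φ (φ s) * γ))) - s * φ s * φ (φ s) * δ = 0 := by
  have hq := q_pos4 hK
  let g : K[X] := C α - (C β * X ^ 1 + C (φ β) * X ^ q + C (φ (φ β)) * X ^ q ^ 2) +
    (C γ * X ^ (q + q ^ 2) + C (φ γ) * X ^ (q ^ 2 + 1) + C (φ (φ γ)) * X ^ (1 + q))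
  have hg : g.natDegree ≤ q + q ^ 2 := by
    have h : ∀ (a : K) (n : ℕ), n ≤ q + q ^ 2 → (C a * X ^ n).natDegree ≤ q + q ^ 2 := fun a n h =>
      (natDegree_C_mul_X_pow_le a n).trans h
    refine natDegree_add_le_of_degree_le ((natDegree_sub_le _ _).trans (max_le (by simp) ?_)) ?_ <;>
    refine natDegree_add_le_of_degree_le (natDegree_add_le_of_degree_le (h _ _ ?_) (h _ _ ?_)) (h _ _ ?_) <;> nlinarith
  have he : ∀ s, (g - C δ * X ^ (1 + q + q ^ 2)).eval s = α - (s * β + φ (s * β) + φ (φ (s * β))) +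
      (φ s * φ (φ s) * γ + φ (φ s * φ (φ s) * γ) + φ (φ (φ s * φ (φ s) * γ))) - s * φ s * φ (φ s) * δ := fun s => by
    have e2 : s ^ q ^ 2 = φ (φ s) := by rw [hφ, hφ, ← pow_mul, sq]
    simp only [g, eval_sub, eval_add, eval_mul, eval_C, eval_pow, eval_X, pow_add, pow_one, e2, ← hφ, map_mul,
      phi3 hK hφ]
    ring
  obtain ⟨s, hs⟩ := exists_root_of_fixed hK (g - C δ * X ^ (1 + q + q ^ 2)) (by
    rw [natDegree_sub_eq_right_of_natDegree_lt, natDegree_C_mul_X_pow _ _ h0]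
    rw [natDegree_C_mul_X_pow _ _ h0]
    omega) fun s => by
      rw [← hφ, he]
      simp only [map_sub, map_add, map_mul, phi3 hK hφ, hα, hδ]
      ring
  exact ⟨s, he s ▸ hs⟩
end poly

section mem
variable {K : Type*} [Field K] [Fintype K] {q : ℕ} {φ : K →+* K} (hφ : ∀ t, φ t = t ^ q) (hK : Fintype.card K = q ^ 3)

theorem tw4_val (r : Φ chevD4) (h : gD4a.lam r = 1) (t : K) :
    (tw4 φ).ε r * (tw4 φ).ψ r t = gD4a.ε r * φ t := by
  have h1 : (tw4 φ).ψ r t = φ t ^ gD4a.lam r := rfl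
  have h2 : ((tw4 φ).ε r : K) = gD4a.ε r := adTw_ε _ _ _ _ _ r
  rw [h1, h2, h, pow_one]

theorem σ_xN (r : ℕ) (h : r < 24 ∧ gD4a.lam r = 1) (t : K) :
    (tw4 φ).σ ((adS chevD4 K).xN r t) = (adS chevD4 K).xN (gD4a.ρ r) (gD4a.ε r * φ t) := by
  obtain ⟨s, rfl⟩ : ∃ s : Φ chevD4, r = s := ⟨⟨r, h.1⟩, rfl⟩
  rw [xN_val, (tw4 φ).hxf, tw4_val _ h.2, ← xN_val]
  rfl

include hφ hK
theorem mem_of_fix {g : GL chevD4.Idx K} (h1 : g ∈ (adS chevD4 K).U) (h2 : (tw4 φ).σ g = g) : g ∈ twistedD4 K q :=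
  (adm4 hφ hK).U_le cov_ad ⟨h1, gen_le_T _ _ h1, h2⟩

theorem x_mem4 (r : Φ chevD4) (h : gD4a.ρ r = r ∧ gD4a.ε r = 1 ∧ gD4a.lam r = 1) {t : K} (ht : φ t = t) :
    (adS chevD4 K).x r t ∈ twistedD4 K q := by
  rw [eq4 hφ hK]
  exact TwF.x_mem_G1 (Fin.ext h.1) (by rw [tw4_val _ h.2.2, h.2.1, ht]; simp)

theorem xN_mem4 (r : ℕ) (h : r < 24 ∧ gD4a.ρ r = r ∧ gD4a.ε r = 1 ∧ gD4a.lam r = 1) {t : K} (ht : φ t = t) :
    (adS chevD4 K).xN r t ∈ twistedD4 K q := by
  rw [xN_lt _ (show r < chevD4.nroots from h.1)]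
  exact x_mem4 hφ hK _ h.2 ht

theorem n_mem4 (r : Φ chevD4) (h : (gD4a.ρ r = r ∧ gD4a.ε r = 1 ∧ gD4a.lam r = 1) ∧
    gD4a.ρ (ng r) = ng r ∧ gD4a.ε (ng r) = 1 ∧ gD4a.lam (ng r) = 1) {t : Kˣ} (ht : φ t = t) :
    (adS chevD4 K).n r t ∈ twistedD4 K q :=
  mul_mem (mul_mem (x_mem4 hφ hK _ h.1 ht) (x_mem4 hφ hK _ h.2 (by simp [ht]))) (x_mem4 hφ hK _ h.1 ht)

omit hφ hK [Fintype K] in
theorem xN_mem_U (r : ℕ) (h : 12 ≤ r) (t : K) : (adS chevD4 K).xN r t ∈ (adS chevD4 K).U :=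
  xN_mem _ (fun _ => show 24 ≤ 2 * r by omega) t

theorem Pd_mem {t : K} (ht : φ t = t) (u : K) : Pd (adS chevD4 K) t u (-φ u) (-φ (φ u)) ∈ twistedD4 K q := by
  refine mem_of_fix hφ hK (by simp only [Pd]; apply_rules [mul_mem, xN_mem_U] <;> omega) ?_
  rw [Pd, (tw4 φ).mul, (tw4 φ).mul, (tw4 φ).mul, σ_xN, σ_xN, σ_xN, σ_xN, ← Pd, ← Pd_perm]
  · have : gD4a.ρ 14 = 14 ∧ gD4a.ρ 19 = 16 ∧ gD4a.ρ 16 = 15 ∧ gD4a.ρ 15 = 19 ∧ gD4a.ε 14 = 1 ∧ gD4a.ε 19 = -1 ∧
      gD4a.ε 16 = 1 ∧ gD4a.ε 15 = -1 := by decide +kernel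
    simp [this, ht, phi3 hK hφ]
  all_goals first | decide +kernel | apply_rules [mul_mem, xN_mem_T]

theorem Rd_mem {t : K} (ht : φ t = t) (u : K) : Rd (adS chevD4 K) (-φ (φ u)) (-φ u) u t ∈ twistedD4 K q := by
  refine mem_of_fix hφ hK (by simp only [Rd]; apply_rules [mul_mem, xN_mem_U] <;> omega) ?_
  rw [Rd, (tw4 φ).mul, (tw4 φ).mul, (tw4 φ).mul, σ_xN, σ_xN, σ_xN, σ_xN, ← Rd, ← Rd_perm]
  · have : gD4a.ρ 22 = 22 ∧ gD4a.ρ 21 = 17 ∧ gD4a.ρ 20 = 21 ∧ gD4a.ρ 17 = 20 ∧ gD4a.ε 22 = 1 ∧ gD4a.ε 21 = -1 ∧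
      gD4a.ε 20 = 1 ∧ gD4a.ε 17 = -1 := by decide +kernel
    simp [this, ht, phi3 hK hφ]
  all_goals first | decide +kernel | apply_rules [mul_mem, xN_mem_T]

theorem Ad_mem (u : K) : Ad (adS chevD4 K) u (φ u) (φ (φ u)) ∈ twistedD4 K q := by
  refine mem_of_fix hφ hK (by simp only [Ad]; apply_rules [mul_mem, xN_mem_U] <;> omega) ?_
  rw [Ad, (tw4 φ).mul, (tw4 φ).mul, σ_xN, σ_xN, σ_xN, ← Ad, ← Ad_perm]
  · have : gD4a.ρ 18 = 13 ∧ gD4a.ρ 13 = 12 ∧ gD4a.ρ 12 = 18 ∧ gD4a.ε 18 = 1 ∧ gD4a.ε 13 = 1 ∧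
      gD4a.ε 12 = 1 := by decide +kernel
    simp [this, phi3 hK hφ]
  all_goals first | decide +kernel | apply_rules [mul_mem, xN_mem_T]
end mem

end H24
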