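import Cfsg.Agent.H24.Weil
import Cfsg.Agent.H24.OP1

/-! Representations of `Sp_{2n}(q)` of rank one: the operators `AW` satisfy the relations of the even Heisenberg algebra. -/

set_option autoImplicit false
set_option linter.unusedSectionVars false

namespace H24
open Module H11 H11.PForm Finset
open scoped Classical

section one
variable {F : Type*} [Field F] [Fintype F] {G M : Type*} [Group G] [AddCommGroup M] [Module ℂ M]
  (ρ : G →* End ℂ M) (ψ : AddChar F ℂ)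

/-- weight space of a one-parameter group -/
noncomputable def ZW (z : F → G) (a : F) : Submodule ℂ M := jes (fun t => ρ (z t)) fun t => ψ (t * a)

/-- function of the generator of a one-parameter group -/
noncomputable def Fn (z : F → G) (f : F → ℂ) : End ℂ M :=
  (Fintype.card F : ℂ)⁻¹ • ∑ t, (∑ a, f a * ψ (-(t * a))) • ρ (z t)

variable {ρ ψ} {z : F → G}

theorem mem_ZW {a : F} {m : M} : m ∈ ZW ρ ψ z a ↔ ∀ t, ρ (z t) m = ψ (t * a) • m := Iff.rfl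

theorem ZW_map {z' : F → G} {g : G} (h : ∀ t, z' t * g = g * z t) {a : F} {m : M} (hm : m ∈ ZW ρ ψ z a) :
    ρ g m ∈ ZW ρ ψ z' a := fun t => by
  rw [← End.mul_apply, ← map_mul, h, map_mul, End.mul_apply, hm t, map_smul]

theorem Fn_map {z' : F → G} {g : G} (h : ∀ t, z' t * g = g * z t) (f : F → ℂ) : Fn ρ ψ z' f * ρ g = ρ g * Fn ρ ψ z f := by
  simp only [Fn, smul_mul_assoc, mul_smul_comm, sum_mul, mul_sum, ← map_mul, h]

theorem Fn_mem {q : Submodule ℂ M} (hq : ∀ t, ∀ m ∈ q, ρ (z t) m ∈ q) (f : F → ℂ) {m : M} (hm : m ∈ q) : Fn ρ ψ z f m ∈ q := by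
  simp only [Fn, LinearMap.smul_apply, LinearMap.sum_apply]
  exact q.smul_mem _ (sum_mem fun t _ => q.smul_mem _ (hq t m hm))

variable (hψ : ψ ≠ 1)
include hψ

theorem sum_psi (c : F) : ∑ t, ψ (t * c) = if c = 0 then (Fintype.card F : ℂ) else 0 := (mulPairing hψ).sum_left c

theorem Fn_apply (f : F → ℂ) {a : F} {m : M} (hm : m ∈ ZW ρ ψ z a) : Fn ρ ψ z f m = f a • m := by
  have h : ∀ b, ∑ t, f b * ψ (-(t * b)) * ψ (t * a) = if b = a then f b * Fintype.card F else 0 := fun b => by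
    simp only [mul_assoc, ← AddChar.map_add_eq_mul, ← mul_sum, neg_add_eq_sub, ← mul_sub, sum_psi hψ, sub_eq_zero, eq_comm (a := a)]
    split_ifs <;> simp
  simp only [Fn, LinearMap.smul_apply, LinearMap.sum_apply, mem_ZW.1 hm, smul_smul, sum_mul, ← sum_smul]
  rw [sum_comm]
  simp [h, mul_comm (f a)]

theorem ZW_ind (hz : ∀ a b, z (a + b) = z a * z b) {q p : Submodule ℂ M} (hq : ∀ t, ∀ m ∈ q, ρ (z t) m ∈ q)
    (h : ∀ a, ∀ m ∈ q, m ∈ ZW ρ ψ z a → m ∈ p) : q ≤ p := fun m hm => by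
  rw [← (Act.ofRep ρ z hz).sum_P_apply (mulPairing hψ) (Nat.cast_ne_zero.2 Fintype.card_ne_zero) m]
  refine sum_mem fun a _ => h a _ ?_ ((Act.ofRep ρ z hz).P_mem (mulPairing hψ) a m)
  simp only [Act.P, LinearMap.smul_apply, LinearMap.sum_apply]
  exact q.smul_mem _ (sum_mem fun t _ => q.smul_mem _ (hq t m hm))

theorem ZW_ext (hz : ∀ a b, z (a + b) = z a * z b) {X Y : End ℂ M} (h : ∀ a, ∀ m ∈ ZW ρ ψ z a, X m = Y m) : X = Y :=
  LinearMap.ext fun m => ZW_ind hψ hz (q := ⊤) (p := LinearMap.eqLocus X Y) (fun _ _ _ => trivial) (fun a m _ => h a m)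
    (Submodule.mem_top (x := m))

theorem Fn_single (hz : ∀ a b, z (a + b) = z a * z b) (a : F) (m : M) : Fn ρ ψ z (Pi.single a 1) m ∈ ZW ρ ψ z a :=
  ZW_ind hψ hz (q := ⊤) (p := (ZW ρ ψ z a).comap (Fn ρ ψ z (Pi.single a 1))) (fun _ _ _ => trivial) (fun b m _ hm => by
    rw [Submodule.mem_comap, Fn_apply hψ _ hm]
    by_cases h : b = a
    · exact Submodule.smul_mem _ _ (h ▸ hm)
    · simp [h]) (Submodule.mem_top (x := m))

omit hψ in
variable (ψ) in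
/-- the symbol of `W v + W (-v)` -/
noncomputable def f0 (a : F) : ℂ := if h : ∃ r, a = r ^ 2 then ψ (2 * h.choose) + ψ (-(2 * h.choose)) else 0

omit hψ in
theorem f0_sq (r : F) : f0 ψ (r ^ 2) = ψ (2 * r) + ψ (-(2 * r)) := by
  have h : ∃ s, r ^ 2 = s ^ 2 := ⟨r, rfl⟩
  rw [f0, dif_pos h]
  obtain h1 | h1 := sq_eq_sq_iff_eq_or_eq_neg.1 h.choose_spec
  · rw [← h1]
  · rw [← neg_eq_iff_eq_neg] at h1
    rw [← h1, mul_neg, neg_neg, add_comm]

omit hψ in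
variable (ψ) in
/-- Gauss coefficients -/
noncomputable def kk (a t : F) : ℂ := (2 * Fintype.card F : ℂ)⁻¹ * ∑ s, ψ (a * s ^ 2 - t * (2 * s))

theorem sum_kk (h2 : (2 : F) ≠ 0) (a r : F) : ∑ t, kk ψ a t * (ψ (2 * (t * r)) + ψ (-(2 * (t * r)))) = ψ (a * r ^ 2) := by
  have h : ∀ r : F, ∑ t, ∑ s, ψ (a * s ^ 2 - t * (2 * s)) * ψ (2 * (t * r)) = Fintype.card F * ψ (a * r ^ 2) := fun r => by
    rw [sum_comm, sum_eq_single r (fun s _ hs => ?_) (by simp)]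
    · simp [← AddChar.map_add_eq_mul, mul_left_comm _ (2 : F)]
    · have := sum_psi hψ (2 * (r - s))
      rw [if_neg (mul_ne_zero h2 (sub_ne_zero.2 hs.symm))] at this
      rw [← mul_zero (ψ (a * s ^ 2)), ← this, mul_sum]
      exact sum_congr rfl fun t _ => by simp only [← AddChar.map_add_eq_mul]; congr 1; ring
  have h' := h (-r)
  simp only [mul_neg, neg_sq] at h'
  simp only [kk, mul_assoc, ← mul_sum, mul_add, sum_add_distrib, sum_mul, h, h']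
  have : (Fintype.card F : ℂ) ≠ 0 := Nat.cast_ne_zero.2 Fintype.card_ne_zero
  field_simp
  ring
end one

variable {F : Type*} [Field F] [Fintype F] {V : Type*} [AddCommGroup V] [Module F V] [FiniteDimensional F V]
  {S : PForm (sympP F) V} {M : Type*} [AddCommGroup M] [Module ℂ M] {ρ : S.E →* End ℂ M} {ψ : AddChar F ℂ}

theorem sp_apply {u v : V} (h : S.h u v = 0) (a : F) (x : V) :
    (ee S u v a).1.1 x = x + S.h u x • v + (S.h v x + a * S.h u x) • u := by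
  rw [ee_coe, eich_apply (show S.ECond u v a from ⟨trivial, h, trivial⟩), sympP_ε]
  module

theorem sp_conj (g : S.E) (u v : V) (a : F) : ee S (g.1.1 u) (g.1.1 v) a * g = g * ee S u v a :=
  Subtype.ext (by simp [ee_coe, ← conj_eich])

theorem sp_mul {u v w : V} (h : S.h u v = 0) (h' : S.h u w = 0) (a b : F) :
    ee S u v a * ee S u w b = ee S u (v + w) (a + b + S.h v w) :=
  Subtype.ext (eich_mul ⟨trivial, h, trivial⟩ ⟨trivial, h', trivial⟩)

variable (S) in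
/-- transvections -/
noncomputable def tv (u : V) (a : F) : S.E := ee S u 0 a
variable (S) in
/-- short root elements -/
noncomputable def sx (u v : V) (a : F) : S.E := ee S u (a • v) 0

theorem tv_apply (u : V) (a : F) (x : V) : (tv S u a).1.1 x = x + (a * S.h u x) • u := symp_transv_apply u a x
theorem tv_add (u : V) (a b : F) : tv S u (a + b) = tv S u a * tv S u b := by simp [tv, sp_mul]
theorem sx_add {u v : V} (h : S.h u v = 0) (a b : F) : sx S u v (a + b) = sx S u v a * sx S u v b := by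
  simp [sx, sp_mul, h, add_smul, symp_h_self]
theorem tv_conj {g : S.E} {u u' : V} (h : g.1.1 u = u') (a : F) : tv S u' a * g = g * tv S u a := by
  simpa [h, tv] using sp_conj g u 0 a
theorem sx_conj {g : S.E} {u v : V} (h : g.1.1 u = u) (h' : g.1.1 v = v) (a : F) : sx S u v a * g = g * sx S u v a := by
  simpa [h, h', sx] using sp_conj g u (a • v) 0
theorem tv_smul (c : F) (u : V) (a : F) : tv S (c • u) a = tv S u (a * c ^ 2) :=
  Subtype.ext (isom_ext fun x => by simp only [tv_apply, map_smul, LinearMap.smul_apply, smul_eq_mul]; module)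
theorem tv_sum {u v : V} (h : S.h u v = 0) (a : F) : tv S (u + v) a = tv S u a * (tv S v a * sx S u v a) :=
  Subtype.ext (isom_ext fun x => by
    change _ = (tv S u a).1.1 ((tv S v a).1.1 ((sx S u v a).1.1 x))
    simp [tv_apply, sx, sp_apply (show S.h u (a • v) = 0 by simp [h]), h, S.h_swap_zero h, symp_h_self]
    module)
theorem tv_fix {u x : V} (h : S.h u x = 0) (a : F) : (tv S u a).1.1 x = x := by simp [tv_apply, h]
theorem sx_fix {u v x : V} (h : S.h u x = 0) (h' : S.h v x = 0) (a : F) : (sx S u v a).1.1 x = x :=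
  eich_apply_of_perp_perp h (by simp [h'])

theorem ZW_smul {u : V} {a : F} {m : M} (hm : m ∈ ZW ρ ψ (tv S u) a) (c : F) : m ∈ ZW ρ ψ (tv S (c • u)) (c ^ 2 * a) :=
  mem_ZW.2 fun t => by rw [tv_smul, mem_ZW.1 hm, mul_assoc]

theorem ZW_sum {u v : V} (h : S.h u v = 0) {a b d : F} {m : M} (h1 : m ∈ ZW ρ ψ (tv S u) a) (h2 : m ∈ ZW ρ ψ (tv S v) b)
    (h3 : m ∈ ZW ρ ψ (sx S u v) d) : m ∈ ZW ρ ψ (tv S (u + v)) (a + b + d) := fun t => by
  simp [tv_sum h, mem_ZW.1 h1, mem_ZW.1 h2, mem_ZW.1 h3, smul_smul, ← AddChar.map_add_eq_mul, mul_add, add_comm, add_left_comm]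

theorem ZW_neg {u v : V} {d : F} {m : M} (h : m ∈ ZW ρ ψ (sx S u v) d) : m ∈ ZW ρ ψ (sx S u (-v)) (-d) := fun t => by
  simpa [sx] using h (-t)

theorem ZW_fix {u : V} {a : F} {g : S.E} (h : g.1.1 u = u) : ∀ m ∈ ZW ρ ψ (tv S u) a, ρ g m ∈ ZW ρ ψ (tv S u) a :=
  fun _ => ZW_map (tv_conj h)

theorem T_ind (hS : S.Nondeg) {p : S.E → Prop} (h1 : ∀ g k, p g → p k → p (g * k)) (h2 : ∀ u a, p (tv S u a)) (g : S.E) :
    p g := by
  have h0 : ∀ g : S.Isom, g ∈ S.E := fun g => hS.symp_E_eq_top ▸ trivial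
  suffices ∀ g ∈ S.T, p ⟨g, h0 g⟩ from this g.1 (hS.symp_T_eq_top ▸ trivial)
  intro g h3
  induction h3 using Subgroup.closure_induction'' with
  | one => simpa [tv, ee, eich_zero] using h2 0 0
  | mem g hg =>
    obtain ⟨u, a, rfl⟩ := hg
    exact h2 u a
  | inv_mem g hg =>
    obtain ⟨u, a, rfl⟩ := hg
    convert h2 u (-a) using 1
    exact inv_eq_of_mul_eq_one_right (a := tv S u a) (by rw [← tv_add, add_neg_cancel]; exact Subtype.ext (eich_zero _))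
  | mul g k _ _ a b => exact h1 ⟨g, _⟩ ⟨k, _⟩ a b

variable (ρ ψ) in
/-- all weights have rank at most one -/
def RkOne : Prop := ∀ u v, S.h u v = 0 → ∀ a b d m, m ≠ 0 → m ∈ ZW ρ ψ (tv S u) a → m ∈ ZW ρ ψ (tv S v) b →
  m ∈ ZW ρ ψ (sx S u v) d → d ^ 2 = 4 * a * b

variable (ρ ψ) in
/-- the operator `W v + W (-v)` -/
noncomputable def AW (v : V) : End ℂ M := Fn ρ ψ (tv S v) (f0 ψ)

variable (hψ : ψ ≠ 1)
include hψ

theorem pair_ind {u v : V} (h : S.h u v = 0) {q p : Submodule ℂ M}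
    (hq : ∀ g : S.E, g.1.1 u = u → g.1.1 v = v → ∀ m ∈ q, ρ g m ∈ q) (hp : ∀ a b d, ∀ m ∈ q, m ≠ 0 → m ∈ ZW ρ ψ (tv S u) a →
      m ∈ ZW ρ ψ (tv S v) b → m ∈ ZW ρ ψ (sx S u v) d → m ∈ p) : q ≤ p := by
  have h' := S.h_swap_zero h
  have a1 := fun t => tv_fix h' t
  have a2 := fun t => tv_fix (S.symp_h_self v) t
  have a3 := fun t => sx_fix (S.symp_h_self u) h' t
  have a4 := fun t => sx_fix h (S.symp_h_self v) t
  refine ZW_ind hψ (tv_add u) (fun t => hq _ (tv_fix (S.symp_h_self u) t) (tv_fix h t)) fun a m h1 h2 => ?_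
  refine ZW_ind hψ (tv_add v) (q := q ⊓ ZW ρ ψ (tv S u) a) (fun t m hm => ⟨hq _ (a1 t) (a2 t) m hm.1, ZW_fix (a1 t) m hm.2⟩)
    (fun b m h1 h2 => ?_) ⟨h1, h2⟩
  refine ZW_ind hψ (sx_add h) (q := q ⊓ ZW ρ ψ (tv S u) a ⊓ ZW ρ ψ (tv S v) b)
    (fun t m hm => ⟨⟨hq _ (a3 t) (a4 t) m hm.1.1, ZW_fix (a3 t) m hm.1.2⟩, ZW_fix (a4 t) m hm.2⟩) (fun d m h1 h2 => ?_) ⟨h1, h2⟩
  by_cases h0 : m = 0
  · exact h0 ▸ p.zero_mem
  · exact hp a b d m h1.1.1 h0 h1.1.2 h1.2 h2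

theorem ZW_uniq {z : F → S.E} {a b : F} {m : M} (h0 : m ≠ 0) (h1 : m ∈ ZW ρ ψ z a) (h2 : m ∈ ZW ρ ψ z b) : a = b := by
  by_contra h
  exact h0 (by simpa [Fn_apply hψ _ h2, Ne.symm h, eq_comm (b := m)] using Fn_apply hψ (Pi.single a 1) h1)

variable (h2 : (2 : F) ≠ 0) (hS : S.Nondeg) (h4 : 4 ≤ finrank F V) (hR : RkOne ρ ψ) (hI : ∀ m, (∀ g, ρ g m = m) → m = 0)
include h2 hR

theorem sq_of {v x : V} (h : S.h v x = 0) {a d : F} {m : M} (h0 : m ≠ 0) (h1 : m ∈ ZW ρ ψ (tv S v) a)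
    (h3 : m ∈ ZW ρ ψ (tv S x) d) : IsSquare (a * d) := by
  by_contra hn
  refine h0 (pair_ind hψ h (q := ZW ρ ψ (tv S v) a ⊓ ZW ρ ψ (tv S x) d) (p := ⊥)
    (fun g a b m hm => ⟨ZW_fix a m hm.1, ZW_fix b m hm.2⟩) (fun _ _ c m hm m0 _ _ h4 => (hn ⟨c / 2, ?_⟩).elim) ⟨h1, h3⟩)
  field_simp
  linear_combination -hR v x h a d c m m0 hm.1 hm.2 h4

include hS h4 hI

theorem kill {v w : V} (h : S.h v w ≠ 0) {T : End ℂ M} (h1 : ∀ g : S.E, g.1.1 v = v → g.1.1 w = w → T * ρ g = ρ g * T)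
    (h3 : ∀ x, S.h x v = 0 → S.h x w = 0 → ∀ d ≠ 0, ∀ m ∈ ZW ρ ψ (tv S x) d, T m = 0) : T = 0 := by
  have H := isHyp_of_ne (S.symp_sing v) (S.symp_sing w) h
  have hp : ∀ x ∈ S.perp (Submodule.span F {v, (S.h v w)⁻¹ • w}), S.h x v = 0 ∧ S.h x w = 0 := fun x hx => by
    have := S.mem_perp_pair.1 hx
    exact ⟨S.h_swap_zero this.1, S.h_swap_zero (by simpa [h] using this.2)⟩
  refine LinearMap.ext fun m => hI _ ?_
  have a1 : ∀ x ∈ S.perp (Submodule.span F {v, (S.h v w)⁻¹ • w}), T m ∈ ZW ρ ψ (tv S x) 0 := fun x hx t => by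
    have := ZW_ext hψ (tv_add x) (X := ρ (tv S x t) * T) (Y := T) fun d m hm => by
      by_cases hd : d = 0
      · rw [← h1 _ (tv_fix (hp x hx).1 t) (tv_fix (hp x hx).2 t), End.mul_apply, hm t]
        simp [hd]
      · simp [h3 x (hp x hx).1 (hp x hx).2 d hd m hm]
    simpa using LinearMap.congr_fun this m
  generalize T m = m at a1
  have a2 : ∀ u x, S.h u x = 0 → m ∈ ZW ρ ψ (tv S x) 0 → m ∈ ZW ρ ψ (sx S u x) 0 := fun u x h =>
    fun hm => pair_ind hψ h (fun g _ b => ZW_fix b) (fun a b d m h1 h0 h2 h3 h4 => by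
      have := hR u x h a 0 d m h0 h2 h1 h4
      rwa [show d = 0 by simpa using this] at h4) hm
  obtain ⟨x, y, K⟩ := (hS.restrict_perp H.nondeg).symp_exists_hyp (by have := H.finrank_perp; omega)
  refine T_ind hS (fun g k a b => by rw [map_mul, End.mul_apply, b, a]) fun z a => ?_
  obtain ⟨u, hu, z, hz, rfl⟩ := Submodule.mem_sup.1 ((S.isCompl_perp H.nondeg).sup_eq_top ▸ Submodule.mem_top (x := z))
  have a3 : m ∈ ZW ρ ψ (tv S u) 0 := fun t => by
    have b1 := sp_mul (show S.h u (t • x.1) = 0 by simp [x.2 u hu]) (y.2 u hu) 0 0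
    have b2 := sp_mul (show S.h u (t • x.1 + y.1) = 0 by simp [x.2 u hu, y.2 u hu]) (map_zero _) 0 t
    have b3 : S.h x y = 1 := K.h_ef
    have b4 := a2 u _ (x.2 u hu) (a1 _ x.2) t
    have b5 := a2 u _ (y.2 u hu) (a1 _ y.2) 1
    have b6 := a2 u _ ((t • x + y).2 u hu) (a1 _ (t • x + y).2) 1
    simp only [sx, one_smul, mul_zero, AddChar.map_zero_eq_one, Submodule.coe_add, Submodule.coe_smul] at b4 b5 b6 ⊢
    simp only [map_smul, LinearMap.smul_apply, b3, smul_eq_mul, mul_one, zero_add, add_zero, map_zero] at b1 b2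
    refine rep_inj' ρ (ee S u (t • x.1 + y.1) 0) ?_
    rw [← End.mul_apply, ← map_mul, tv, b2, ← b1, map_mul, End.mul_apply, b5, b4, b6]
  simpa using ZW_sum (hz u hu) a3 (a1 z hz) (a2 u z (hz u hu) (a1 z hz)) a

theorem sq_all (hirr : ∀ U : Submodule ℂ M, (∀ g, ∀ v ∈ U, ρ g v ∈ U) → U = ⊥ ∨ U = ⊤) {e : V} {m₀ : M} (m0 : m₀ ≠ 0)
    (he : m₀ ∈ ZW ρ ψ (tv S e) 1) {v : V} {a : F} {m : M} (h0 : m ≠ 0) (hm : m ∈ ZW ρ ψ (tv S v) a) : IsSquare a := by
  by_contra hn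
  have h1 : ⨆ e, ZW ρ ψ (tv S e) 1 = ⊤ := (hirr _ fun g m hm => (iSup_le fun e m hm => Submodule.mem_iSup_of_mem (g.1.1 e)
    (ZW_map (tv_conj rfl) hm) : ⨆ e, ZW ρ ψ (tv S e) 1 ≤ (⨆ e, ZW ρ ψ (tv S e) 1).comap (ρ g)) hm).resolve_left
      fun h => m0 (by simpa [h] using Submodule.mem_iSup_of_mem (p := fun e => ZW ρ ψ (tv S e) 1) e he)
  have pr : ∀ {v x : V} {d : F} (f : F → ℂ) {m : M}, S.h v x = 0 → m ∈ ZW ρ ψ (tv S x) d →
      Fn ρ ψ (tv S v) f m ∈ ZW ρ ψ (tv S x) d := fun f m h hm => Fn_mem (fun t => ZW_fix (tv_fix h t)) f hm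
  have h3 : ⨆ e, ZW ρ ψ (tv S e) 1 ≤ LinearMap.ker (Fn ρ ψ (tv S v) (Pi.single a 1)) := iSup_le fun e m hm => by
    by_cases h : S.h v e = 0
    · by_contra h'
      exact hn (by simpa using sq_of hψ h2 hR h h' (Fn_single hψ (tv_add v) a m) (pr _ h hm))
    have := kill hψ h2 hS h4 hR hI h (T := Fn ρ ψ (tv S v) (Pi.single a 1) * Fn ρ ψ (tv S e) (Pi.single 1 1))
      (fun g a b => by rw [mul_assoc, Fn_map (tv_conj b), ← mul_assoc, Fn_map (tv_conj a), mul_assoc])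
      fun x x1 x2 d hd m hm => by
        by_contra h'
        have b1 := pr (Pi.single 1 1) (S.h_swap_zero x2) hm
        obtain ⟨r, hr⟩ := sq_of hψ h2 hR (S.h_swap_zero x2) (fun h => h' (by simp [h])) (Fn_single hψ (tv_add e) 1 m) b1
        obtain ⟨s, hs⟩ := sq_of hψ h2 hR (S.h_swap_zero x1) h' (Fn_single hψ (tv_add v) a _) (pr _ (S.h_swap_zero x1) b1)
        have r0 : r ≠ 0 := fun h => hd (by simpa [h] using hr)
        exact hn ⟨s / r, by field_simp; linear_combination hs - a * hr⟩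
    simpa [Fn_apply hψ _ hm] using LinearMap.congr_fun this m
  have h5 := LinearMap.mem_ker.1 (h3 (h1 ▸ Submodule.mem_top (x := m)))
  rw [Fn_apply hψ _ hm] at h5
  exact h0 (by simpa using h5)

variable (hQ : ∀ v a m, m ≠ 0 → m ∈ ZW ρ ψ (tv S v) a → IsSquare a)
include hQ

omit hS h4 hI in
theorem pair_sq {u v : V} (h : S.h u v = 0) {a b d : F} {m : M} (h0 : m ≠ 0) (h1 : m ∈ ZW ρ ψ (tv S u) a)
    (h3 : m ∈ ZW ρ ψ (tv S v) b) (h5 : m ∈ ZW ρ ψ (sx S u v) d) {r : F} (hr : a = r ^ 2) : ∃ s, b = s ^ 2 ∧ d = 2 * r * s := by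
  obtain ⟨s, hs⟩ := hQ v b m h0 h3
  have := hR u v h a b d m h0 h1 h3 h5
  obtain h | h := sq_eq_sq_iff_eq_or_eq_neg.1 (show d ^ 2 = (2 * r * s) ^ 2 by rw [this, hr, hs]; ring)
  exacts [⟨s, by rw [hs, sq], h⟩, ⟨-s, by rw [hs]; ring, by rw [h]; ring⟩]

theorem AW_mul (v w : V) : AW ρ ψ v * AW ρ ψ w = ψ (S.h v w) • AW ρ ψ (v + w) + ψ (-S.h v w) • AW ρ ψ (v - w) := by
  by_cases h : S.h v w = 0
  · refine LinearMap.ext fun m => pair_ind (ρ := ρ) hψ h (q := ⊤) (p := LinearMap.eqLocus _ _) (fun _ _ _ _ _ => trivial)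
      (fun a b d m _ h0 h1 h3 h5 => ?_) (Submodule.mem_top (x := m))
    obtain ⟨r, rfl⟩ := (isSquare_iff_exists_sq _).1 (hQ v a m h0 h1)
    obtain ⟨s, rfl, rfl⟩ := pair_sq hψ h2 hR hQ h h0 h1 h3 h5 rfl
    have b1 := ZW_sum h h1 h3 h5
    have b2 := ZW_sum (v := -w) (by simp [h]) h1 (by simpa using ZW_smul h3 (-1)) (ZW_neg h5)
    rw [show r ^ 2 + s ^ 2 + 2 * r * s = (r + s) ^ 2 by ring] at b1
    rw [show r ^ 2 + s ^ 2 + -(2 * r * s) = (r - s) ^ 2 by ring, ← sub_eq_add_neg] at b2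
    simp only [LinearMap.mem_eqLocus, AW, End.mul_apply, LinearMap.add_apply, LinearMap.smul_apply, Fn_apply hψ _ h1,
      Fn_apply hψ _ h3, Fn_apply hψ _ b1, Fn_apply hψ _ b2, map_smul, f0_sq, h, neg_zero, AddChar.map_zero_eq_one, one_smul,
      smul_smul, ← add_smul, add_mul, mul_add, ← AddChar.map_add_eq_mul]
    congr 1
    ring_nf
  rw [← sub_eq_zero]
  refine kill hψ h2 hS h4 hR hI h (fun g a b => ?_) fun x x1 x2 d hd m hm => ?_
  · have : ∀ u, g.1.1 u = u → AW ρ ψ u * ρ g = ρ g * AW ρ ψ u := fun u hu => Fn_map (tv_conj hu) _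
    simp only [sub_mul, mul_sub, add_mul, mul_add, smul_mul_assoc, mul_smul_comm, mul_assoc, this w b,
      this (v + w) (by simp [a, b]), this (v - w) (by simp [a, b])]
    rw [← mul_assoc, this v a, mul_assoc]
  by_cases h0 : m = 0
  · simp [h0]
  obtain ⟨r, rfl⟩ := (isSquare_iff_exists_sq _).1 (hQ x d m h0 hm)
  have b1 := ZW_smul hm r⁻¹
  rw [← mul_pow, inv_mul_cancel₀ (by simpa using hd), one_pow] at b1
  have x3 : S.h (r⁻¹ • x) v = 0 := by simp [x1]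
  have x4 : S.h (r⁻¹ • x) w = 0 := by simp [x2]
  generalize r⁻¹ • x = e at b1 x3 x4
  have k1 : ∀ y, S.h e y = 0 → ∀ m ∈ ZW ρ ψ (tv S e) 1, AW ρ ψ y m = ρ (ee S e y 0) m + ρ (ee S e (-y) 0) m :=
    fun y hy m hm => pair_ind hψ hy (p := LinearMap.eqLocus (AW ρ ψ y) (ρ (ee S e y 0) + ρ (ee S e (-y) 0)))
      (fun g a _ => ZW_fix a) (fun a b d m h1 h0 _ h3 h5 => by
        obtain ⟨s, rfl, rfl⟩ := pair_sq hψ h2 hR hQ hy h0 h1 h3 h5 (one_pow 2).symm
        have c1 := h5 1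
        have c2 := h5 (-1)
        simp only [sx, one_smul, neg_smul] at c1 c2
        simp [AW, Fn_apply hψ _ h3, f0_sq, c1, c2, add_smul]) hm
  have k2 : ∀ y y', S.h e y = 0 → S.h e y' = 0 → ρ (ee S e y 0) (ρ (ee S e y' 0) m) = ψ (S.h y y') • ρ (ee S e (y + y') 0) m :=
    fun y y' a b => by
      have c1 := sp_mul (show S.h e (y + y') = 0 by simp [a, b]) (map_zero _) 0 (S.h y y')
      have c2 := b1 (S.h y y')
      simp only [tv, mul_one] at c2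
      rw [← End.mul_apply, ← map_mul, sp_mul a b, ← map_smul, ← c2, ← End.mul_apply, ← map_mul, c1]
      simp
  have k3 : ∀ y, ρ (ee S e y 0) m ∈ ZW ρ ψ (tv S e) 1 := fun y => ZW_fix (eich_apply_self _ _ _) m b1
  have n3 : S.h e (-v) = 0 := by simp [x3]
  have n4 : S.h e (-w) = 0 := by simp [x4]
  simp only [LinearMap.sub_apply, End.mul_apply, LinearMap.add_apply, LinearMap.smul_apply, k1 w x4 m b1, map_add,
    k1 v x3 _ (k3 _), k1 (v + w) (by simp [x3, x4]) m b1, k1 (v - w) (by simp [x3, x4]) m b1, k2 _ _ x3 x4, k2 _ _ x3 n4,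
    k2 _ _ n3 x4, k2 _ _ n3 n4]
  simp only [map_neg, LinearMap.neg_apply, neg_neg, neg_add, sub_eq_add_neg, smul_add]
  abel

omit hS h4 hI hR in
theorem tv_AW (v : V) (a : F) : ρ (tv S v a) = ∑ t, kk ψ a t • AW ρ ψ (t • v) := ZW_ext hψ (tv_add v) fun b m hm => by
  by_cases h0 : m = 0
  · simp [h0]
  obtain ⟨r, rfl⟩ := (isSquare_iff_exists_sq _).1 (hQ v b m h0 hm)
  simp only [LinearMap.sum_apply, LinearMap.smul_apply, AW, Fn_apply hψ _ (ZW_smul hm _), ← mul_pow, f0_sq, smul_smul,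
    ← sum_smul, sum_kk hψ h2, mem_ZW.1 hm]

end H24
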