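import Cfsg.Agent.H24.Wc1

/-! The two constituents of the Weil representation: irreducibility, degrees, and the classification of the irreducible
representations of `Sp_{2n}(q)` of rank one (`weil_pkg`). -/

set_option autoImplicit false
set_option linter.unusedSectionVars false

namespace H24
open Module H11 H11.PForm Finset Cfsg H5
open scoped Classical

section lin
variable {M : Type*} [AddCommGroup M] [Module ℂ M] [FiniteDimensional ℂ M] (P : End ℂ M)

theorem trace_eig (hP : P * P = 1) {ε : ℂ} (hε : ε * ε = 1) {T : End ℂ M} (h : T * P = P * T) :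
    2 * LinearMap.trace ℂ _ (T.restrict (mapsTo_eig P h ε)) = LinearMap.trace ℂ M T + ε * LinearMap.trace ℂ M (T * P) := by
  have h1 : ∀ v, (1 + ε • P) v ∈ P.eigenspace ε := fun v => by
    rw [End.mem_eigenspace_iff]
    simp only [LinearMap.smul_apply, LinearMap.add_apply, End.one_apply, map_smul, map_add, smul_add, smul_smul, hε]
    rw [← End.mul_apply, hP, End.one_apply, one_smul, add_comm]
  have h2 := LinearMap.trace_restrict_eq_of_forall_mem (P.eigenspace ε) (T * (1 + ε • P)) fun v => mapsTo_eig P h ε _ (h1 v)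
  conv_rhs at h2 => rw [mul_add, mul_one, mul_smul_comm, map_add, map_smul, smul_eq_mul]
  rw [← h2, ← smul_eq_mul, ← map_smul]
  congr 1
  ext v
  simp [End.mem_eigenspace_iff.1 v.2, smul_smul, hε, two_smul]

theorem exists_lin' (hP : P * P = 1) (htr : LinearMap.trace ℂ M P = 1) {G : Type*} [Group G]
    (T : G → End ℂ M) (hu : ∀ g, IsUnit (T g)) (hc : ∀ g, T g * P = P * T g)
    (hm : ∀ g h, ∃ s : ℂ, T (g * h) = s • (T g * T h)) : ∃ ρ : G →* End ℂ M, ∀ g, ∃ s : ℂ, ρ g = s • T g := by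
  have hd : finrank ℂ (P.eigenspace 1) = finrank ℂ (P.eigenspace (-1)) + 1 := by
    have h1 := finrank_eig P hP (ε := 1) (by ring)
    have h2 := finrank_eig P hP (ε := -1) (by ring)
    rw [htr] at h1 h2
    have : (finrank ℂ (P.eigenspace 1) : ℂ) = finrank ℂ (P.eigenspace (-1)) + 1 := by
      linear_combination 2⁻¹ * h1 - 2⁻¹ * h2
    exact_mod_cast this
  let r : ∀ (ε : ℂ) (g : G), End ℂ (P.eigenspace ε) := fun ε g => (T g).restrict (mapsTo_eig P (hc g) ε)
  have hr : ∀ ε g h (s : ℂ), T (g * h) = s • (T g * T h) → r ε (g * h) = s • (r ε g * r ε h) :=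
    fun ε g h s hs => LinearMap.ext fun v => Subtype.ext (LinearMap.congr_fun hs v)
  have hinj : ∀ ε g, Function.Injective (r ε g) := fun ε g v w e =>
    Subtype.ext ((End.isUnit_iff _).1 (hu g) |>.1 (congrArg Subtype.val e))
  have hdet : ∀ ε g, LinearMap.det (r ε g) ≠ 0 := fun ε g => (((End.isUnit_iff _).2
    ⟨hinj ε g, LinearMap.injective_iff_surjective.1 (hinj ε g)⟩).map LinearMap.det).ne_zero
  let ω : G → End ℂ M := fun g => (LinearMap.det (r (-1) g) / LinearMap.det (r 1 g)) • T g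
  have hω : ∀ g h, ω (g * h) = ω g * ω h := fun g h => by
    obtain ⟨s, hs⟩ := hm g h
    have h1 := hdet 1 (g * h)
    simp only [ω]
    rw [hr 1 g h s hs, LinearMap.det_smul, hd] at h1
    rw [hr _ g h s hs, hr _ g h s hs, hs, LinearMap.det_smul, LinearMap.det_smul, hd, map_mul, map_mul,
      smul_mul_smul_comm, smul_smul]
    congr 1
    have h2 : s ≠ 0 := by rintro rfl; simp at h1
    have h3 := hdet 1 g
    have h4 := hdet 1 h
    field_simp
    ring
  have hω1 : ω 1 = 1 := by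
    have h1 := hω 1 1
    rw [mul_one] at h1
    have h2 : IsUnit (ω 1) := by
      simp only [ω, Algebra.smul_def]
      exact ((Ne.isUnit (div_ne_zero (hdet _ _) (hdet _ _))).map _).mul (hu _)
    exact h2.mul_left_cancel (by rw [← h1, mul_one])
  exact ⟨⟨⟨ω, hω1⟩, hω⟩, fun g => ⟨_, rfl⟩⟩
end lin

variable {F : Type*} [Field F] [Fintype F] {V : Type*} [AddCommGroup V] [Module F V] [FiniteDimensional F V] [Fintype V]
  {S : PForm (sympP F) V} {M : Type*} [AddCommGroup M] [Module ℂ M] [FiniteDimensional ℂ M] {ψ : AddChar F ℂ}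

variable (ψ) in
/-- the operator of a transvection -/
noncomputable def DW (W : V → End ℂ M) (v : V) (a : F) : End ℂ M := ∑ t, kk ψ a t • (W (t • v) + W (-(t • v)))

theorem sum_char {G : Type*} [Group G] (ρ : G →* End ℂ M) (hψ : ψ ≠ 1) {z : F → G} (hz : ∀ a b, z (a + b) = z a * z b) (a : F) :
    ∑ t, ψ (-(t * a)) * LinearMap.trace ℂ M (ρ (z t)) = Fintype.card F * finrank ℂ (ZW ρ ψ z a) := by
  rw [← LinearMap.IsProj.trace (f := Fn ρ ψ z (Pi.single a 1)) ⟨Fn_single hψ hz a, fun m hm => by simp [Fn_apply hψ _ hm]⟩]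
  simp [Fn, Pi.single_apply]

theorem exists_ZW (ρ : S.E →* End ℂ M) (hψ : ψ ≠ 1) (hS : S.Nondeg) (h : ∃ g, ρ g ≠ 1) :
    ∃ v a m, a ≠ 0 ∧ m ≠ 0 ∧ m ∈ ZW ρ ψ (tv S v) a := by
  by_contra hn
  obtain ⟨g, hg⟩ := h
  refine hg (T_ind hS (p := fun g => ρ g = 1) (fun g k a b => by rw [map_mul, a, b, mul_one]) (fun v t => ?_) g)
  refine ZW_ext hψ (tv_add v) fun a m hm => not_not.1 fun h => hn ⟨v, a, m, ?_, ?_, hm⟩
  · rintro rfl
    simp [mem_ZW.1 hm] at h
  · rintro rfl
    simp at h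

variable (hψ : ψ ≠ 1) (h2 : (2 : F) ≠ 0) (hS : S.Nondeg) {W : V → End ℂ M} (hW0 : W 0 = 1)
  (hW : ∀ v w, W v * W w = ψ (S.h v w) • W (v + w)) (hM : Fintype.card V = finrank ℂ M ^ 2)
include hψ h2

theorem DW_apply {v : V} {r : F} {m : M} (h : ∀ t, W (t • v) m = ψ (t * (2 * r)) • m) (a : F) :
    DW ψ W v a m = ψ (a * r ^ 2) • m := by
  simp only [DW, LinearMap.sum_apply, LinearMap.smul_apply, LinearMap.add_apply, ← neg_smul, h, ← add_smul, smul_smul,
    ← sum_smul, ← sum_kk hψ h2, neg_mul, mul_neg, mul_left_comm _ (2 : F)]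

include hW0 hW

theorem Ev_ind (v : V) {q p : Submodule ℂ M} (hq : ∀ t : F, ∀ m ∈ q, W (t • v) m ∈ q)
    (h : ∀ r, ∀ m ∈ q, (∀ t, W (t • v) m = ψ (t * (2 * r)) • m) → m ∈ p) : q ≤ p := by
  have h1 : ∀ x, W x * W (-x) = 1 := fun x => by simp [hW, hW0, symp_h_self]
  exact ZW_ind (ρ := Units.coeHom (End ℂ M)) (z := fun t : F => ⟨W (t • v), W (-(t • v)), h1 _, by simpa using h1 (-(t • v))⟩) hψ
    (fun a b => Units.ext (by simp [hW, symp_h_self, add_smul])) hq fun a m h1 h3 => h (a / 2) m h1 fun t => by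
      rw [mul_div_cancel₀ _ h2]
      exact h3 t

theorem Ev_ext (v : V) {X Y : End ℂ M} (h : ∀ r m, (∀ t, W (t • v) m = ψ (t * (2 * r)) • m) → X m = Y m) : X = Y :=
  LinearMap.ext fun m => Ev_ind hψ h2 hW0 hW v (q := ⊤) (p := LinearMap.eqLocus X Y) (fun _ _ _ => trivial)
    (fun r m _ => h r m) (Submodule.mem_top (x := m))

theorem DW_int (v : V) (a : F) (x : V) : DW ψ W v a * W x = W ((tv S v a).1.1 x) * DW ψ W v a :=
  Ev_ext hψ h2 hW0 hW v fun r m hm => by
    have h1 : ∀ c : F, W (x + c • v) m = ψ (c * S.h v x + c * (2 * r)) • W x m := fun c => by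
      have := LinearMap.congr_fun (hW x (c • v)) m
      rw [End.mul_apply, hm, map_smul, LinearMap.smul_apply] at this
      rw [AddChar.map_add_eq_mul, mul_smul, this, smul_smul, ← AddChar.map_add_eq_mul, S.symp_symm x v]
      simp
    rw [End.mul_apply, End.mul_apply, DW_apply hψ h2 hm, map_smul, tv_apply, h1, smul_smul, ← AddChar.map_add_eq_mul,
      DW_apply hψ h2 (r := r + S.h v x) fun t => by
        rw [← End.mul_apply, hW, LinearMap.smul_apply, add_comm, h1, smul_smul, ← AddChar.map_add_eq_mul]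
        congr 2
        simp
        ring]
    congr 2
    ring

include hS hM

theorem trace_W (v : V) : LinearMap.trace ℂ M (W v) = if v = 0 then (finrank ℂ M : ℂ) else 0 := by
  split_ifs with h
  · simp [h, hW0]
  obtain ⟨t, ht⟩ := DFunLike.ne_iff.1 hψ
  obtain ⟨y, hy⟩ := hS.exists_h_eq_one h
  have h1 := LinearMap.trace_mul_comm ℂ (W (-((t / 2) • y)) * W v) (W ((t / 2) • y))
  rw [← mul_assoc, hW, hW, smul_mul_assoc, hW, add_neg_cancel, hW0, smul_mul_assoc, one_mul, smul_smul,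
    ← AddChar.map_add_eq_mul, map_smul, map_smul, neg_add_cancel_comm] at h1
  simp only [map_neg, map_smul, map_add, LinearMap.add_apply, LinearMap.neg_apply, LinearMap.smul_apply, symp_h_self,
    S.symp_symm v y, hy, smul_eq_mul, mul_zero, neg_zero, mul_one, mul_neg, neg_neg, zero_add,
    show t / 2 + t / 2 = t by field_simp; ring, AddChar.map_zero_eq_one, one_mul] at h1
  exact (mul_left_eq_self₀.1 h1).resolve_left ht

variable {P : End ℂ M} (hP : P * P = 1) (htr : LinearMap.trace ℂ M P = 1) {c : ℂ} (hPW : P = c • ∑ v, W v)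
  (h4 : 4 ≤ finrank F V)
include hP htr hPW h4

theorem exists_omega : ∃ ω : S.E →* End ℂ M, (∀ g v, ω g * W v = W (g.1.1 v) * ω g) ∧ ∀ v a, ω (tv S v a) = DW ψ W v a := by
  choose T hu hT using heis_exists hψ h2 hS hW0 hW hM
  obtain ⟨ω, hω⟩ := exists_lin' P hP htr (fun g : S.E => T g.1) (fun g => hu g.1) (fun g => by
    rw [hPW, mul_smul_comm, smul_mul_assoc, mul_sum, sum_mul, ← Equiv.sum_comp g.1.1.toEquiv fun v => W v * T g]
    exact congrArg _ (sum_congr rfl fun v _ => hT g v)) fun g h =>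
    heis_unique hψ h2 hS hW0 hW hM ((hu g).mul (hu h)) (hT (g * h).1) fun v => by
      rw [mul_assoc, hT, ← mul_assoc, hT, mul_assoc]; rfl
  have h1 : ∀ g v, ω g * W v = W (g.1.1 v) * ω g := fun g v => by
    obtain ⟨s, hs⟩ := hω g
    rw [hs, smul_mul_assoc, hT, mul_smul_comm]
  have hD : ∀ v a, DW ψ W v a * DW ψ W v (-a) = 1 := fun v a => Ev_ext hψ h2 hW0 hW v fun r m hm => by
    simp [DW_apply hψ h2 hm, smul_smul, ← AddChar.map_add_eq_mul]
  choose s hs using fun v a => heis_unique hψ h2 hS hW0 hW hM (IsUnit.of_mul_eq_one _ (hD v a)) (h1 (tv S v a))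
    (DW_int hψ h2 hW0 hW v a)
  have := heis_nontrivial hψ h2 hS hW0 hW hM
  obtain ⟨L, hL, hd⟩ := hS.symp_exists_ts 2 h4
  let b := finBasisOfFinrankEq F L hd
  have huv : S.h (b 0) (b 1) = 0 := hL.h_eq (b 0).2 (b 1).2
  have hi := LinearIndependent.pair_iff.1 (show LinearIndependent F ![b 0, b 1] by
    convert b.linearIndependent
    ext i
    fin_cases i <;> rfl)
  have hb : ∀ x y : F, x ≠ 0 ∨ y ≠ 0 → x • (b 0).1 + y • (b 1).1 ≠ 0 := fun x y h h' => by
    have := hi x y (Subtype.ext h')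
    tauto
  generalize (b 0).1 = u, (b 1).1 = v at huv hb
  have cj : ∀ x, x ≠ 0 → ∀ a, s x a = s u a := fun x hx a => by
    obtain ⟨g, hg⟩ := symp_tr hS u x trivial (by simpa using hb 1 0) trivial hx
    have h3 := congrArg ω (tv_conj hg a)
    have h5 : ω g * DW ψ W u a = DW ψ W x a * ω g := by
      simp only [DW, mul_sum, sum_mul, mul_smul_comm, smul_mul_assoc, mul_add, add_mul, h1, map_neg, map_smul, hg]
    rw [map_mul, map_mul, hs, hs, mul_smul_comm, h5, smul_mul_assoc] at h3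
    exact smul_left_injective ℂ ((IsUnit.of_mul_eq_one _ (hD x a)).mul ((Group.isUnit g).map ω)).ne_zero h3
  obtain ⟨r, r', m, m0, m1, m2⟩ : ∃ r r' m, m ≠ 0 ∧ (∀ t, W (t • u) m = ψ (t * (2 * r)) • m) ∧
      ∀ t, W (t • v) m = ψ (t * (2 * r')) • m := by
    by_contra hn
    refine not_subsingleton M ((Submodule.subsingleton_iff ℂ).1 (subsingleton_of_top_le_bot
      (Ev_ind hψ h2 hW0 hW u (fun _ _ _ => trivial) fun r m _ hm => ?_)))
    refine Ev_ind hψ h2 hW0 hW v (q := jes (fun t : F => W (t • u)) fun t => ψ (t * (2 * r))) (fun t m hm t' => ?_)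
      (fun r' m h1 h2 => not_not.1 fun h0 => hn ⟨r, r', m, h0, h1, h2⟩) hm
    rw [← map_smul, ← hm t', ← End.mul_apply, ← End.mul_apply, hW, hW, add_comm]
    simp [huv, S.h_swap_zero huv]
  have m3 : ∀ e : F, ∀ t, W (t • (u + e • v)) m = ψ (t * (2 * (r + e * r'))) • m := fun e t => by
    have := LinearMap.congr_fun (hW (t • u) ((t * e) • v)) m
    rw [End.mul_apply, m2, map_smul, m1, smul_smul, ← AddChar.map_add_eq_mul] at this
    simp only [map_smul, LinearMap.smul_apply, huv, smul_zero, AddChar.map_zero_eq_one, one_smul] at this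
    rw [smul_add, smul_smul, ← this]
    congr 2
    ring
  have s0 : ∀ a, s u a ≠ 0 := fun a h => ((Group.isUnit _).map ω).ne_zero (by rw [hs, h, zero_smul])
  have s1 : ∀ a, s u (a + a) = s u a * s u a := fun a => by
    have := LinearMap.congr_fun (congrArg ω (tv_add u a a)) m
    simp only [map_mul, hs, End.mul_apply, LinearMap.smul_apply, map_smul, DW_apply hψ h2 m1, smul_smul, add_mul,
      AddChar.map_add_eq_mul] at this
    exact mul_right_cancel₀ (mul_ne_zero (ψ.val_isUnit (a * r ^ 2)).ne_zero (ψ.val_isUnit (a * r ^ 2)).ne_zero)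
      (by linear_combination smul_left_injective ℂ m0 this)
  have s2 : ∀ a, s u a * s u a = s u (a + a) * s u (a + a) := fun a => by
    have h3 : tv S (u + (1 : F) • v) a * tv S (u + (-1 : F) • v) a = tv S u (a + a) * tv S v (a + a) :=
      Subtype.ext (isom_ext fun x => by
        change (tv S _ a).1.1 ((tv S _ a).1.1 x) = (tv S _ _).1.1 ((tv S _ _).1.1 x)
        simp [tv_apply, huv, S.h_swap_zero huv, symp_h_self]
        module)
    have := LinearMap.congr_fun (congrArg ω h3) m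
    simp only [map_mul, hs, End.mul_apply, LinearMap.smul_apply, map_smul, DW_apply hψ h2 m1, DW_apply hψ h2 m2,
      DW_apply hψ h2 (m3 _), smul_smul, cj (u + (1 : F) • v) (by simpa using hb 1 1 (by simp)),
      cj (u + (-1 : F) • v) (by simpa using hb 1 (-1) (by simp)), cj v (by simpa using hb 0 1)] at this
    have h5 : ψ (a * (r + 1 * r') ^ 2) * ψ (a * (r + -1 * r') ^ 2) = ψ ((a + a) * r ^ 2) * ψ ((a + a) * r' ^ 2) := by
      simp only [← AddChar.map_add_eq_mul]
      congr 1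
      ring
    exact mul_right_cancel₀ (mul_ne_zero (ψ.val_isUnit ((a + a) * r ^ 2)).ne_zero (ψ.val_isUnit ((a + a) * r' ^ 2)).ne_zero)
      (by linear_combination smul_left_injective ℂ m0 this - s u a * s u a * h5)
  refine ⟨ω, h1, fun x a => ?_⟩
  by_cases hx : x = 0
  · refine Ev_ext hψ h2 hW0 hW x fun _ m _ => ?_
    rw [DW_apply hψ h2 (r := 0) (by simp [hx, hW0]), hx, show tv S (0 : V) a = 1 from Subtype.ext (eich_zero_left _ _)]
    simp
  have h3 := s2 (a / 2)
  rw [← s1, show a / 2 + a / 2 = a by field_simp; ring] at h3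
  rw [hs, cj x hx, mul_right_eq_self₀.1 h3.symm |>.resolve_right (s0 a), one_smul]

theorem weil_pkg (h5 : 5 ≤ finrank ℂ M) : ∃ χ : ℂ → S.E → ℂ, (∀ ε, ε * ε = 1 → IsIrrCharacter S.E (χ ε) ∧
    2 * χ ε 1 = finrank ℂ M + ε ∧ (∀ v a, ¬ IsSquare a → ∑ t, ψ (-(t * a)) * χ ε (tv S v t) = 0) ∧
      ∃ v, ∑ t, ψ (-(t * 1)) * χ ε (tv S v t) ≠ 0) ∧ ∀ (k : ℕ) (ρ : Representation ℂ S.E (Fin k → ℂ)), ρ.IsIrreducible →
      RkOne ρ ψ → ∀ e m, m ≠ 0 → m ∈ ZW ρ ψ (tv S e) 1 → ρ.character = χ 1 ∨ ρ.character = χ (-1) := by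
  obtain ⟨ω, h1, h3⟩ := exists_omega hψ h2 hS hW0 hW hM hP htr hPW h4
  obtain ⟨b, hb⟩ := exists_heis_basis hψ h2 hS hW0 hW hM
  have : Finite S.Isom := finite_isom
  have := Fintype.ofFinite S.E
  have hc : ∀ g, ω g * P = P * ω g := fun g => by
    rw [hPW, mul_smul_comm, smul_mul_assoc, mul_sum, sum_mul, ← Equiv.sum_comp g.1.1.toEquiv fun v => W v * ω g]
    exact congrArg _ (sum_congr rfl fun v _ => h1 g v)
  let σ : ∀ ε : ℂ, Representation ℂ S.E (P.eigenspace ε) := fun ε =>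
    Representation.subrepresentation ω _ fun g => mapsTo_eig P (hc g) ε
  have hσ : ∀ ε g, ε * ε = 1 → 2 * (σ ε).character g = LinearMap.trace ℂ M (ω g) + ε * LinearMap.trace ℂ M (ω g * P) :=
    fun ε g hε => trace_eig P hP hε (hc g)
  have hd : ∀ ε, ε * ε = 1 → 2 ≤ finrank ℂ (P.eigenspace ε) := fun ε hε => by
    have := finrank_eig P hP hε
    rw [htr] at this
    obtain rfl | rfl := mul_self_eq_one_iff.1 hε
    · rw [mul_one] at this
      have : 2 * finrank ℂ (P.eigenspace 1) = finrank ℂ M + 1 := by exact_mod_cast this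
      omega
    · have : 2 * finrank ℂ (P.eigenspace (-1)) + 1 = finrank ℂ M := by
        have : 2 * (finrank ℂ (P.eigenspace (-1)) : ℂ) + 1 = finrank ℂ M := by linear_combination this
        exact_mod_cast this
      omega
  obtain ⟨x, x0⟩ : ∃ x : V, x ≠ 0 := by
    have := Module.nontrivial_of_finrank_pos (R := F) (M := V) (by omega)
    exact exists_ne 0
  have irr : ∀ ε, ε * ε = 1 → (σ ε).IsIrreducible := fun ε hε => (isIrreducible_iff _).2
    ⟨Module.nontrivial_of_finrank_pos (R := ℂ) (by have := hd ε hε; omega), fun U hU => by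
    obtain ⟨π, π1, π2, π3⟩ := exists_eqv_proj ω ⊤ (U.map (P.eigenspace ε).subtype) (by
      rintro g - _ ⟨m, hm, rfl⟩
      exact ⟨_, hU g m hm, rfl⟩)
    have c1 : ∀ v, v ≠ 0 → b.repr π v = b.repr π x := fun v hv => by
      obtain ⟨g, rfl⟩ := symp_tr hS x v trivial x0 trivial hv
      have e1 : π * ω g = (∑ v, b.repr π v • b (g.1.1 v)) * ω g := by
        rw [show π * ω g = ω g * π from LinearMap.ext (π3 g trivial)]
        conv_lhs => rw [← b.sum_repr π]
        simp only [mul_sum, sum_mul, mul_smul_comm, smul_mul_assoc, hb, h1]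
      conv_lhs => rw [((Group.isUnit g).map ω).mul_right_cancel e1]
      simp [Finsupp.single_apply]
    have c2 : c ≠ 0 := fun h => by simp [hPW, h] at htr
    have c3 : π = (b.repr π 0 - b.repr π x) • 1 + (b.repr π x * c⁻¹) • P := by
      rw [hPW, smul_smul, inv_mul_cancel_right₀ c2, smul_sum, ← hW0]
      conv_lhs => rw [← b.sum_repr π]
      rw [← sub_eq_iff_eq_add, ← sum_sub_distrib, sum_eq_single 0 (fun v _ hv => by rw [hb, c1 v hv, sub_self]) (by simp),
        hb, sub_smul]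
    obtain ⟨s, hs⟩ : ∃ s : ℂ, ∀ m : P.eigenspace ε, π m = s • m := ⟨_, fun m => by
      rw [c3, LinearMap.add_apply, LinearMap.smul_apply, LinearMap.smul_apply, End.mem_eigenspace_iff.1 m.2, smul_smul,
        End.one_apply, ← add_smul]⟩
    by_cases s0 : s = 0
    · exact Or.inl ((Submodule.eq_bot_iff _).2 fun m hm => Subtype.ext (by simpa [hs, s0] using (π2 m ⟨m, hm, rfl⟩).symm))
    · refine Or.inr (Submodule.eq_top_iff'.2 fun m => ?_)
      obtain ⟨m', h, h'⟩ := π1 m
      rw [hs] at h'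
      exact (U.smul_mem_iff s0).1 ((Subtype.ext h' : m' = s • m) ▸ h)⟩
  have sq : ∀ ε v a m, m ≠ 0 → m ∈ ZW (σ ε) ψ (tv S v) a → IsSquare a := fun ε v a m m0 hm => by
    by_contra hn
    refine m0 (Subtype.ext (Ev_ind hψ h2 hW0 hW v (q := ZW ω ψ (tv S v) a) (p := ⊥) (fun t m hm s => ?_)
      (fun r m h h' => not_not.1 fun h0 => hn ?_) fun t => congrArg Subtype.val (hm t)))
    · rw [← End.mul_apply, h1, tv_fix (by simp [symp_h_self]), End.mul_apply, hm s, map_smul]
    · rw [ZW_uniq hψ h0 h fun t => (LinearMap.congr_fun (h3 v t) m).trans (DW_apply hψ h2 h' t)]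
      exact IsSquare.sq r
  have ic : ∀ ε, ε * ε = 1 → IsIrrCharacter S.E (σ ε).character := fun ε hε =>
    have := irr ε hε
    isIrrCharacter_character _
  refine ⟨fun ε => (σ ε).character, fun ε hε => ⟨ic ε hε, (hσ ε 1 hε).trans (by simp [htr]),
    fun v a ha => ?_, ?_⟩, fun k ρ hρ hR e m m0 hm => ?_⟩
  · refine (sum_char (σ ε) hψ (tv_add v) a).trans ?_
    rw [(Submodule.eq_bot_iff _).2 fun m hm => not_not.1 fun h => ha (sq ε v a m h hm)]
    simp
  · have := irr ε hε
    obtain ⟨v, a, m, a0, m0, hm⟩ := exists_ZW (σ ε) hψ hS (exists_ne_one_of_two_le (σ ε) (hd ε hε))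
    obtain ⟨r, rfl⟩ := (isSquare_iff_exists_sq _).1 (sq ε v a m m0 hm)
    have b1 := ZW_smul hm r⁻¹
    rw [← mul_pow, inv_mul_cancel₀ (by simpa using a0), one_pow] at b1
    refine ⟨r⁻¹ • v, (sum_char (σ ε) hψ (tv_add _) 1).trans_ne (mul_ne_zero (Nat.cast_ne_zero.2 Fintype.card_ne_zero) ?_)⟩
    exact Nat.cast_ne_zero.2 (Nat.pos_iff_ne_zero.1 (one_le_finrank_of_ne_bot ((Submodule.ne_bot_iff _).2 ⟨m, b1, m0⟩)))
  have hirr := ((isIrreducible_iff ρ).1 hρ).2
  have hI : ∀ m, (∀ g, ρ g m = m) → m = 0 := fun m' hm' => (Submodule.eq_bot_iff _).1 ((hirr ρ.invariants fun g v hv => by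
    rwa [hv g]).resolve_right fun h => m0 (by
      have := ZW_uniq hψ (a := 0) (b := 1) (z := tv S e) (ρ := ρ) m0 (fun t => by
        simpa using (h ▸ Submodule.mem_top : m ∈ ρ.invariants) _) hm
      simp at this)) _ hm'
  have hQ := fun v a m => sq_all hψ h2 hS h4 hR hI hirr m0 hm (v := v) (a := a) (m := m)
  let Q : Submodule ℂ (End ℂ M × End ℂ (Fin k → ℂ)) := Submodule.span ℂ (Set.range fun v => (W v + W (-v), AW ρ ψ v))
  have q0 : ∀ v, (W v + W (-v), AW ρ ψ v) ∈ Q := fun v => Submodule.subset_span ⟨v, rfl⟩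
  have q1 : Q * Q ≤ Q := by
    rw [Submodule.span_mul_span, Submodule.span_le]
    rintro _ ⟨_, ⟨v, rfl⟩, _, ⟨w, rfl⟩, rfl⟩
    have := add_mem (Q.smul_mem (ψ (S.h v w)) (q0 (v + w))) (Q.smul_mem (ψ (-S.h v w)) (q0 (v - w)))
    rw [Prod.smul_mk, Prod.smul_mk, Prod.mk_add_mk, ← AW_mul hψ h2 hS h4 hR hI hQ v w] at this
    change (_ * _, _ * _) ∈ Q
    convert this using 2
    simp only [add_mul, mul_add, hW, map_neg, LinearMap.neg_apply, neg_neg, neg_add, sub_eq_add_neg, smul_add]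
    abel
  have q2 : ∀ g, (ω g, ρ g) ∈ Q := T_ind hS (fun g k a b => by simpa using q1 (Submodule.mul_mem_mul a b)) fun v a => by
    rw [h3, DW, tv_AW hψ h2 hQ, prod_mk_sum]
    exact sum_mem fun t _ => Q.smul_mem (kk ψ a t) (q0 (t • v))
  have n0 : (finrank ℂ M : ℂ) ≠ 0 := Nat.cast_ne_zero.2 (by omega)
  have t1 : ∀ v, LinearMap.trace ℂ M (W v * P) = 1 := fun v => by
    rw [← htr]
    simp [hPW, mul_sum, hW, trace_W hψ h2 hS hW0 hW hM, add_eq_zero_iff_eq_neg', symp_h_self]
  obtain ⟨α, β, h⟩ : ∃ α β : ℂ, ∀ p ∈ Q, LinearMap.trace ℂ _ p.2 = α * LinearMap.trace ℂ M p.1 +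
      β * LinearMap.trace ℂ M (p.1 * P) := by
    refine ⟨(LinearMap.trace ℂ _ (AW ρ ψ 0) - LinearMap.trace ℂ _ (AW ρ ψ x)) / (2 * finrank ℂ M),
      LinearMap.trace ℂ _ (AW ρ ψ x) / 2, fun p hp => ?_⟩
    induction hp using Submodule.span_induction with
    | mem p hp =>
      obtain ⟨v, rfl⟩ := hp
      simp only [add_mul, map_add, t1, trace_W hψ h2 hS hW0 hW hM, neg_eq_zero]
      split_ifs with hv
      · rw [hv]
        field_simp
        ring
      · obtain ⟨g, rfl⟩ := symp_tr hS x v trivial x0 trivial hv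
        have := LinearMap.trace_mul_comm ℂ (AW ρ ψ (g.1.1 x) * ρ g) (ρ g⁻¹)
        rw [mul_assoc, ← map_mul, mul_inv_cancel, map_one, mul_one, AW, Fn_map (tv_conj rfl), ← mul_assoc, ← map_mul,
          inv_mul_cancel, map_one, one_mul] at this
        simp only [AW, this]
        ring
    | zero => simp
    | add p p' _ _ a b => simp only [Prod.snd_add, Prod.fst_add, add_mul, map_add, a, b]; ring
    | smul s p _ a => simp only [Prod.smul_snd, Prod.smul_fst, smul_mul_assoc, map_smul, a, smul_eq_mul]; ring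
  by_contra hn
  push Not at hn
  have i0 := isIrrCharacter_character ρ
  have i1 := ic 1 (by simp)
  have i2 := ic (-1) (by simp)
  have e1 : ρ.character = (α + β) • (σ 1).character + (α - β) • (σ (-1)).character := funext fun g => by
    have : ρ.character g = α * LinearMap.trace ℂ M (ω g) + β * LinearMap.trace ℂ M (ω g * P) := h _ (q2 g)
    simp only [Pi.add_apply, Pi.smul_apply, smul_eq_mul]
    linear_combination (exp := 1) this - (α + β) / 2 * hσ 1 g (by simp) - (α - β) / 2 * hσ (-1) g (by simp)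
  have e2 := i0.classInner_self
  nth_rw 1 [e1] at e2
  simp [classInner_add_left, classInner_smul_left, i1.classInner_of_ne i0 hn.1.symm, i2.classInner_of_ne i0 hn.2.symm] at e2

end H24
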