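import Cfsg.Agent.H24.Wc1

/-! Representations of `Sp_{2n}(q)` with a weight of rank at least two have degree at least
`(q^n - 1)(q^n - q) / (2 (q + 1))` (`sp_big`). -/

set_option autoImplicit false
set_option linter.unusedSectionVars false

namespace H24
open Module H11 H11.PForm Finset
open scoped Classical

section alg
variable {F : Type*} [Field F] [Fintype F] {L : Type*} [AddCommGroup L] [Module F L] [FiniteDimensional F L]
  (T : PForm (orthP F) L)

theorem cnt_le_two {b : F} (hb : b ≠ 0) : Fintype.card F * T.cnt b ≤ Nat.card L * 2 := by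
  have := Module.finite_of_finite F (M := L)
  have := Fintype.ofFinite L
  rw [orth_cnt_def, Nat.card_eq_fintype_card, Fintype.card_subtype, Nat.card_eq_fintype_card]
  by_cases h : ∃ w, T.q w = b
  · obtain ⟨w, hw⟩ := h
    refine card_mul_le_card_mul (fun (t : F) (z : L) => T.q (z + t • w) = b) (fun t _ => ?_) fun z _ => ?_
    · exact card_le_card_of_injOn (· - t • w) (fun x hx => by simpa using hx) (sub_left_injective.injOn)
    · rw [← Polynomial.natDegree_quadratic (b := T.h z w) (c := T.q z - b) hb]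
      refine Polynomial.card_le_degree_of_subset_roots fun t ht => ?_
      rw [Polynomial.mem_roots (Polynomial.ne_zero_of_natDegree_gt (n := 0) (by rw [Polynomial.natDegree_quadratic hb]; simp))]
      simp [orth_q_add, orth_q_smul, hw] at ht ⊢
      linear_combination ht
  · rw [card_eq_zero.2 (filter_eq_empty_iff.2 fun w _ hw => h ⟨w, hw⟩)]
    simp

theorem cnt_le_plane {U : Submodule F L} (hU : (T.restrict U).Nondeg) (hd : finrank F U = 2) {a : F} (ha : a ≠ 0) :
    T.cnt a ≤ (Fintype.card F + 1) * Nat.card (T.perp U) := by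
  have := Module.finite_of_finite F (M := L)
  have := Fintype.ofFinite (T.perp U)
  have h1 : T.cnt a ≤ ∑ k : T.perp U, (T.restrict U).cnt (a - T.q k) := by
    simp only [orth_cnt_def]
    rw [← Nat.card_sigma]
    refine Nat.card_le_card_of_surjective (fun p => ⟨p.2.1.1 + p.1.1, ?_⟩) fun z => ?_
    · rw [orth_q_add, p.1.2 _ p.2.1.2, show T.q p.2.1.1 = _ from p.2.2]
      ring
    · obtain ⟨u, hu, k, hk, h⟩ := Submodule.mem_sup.1 ((T.isCompl_perp hU).sup_eq_top ▸ Submodule.mem_top (x := z.1))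
      exact ⟨⟨⟨k, hk⟩, ⟨u, hu⟩, by rw [← z.2, ← h, orth_q_add, hk u hu]; simp⟩, Subtype.ext h⟩
  have h2 : ∀ e, ((T.restrict U).cnt e : ℤ) = Fintype.card F + (if (T.restrict U).HasTS 1 then 1 else -1) *
      if e = 0 then (Fintype.card F - 1 : ℤ) else -1 := fun e => by
    have := orth_cnt_even e 1 hU hd
    rw [Nat.card_eq_fintype_card] at this
    exact mul_left_cancel₀ (Nat.cast_ne_zero.2 (Fintype.card_ne_zero (α := F))) (by linear_combination this)
  have h3 := cnt_le_two (T.restrict (T.perp U)) ha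
  rw [orth_cnt_def, Nat.card_eq_fintype_card, Fintype.card_subtype, Nat.card_eq_fintype_card, card_filter] at h3
  rw [Nat.card_eq_fintype_card]
  zify at h1 h3 ⊢
  refine h1.trans ?_
  simp only [h2]
  split_ifs
  · have : ∀ k : T.perp U, (Fintype.card F + 1 * if a - T.q k = 0 then (Fintype.card F - 1 : ℤ) else -1) =
        Fintype.card F - 1 + Fintype.card F * if T.q k = a then 1 else 0 := fun k => by
      simp only [sub_eq_zero, eq_comm (a := a)]
      split_ifs <;> ring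
    simp only [this, sum_add_distrib, ← mul_sum, sum_const, card_univ, nsmul_eq_mul]
    have h4 : (Fintype.card F * ∑ k : T.perp U, if T.q k = a then 1 else 0 : ℤ) ≤ Fintype.card (T.perp U) * 2 := by
      convert h3
      rfl
    linarith
  · rw [mul_comm, ← nsmul_eq_mul, ← card_univ]
    refine sum_le_card_nsmul _ _ _ fun k _ => ?_
    split_ifs <;> omega

theorem plane_nondeg (h2 : (2 : F) ≠ 0) {p : Fin 2 → L} (h : ∀ i, T.q (p i) ≠ 0) (h' : T.h (p 0) (p 1) = 0) (c : Fin 2 → F)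
    (hc : ∀ i, T.h (∑ j, c j • p j) (p i) = 0) : c = 0 := by
  have h0 := hc 0
  have h1 := hc 1
  ext i
  fin_cases i <;> simp_all [orth_h_self, T.orth_symm (p 0) (p 1)]

theorem orbit_bound (h2 : (2 : F) ≠ 0) (Ω : Finset (L → F)) (hq : ∀ Q ∈ Ω, ∃ T : PForm (orthP F) L, T.q = Q)
    (hg : ∀ Q ∈ Ω, ∀ g : L →ₗ[F] L, Function.Injective g → Q ∘ g ∈ Ω) (hT : T.q ∈ Ω) {p : Fin 2 → L}
    (h : ∀ i, T.q (p i) ≠ 0) (h' : T.h (p 0) (p 1) = 0) :
    (Fintype.card F ^ finrank F L - 1) * (Fintype.card F ^ finrank F L - Fintype.card F) ≤ 2 * (Fintype.card F + 1) * #Ω := by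
  have := Module.finite_of_finite F (M := L)
  have := Fintype.ofFinite L
  have hp : LinearIndependent F p := Fintype.linearIndependent_iff.2 fun c hc => congrFun
    (plane_nondeg T h2 h h' c fun i => by simp [hc])
  obtain ⟨k, hk⟩ : ∃ k, finrank F L = k + 2 := ⟨finrank F L - 2, by have := hp.fintype_card_le_finrank; simp at this; omega⟩
  have key := card_mul_le_card_mul (s := univ) (t := Ω) (m := Fintype.card F ^ k * Fintype.card F ^ k)
    (n := (Fintype.card F + 1) * Fintype.card F ^ k * (Fintype.card F ^ k * 2))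
    (fun (s : {s : Fin 2 → L // LinearIndependent F s}) Q => (∀ i, Q (s.1 i) = T.q (p i)) ∧ Q (s.1 0 + s.1 1) = T.q (p 0 + p 1))
    (fun s _ => ?_) fun Q hQ => ?_
  · rw [card_univ, ← Nat.card_eq_fintype_card, card_linearIndependent (by omega)] at key
    refine Nat.le_of_mul_le_mul_right (c := Fintype.card F ^ k * Fintype.card F ^ k) ?_ (by positivity)
    simpa [mul_comm, mul_left_comm, mul_assoc] using key
  · have : FiniteDimensional F (Submodule.span F (Set.range s.1)) := inferInstance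
    obtain ⟨g, e⟩ := Submodule.exists_linearEquiv_restrict_eq (s.2.linearCombinationEquiv.symm ≪≫ₗ hp.linearCombinationEquiv)
    have e' : ∀ i, g (s.1 i) = p i := fun i => by simpa using (e (s.2.linearCombinationEquiv (Finsupp.single i 1))).symm
    let A := (Submodule.span F (Set.range s.1)).dualAnnihilator
    have hA : ∀ (α : A) i, α.1 (s.1 i) = 0 := fun α i =>
      (Submodule.mem_dualAnnihilator _).1 α.2 _ (Submodule.subset_span ⟨i, rfl⟩)
    have hc : Nat.card A = Fintype.card F ^ k := by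
      have := Subspace.finrank_add_finrank_dualAnnihilator_eq (Submodule.span F (Set.range s.1))
      rw [finrank_span_eq_card s.2, hk, Fintype.card_fin] at this
      rw [Module.natCard_eq_pow_finrank (K := F), Nat.card_eq_fintype_card, show finrank F A = k by simp only [A]; omega]
    let f : (Fin 2 → A) → L →ₗ[F] L := fun α => g.toLinearMap ∘ₗ (1 + ∑ i, (α i).1.smulRight (s.1 i))
    have hf : ∀ α z, f α z = g z + ∑ i, (α i).1 z • p i := fun α z => by simp [f, e']
    have hf' : ∀ α i, f α (s.1 i) = p i := fun α i => by simp [hf, hA, e']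
    have := Module.finite_of_finite F (M := Fin 2 → A)
    have := Fintype.ofFinite (Fin 2 → A)
    rw [← sq, ← hc, show Nat.card A ^ 2 = Nat.card (Fin 2 → A) by rw [Nat.card_fun, Nat.card_fin], Nat.card_eq_fintype_card,
      ← card_univ]
    refine card_le_card_of_injOn (fun α => T.q ∘ f α) (fun α _ => ?_) fun α _ β _ hαβ => ?_
    · refine mem_coe.2 ((mem_bipartiteAbove _).2 ⟨hg _ hT _ (g.injective.comp ((injective_iff_map_eq_zero _).2 fun z hz => ?_)),
        by simp [hf']⟩)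
      have : ∀ i, (α i).1 z = 0 := fun i => by simpa [hA] using congrArg (α i).1 hz
      simpa [this] using hz
    · ext i z
      refine sub_eq_zero.1 (congrFun (plane_nondeg T h2 h h' (fun i => (α i).1 z - (β i).1 z) fun i => ?_) i)
      have h1 := congrFun hαβ (z + s.1 i)
      have h3 := congrFun hαβ z
      simp only [Function.comp, map_add, orth_q_add, hf'] at h1 h3
      rw [h3, add_right_inj, hf, hf] at h1
      simpa [sub_smul, sub_eq_zero] using h1
  · obtain ⟨R, rfl⟩ := hq Q hQ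
    by_cases hn : ∃ s : Fin 2 → L, LinearIndependent F s ∧ (∀ i, R.q (s i) = T.q (p i)) ∧ R.q (s 0 + s 1) = T.q (p 0 + p 1)
    swap
    · exact (card_eq_zero.2 (eq_empty_of_forall_notMem fun s hs => hn ⟨s.1, s.2, ((mem_bipartiteBelow _).1 hs).2⟩)).trans_le
        (Nat.zero_le _)
    have h0 : ∀ s : Fin 2 → L, (∀ i, R.q (s i) = T.q (p i)) ∧ R.q (s 0 + s 1) = T.q (p 0 + p 1) → R.h (s 0) (s 1) = 0 :=
      fun s hs => by simpa [orth_q_add, hs.1, h'] using hs.2
    obtain ⟨s, s1, s2⟩ := hn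
    have hU : (R.restrict (Submodule.span F (Set.range s))).Nondeg := (R.restrict_nondeg_iff' _).2 fun x hx h1 => by
      obtain ⟨c, rfl⟩ := (Submodule.mem_span_range_iff_exists_fun F).1 hx
      simp [plane_nondeg R h2 (fun i => s2.1 i ▸ h i) (h0 s s2) c fun i => h1 _ (Submodule.subset_span ⟨i, rfl⟩)]
    have hd := finrank_span_eq_card s1
    have h1 := cnt_le_plane R hU hd (h 0)
    have h3 := Submodule.finrank_add_eq_of_isCompl (R.isCompl_perp hU)
    rw [hd, hk, Fintype.card_fin] at h3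
    rw [Module.natCard_eq_pow_finrank (K := F), Nat.card_eq_fintype_card, show finrank F _ = k by omega, orth_cnt_def,
      Nat.card_eq_fintype_card] at h1
    refine le_trans ?_ (Nat.mul_le_mul_right _ h1)
    rw [← smul_eq_mul, ← card_univ]
    refine le_trans ?_ (sum_le_card_nsmul _ (fun x : {x // R.q x = T.q (p 0)} =>
      (R.restrict (LinearMap.ker (R.h x))).cnt (T.q (p 1))) _ fun x _ => ?_)
    · simp only [orth_cnt_def]
      rw [← Nat.card_sigma, ← Nat.card_eq_finsetCard]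
      refine Nat.card_le_card_of_injective (fun s => have := ((mem_bipartiteBelow _).1 s.2).2
        ⟨⟨s.1.1 0, this.1 0⟩, ⟨s.1.1 1, h0 _ this⟩, this.1 1⟩) fun s t hst => Subtype.ext (Subtype.ext (funext fun i => ?_))
      fin_cases i
      exacts [congrArg (·.1.1) hst, congrArg (·.2.1.1) hst]
    · have h4 := cnt_le_two (R.restrict (LinearMap.ker (R.h x))) (h 1)
      have h5 := Module.Dual.finrank_ker_add_one_of_ne_zero (f := R.h x) fun h5 =>
        mul_ne_zero h2 (h 0) (by rw [← x.2, ← orth_h_self, h5]; rfl)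
      rw [Module.natCard_eq_pow_finrank (K := F), Nat.card_eq_fintype_card, show finrank F _ = k + 1 by omega, pow_succ',
        mul_assoc] at h4
      exact Nat.le_of_mul_le_mul_left h4 Fintype.card_pos

theorem exists_wdiag {u v : L} (h : T.h u v ^ 2 ≠ 4 * T.q u * T.q v) :
    ∃ p : Fin 2 → L, (∀ i, T.q (p i) ≠ 0) ∧ T.h (p 0) (p 1) = 0 := by
  have key : ∀ u v, T.q u ≠ 0 → T.h u v ^ 2 ≠ 4 * T.q u * T.q v →
      ∃ p : Fin 2 → L, (∀ i, T.q (p i) ≠ 0) ∧ T.h (p 0) (p 1) = 0 := fun u v h1 h => by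
    refine ⟨![u, (2 * T.q u) • v - T.h u v • u], Fin.forall_fin_two.2 ⟨h1, fun h3 => h (mul_left_cancel₀ h1 ?_)⟩, ?_⟩
    · simp [orth_q_sub, orth_q_smul, T.orth_symm u v] at h3
      linear_combination -h3
    · simp [orth_h_self, mul_comm]
  by_cases hu : T.q u = 0
  · by_cases hv : T.q v = 0
    · exact key (u + v) v (by simpa [orth_q_add, hu, hv] using h) (by simpa [orth_h_self, hu, hv] using h)
    · exact key v u hv (by simpa [T.orth_symm u v, hu] using h)
  · exact key u v hu h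
end alg

variable {F : Type*} [Field F] [Fintype F] {V : Type*} [AddCommGroup V] [Module F V] [FiniteDimensional F V]
  {S : PForm (sympP F) V} {M : Type*} [AddCommGroup M] [Module ℂ M] {ρ : S.E →* End ℂ M} {ψ : AddChar F ℂ}

theorem ts_ext (hS : S.Nondeg) {X L : Submodule F V} (hX : S.TS X) (hL : S.TS L) {φ : X →ₗ[F] L} (h : Function.Injective φ) :
    ∃ g : S.E, ∀ x : X, g.1.1 x = φ x := by
  obtain ⟨g, hg⟩ := hS.witt_subspace X (L.subtype ∘ₗ φ) (L.subtype_injective.comp h)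
    ⟨fun x y => by simp [hX.h_eq x.2 y.2, hL.h_eq (φ x).2 (φ y).2], fun x => trivial⟩
  exact ⟨⟨g, hS.symp_E_eq_top ▸ trivial⟩, hg⟩

variable (hψ : ψ ≠ 1) {L : Submodule F V} (hL : S.TS L)
include hψ hL

theorem exists_joint {q : Submodule ℂ M} (hq : ∀ x ∈ L, ∀ t, ∀ m ∈ q, ρ (tv S x t) m ∈ q) {m₀ : M} (h0 : m₀ ≠ 0) (h1 : m₀ ∈ q)
    (s : Finset L) : ∃ (Q : L → F) (m : M), m ≠ 0 ∧ m ∈ q ∧ ∀ x ∈ s, m ∈ ZW ρ ψ (tv S x.1) (Q x) := by
  induction s using Finset.induction_on with
  | empty => exact ⟨0, m₀, h0, h1, by simp⟩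
  | insert x s hx ih =>
    obtain ⟨Q, m, m0, m1, m2⟩ := ih
    by_contra hn
    refine m0 (ZW_ind hψ (tv_add x.1) (q := q ⊓ ⨅ y ∈ s, ZW ρ ψ (tv S y.1) (Q y)) (p := ⊥) (fun t m hm => ⟨hq _ x.2 t m hm.1, ?_⟩)
      (fun a m hm h => not_not.1 fun h0 => hn ⟨Function.update Q x a, m, h0, hm.1, fun y hy => ?_⟩) ⟨m1, by simpa using m2⟩)
    · have := hm.2
      simp only [SetLike.mem_coe, Submodule.mem_iInf] at this ⊢
      exact fun y hy => ZW_fix (tv_fix (hL.h_eq x.2 y.2) t) m (this y hy)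
    · obtain rfl | hy := mem_insert.1 hy
      · rwa [Function.update_self]
      · have := hm.2
        simp only [SetLike.mem_coe, Submodule.mem_iInf] at this
        rw [Function.update_of_ne (ne_of_mem_of_not_mem hy hx)]
        exact this y hy

theorem exists_wform {Q : L → F} {m : M} (m0 : m ≠ 0) (h : ∀ x : L, m ∈ ZW ρ ψ (tv S x.1) (Q x)) :
    ∃ T : PForm (orthP F) L, T.q = Q := by
  have h1 : ∀ x y : L, m ∈ ZW ρ ψ (sx S x.1 y.1) (QuadraticMap.polar Q y x) := fun x y t => by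
    have h2 := mem_ZW.1 (h (x + y)) t
    have h3 := fun z : L => mem_ZW.1 (ZW_fix (sx_fix (hL.h_eq x.2 z.2) (hL.h_eq y.2 z.2) t) m (h z)) t
    rw [Submodule.coe_add, tv_sum (hL.h_eq x.2 y.2), map_mul, map_mul, End.mul_apply, End.mul_apply, h3, map_smul, h3,
      smul_smul, ← AddChar.map_add_eq_mul] at h2
    refine smul_right_injective M (ψ.val_isUnit (t * Q y + t * Q x)).ne_zero (h2.trans ?_)
    simp only [smul_smul, ← AddChar.map_add_eq_mul, QuadraticMap.polar, add_comm y]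
    congr 2
    ring
  refine ⟨orthS (QuadraticMap.ofPolar Q (fun c x => ?_) (fun x x' y => ?_) fun c x y => ?_), rfl⟩
  · exact ZW_uniq hψ m0 (h _) (by simpa [sq] using ZW_smul (h x) c)
  · refine ZW_uniq hψ m0 (h1 _ _) fun t => ?_
    have := sp_mul (show S.h y (t • x.1) = 0 by simp [hL.h_eq y.2 x.2]) (show S.h y (t • x'.1) = 0 by simp [hL.h_eq y.2 x'.2]) 0 0
    have h2 := h1 y x t
    have h3 := h1 y x' t
    simp only [sx, map_smul, LinearMap.smul_apply, hL.h_eq x.2 x'.2, smul_zero, add_zero] at this h2 h3 ⊢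
    rw [Submodule.coe_add, smul_add, ← this, map_mul, End.mul_apply, h3, map_smul, h2, smul_smul, ← AddChar.map_add_eq_mul,
      mul_add, add_comm]
  · refine ZW_uniq hψ m0 (h1 _ _) fun t => ?_
    simpa [sx, smul_smul, mul_assoc] using h1 y x (t * c)

omit hL in
theorem sp_big [FiniteDimensional ℂ M] (h2 : (2 : F) ≠ 0) (hS : S.Nondeg) {n : ℕ} (hV : finrank F V = 2 * n) (hR : ¬ RkOne ρ ψ) :
    (Fintype.card F ^ n - 1) * (Fintype.card F ^ n - Fintype.card F) ≤ 2 * (Fintype.card F + 1) * finrank ℂ M := by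
  simp only [RkOne, not_forall] at hR
  obtain ⟨u, v, h, a, b, d, m, m0, h1, h3, h5, hd⟩ := hR
  obtain ⟨L, hL, rfl⟩ := hS.symp_exists_ts n hV.ge
  have hX : S.TS (Submodule.span F {u, v}) := ts_span (fun _ _ => trivial) (by simp [h, S.h_swap_zero h, symp_h_self])
  obtain ⟨φ, hφ⟩ := finrank_le_iff_exists_linearMap.1 (show finrank F (Submodule.span F {u, v}) ≤ finrank F L by
    have := hX.two_mul_finrank_le hS
    omega)
  obtain ⟨g, hg⟩ := ts_ext hS hX hL hφ
  have := Module.finite_of_finite F (M := L)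
  have := Fintype.ofFinite L
  let x := φ ⟨u, Submodule.subset_span (by simp)⟩
  let y := φ ⟨v, Submodule.subset_span (by simp)⟩
  have hx : g.1.1 u = x := hg ⟨u, _⟩
  have hy : g.1.1 v = y := hg ⟨v, _⟩
  obtain ⟨Q, m', n0, ⟨⟨n1, n2⟩, n3⟩, n4⟩ := exists_joint hψ hL
    (q := ZW ρ ψ (tv S x.1) a ⊓ ZW ρ ψ (tv S y.1) b ⊓ ZW ρ ψ (tv S (x + y).1) (a + b + d))
    (fun z hz t m hm => ⟨⟨ZW_fix (tv_fix (hL.h_eq hz x.2) t) m hm.1.1, ZW_fix (tv_fix (hL.h_eq hz y.2) t) m hm.1.2⟩,
      ZW_fix (tv_fix (hL.h_eq hz (x + y).2) t) m hm.2⟩) ((map_ne_zero_iff _ (rep_inj ρ g)).2 m0)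
    ⟨⟨ZW_map (tv_conj hx) h1, ZW_map (tv_conj hy) h3⟩, ZW_map (tv_conj (by simp [hx, hy])) (ZW_sum h h1 h3 h5)⟩ univ
  replace n4 := fun x => n4 x (mem_univ x)
  obtain ⟨T, rfl⟩ := exists_wform hψ hL n0 n4
  obtain ⟨p, p1, p2⟩ := exists_wdiag T (u := x) (v := y) (by
    have := ZW_uniq hψ n0 (n4 _) n3
    rw [orth_q_add, ZW_uniq hψ n0 (n4 x) n1, ZW_uniq hψ n0 (n4 y) n2, add_right_inj] at this
    rwa [ZW_uniq hψ n0 (n4 x) n1, ZW_uniq hψ n0 (n4 y) n2, this])
  refine (orbit_bound T h2 {Q | ∃ m ≠ 0, ∀ x : L, m ∈ ZW ρ ψ (tv S x.1) (Q x)} (fun Q hQ => ?_) (fun Q hQ f hf => ?_)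
    (mem_filter.2 ⟨mem_univ _, m', n0, n4⟩) p1 p2).trans (Nat.mul_le_mul_left _ (card_le_finrank_of_jes
      (fun p : L × F => ρ (tv S p.1.1 p.2)) (fun Q p => ψ (p.2 * Q p.1)) _ (fun Q hQ Q' _ e => funext fun z => ?_) fun Q hQ e => ?_))
  all_goals obtain ⟨m, m0, hm⟩ := (mem_filter.1 hQ).2
  · exact exists_wform hψ hL m0 hm
  · obtain ⟨k, hk⟩ := ts_ext hS hL hL hf
    exact mem_filter.2 ⟨mem_univ _, _, (map_ne_zero_iff _ (rep_inj ρ k⁻¹)).2 m0, fun z =>
      ZW_map (tv_conj (hk z ▸ isom_inv_apply_self k.1 z.1)) (hm (f z))⟩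
  · exact ZW_uniq hψ m0 (hm z) fun t => (hm z t).trans (congrArg (· • m) (congrFun e (z, t)))
  · exact m0 ((Submodule.eq_bot_iff _).1 e m fun p => hm p.1 p.2)

end H24
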